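import Cfsg.Agent.H4.Cliff3
import Cfsg.Agent.H4.Mult

namespace Cfsg.Agent.H4
open scoped ComplexConjugate
universe u
variable {G : Type u} [Group G]

open Classical in
theorem inducedCentralChar_eq [Fintype G] (N : Subgroup G) (hN : N.Normal) [Fintype N] (θ : N → ℂ) (n : N) :
    inducedCentralChar N θ (n : G) = (Nat.card (Subgroup.centralizer ({(n : G)} : Set G)) : ℂ)⁻¹ *
      (∑ x : G, conjBy hN x θ n) / θ 1 := by
  have h1 := H5.sum_conj_eq (A := ℂ) (n : G) (fun g => extendByZero N θ g)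
  have h2 : ∑ t : G, extendByZero N θ (t * n * t⁻¹) = ∑ x : G, conjBy hN x θ n := by
    refine Finset.sum_congr rfl fun x _ => ?_
    rw [conjBy_apply, ← H5.extendByZero_mem N θ (conjAut hN x n), conjAut_coe]
  rw [h2, nsmul_eq_mul] at h1
  have hC : (Nat.card (Subgroup.centralizer ({(n : G)} : Set G)) : ℂ) ≠ 0 := by exact_mod_cast Nat.card_pos.ne'
  have h3 : ∑ x ∈ Finset.univ.filter (fun x => IsConj (n : G) x), extendByZero N θ x =
      ∑ h ∈ Finset.univ.filter (fun h : N => IsConj (n : G) (h : G)), θ h := by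
    symm
    apply Finset.sum_bij (fun (h : N) _ => (h : G))
    · intro h hh
      simp only [Finset.mem_filter, Finset.mem_univ, true_and] at hh ⊢
      exact hh
    · intro a _ b _ hab
      exact Subtype.ext hab
    · intro b hb
      simp only [Finset.mem_filter, Finset.mem_univ, true_and] at hb
      obtain ⟨c, hc⟩ := isConj_iff.1 hb
      have hbN : b ∈ N := by rw [← hc]; exact hN.conj_mem _ n.2 c
      exact ⟨⟨b, hbN⟩, by simp only [Finset.mem_filter, Finset.mem_univ, true_and]; exact hb, rfl⟩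
    · intro a _
      rw [H5.extendByZero_mem]
  unfold inducedCentralChar
  rw [finsum_mem_eq_finite_toFinset_sum _ (Set.toFinite _)]
  rw [h1, h3, ← mul_assoc, inv_mul_cancel₀ hC, one_mul, Finset.sum_div]
  refine Finset.sum_congr ?_ fun _ _ => rfl
  ext h
  simp

theorem central_cover_iff [Fintype G] (N : Subgroup G) (hN : N.Normal) [Fintype N] (χ : IrrCharacter G) (θ : IrrCharacter N) :
    classInner (fun n : N => (χ : G → ℂ) n) (θ : N → ℂ) ≠ 0 ↔
      ∀ n : N, centralChar (χ : G → ℂ) (n : G) = inducedCentralChar N (θ : N → ℂ) (n : G) := by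
  classical
  have hG : (Nat.card G : ℂ) ≠ 0 := by exact_mod_cast Nat.card_pos.ne'
  have hχ1 := H5.IsIrr.one_ne_zero χ.2
  have hθ1 := H5.IsIrr.one_ne_zero θ.2
  have key : ∀ n : N, centralChar (χ : G → ℂ) (n : G) = inducedCentralChar N (θ : N → ℂ) (n : G) ↔
      (Nat.card G : ℂ) * (θ : N → ℂ) 1 * (χ : G → ℂ) n = (∑ x : G, conjBy hN x (θ : N → ℂ) n) * (χ : G → ℂ) 1 := by
    intro n
    rw [inducedCentralChar_eq N hN]
    unfold centralChar
    have hC : (Nat.card (Subgroup.centralizer ({(n : G)} : Set G)) : ℂ) ≠ 0 := by exact_mod_cast Nat.card_pos.ne'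
    have h1 : (Nat.card (Subgroup.centralizer ({(n : G)} : Set G)) : ℂ) * (Subgroup.centralizer ({(n : G)} : Set G)).index = Nat.card G := by
      exact_mod_cast H5.card_centralizer_mul_index (n : G)
    have h2 : ((Subgroup.centralizer ({(n : G)} : Set G)).index : ℂ) = (Nat.card G : ℂ) * (Nat.card (Subgroup.centralizer ({(n : G)} : Set G)) : ℂ)⁻¹ := by
      rw [← h1]; field_simp
    rw [h2, div_eq_div_iff hχ1 hθ1]
    constructor
    · intro h
      have := congrArg (fun t => (Nat.card (Subgroup.centralizer ({(n : G)} : Set G)) : ℂ) * t) h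
      field_simp at this
      linear_combination this
    · intro h
      field_simp
      linear_combination h
  constructor
  · intro h n
    rw [key]
    have h1 := congrFun (clifford_restrict hN _ χ.2 _ θ.2 h) n
    have h2 := clifford_degree hN _ χ.2 _ θ.2 h
    have h3 := sum_conj_orbit hN (θ : N → ℂ) (A := ℂ) (fun ψ => ψ n)
    rw [h3, nsmul_eq_mul, h2]
    have hI : (Nat.card (inertia hN (θ : N → ℂ)) : ℂ) * (inertia hN (θ : N → ℂ)).index = Nat.card G := by
      exact_mod_cast Subgroup.card_mul_index _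
    rw [← hI]
    have h4 : (∑ᶠ ψ ∈ {ψ : N → ℂ | ∃ g : G, ψ = conjBy hN g (θ : N → ℂ)}, ψ) n =
        ∑ᶠ ψ ∈ {ψ : N → ℂ | ∃ g : G, ψ = conjBy hN g (θ : N → ℂ)}, ψ n := by
      have hfin : {ψ : N → ℂ | ∃ g : G, ψ = conjBy hN g (θ : N → ℂ)}.Finite :=
        (Set.finite_range (fun g : G => conjBy hN g (θ : N → ℂ))).subset (by rintro ψ ⟨g, rfl⟩; exact ⟨g, rfl⟩)
      rw [finsum_mem_eq_finite_toFinset_sum _ hfin, finsum_mem_eq_finite_toFinset_sum _ hfin, Finset.sum_apply]
    have h5 : (χ : G → ℂ) n = classInner (fun n : N => (χ : G → ℂ) n) (θ : N → ℂ) *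
        ∑ᶠ ψ ∈ {ψ : N → ℂ | ∃ g : G, ψ = conjBy hN g (θ : N → ℂ)}, ψ n := by
      rw [← h4]; exact h1
    rw [h5]; ring
  · intro h h0
    have h1 : ∀ x : G, classInner (fun n : N => (χ : G → ℂ) n) (conjBy hN x (θ : N → ℂ)) = 0 := by
      intro x
      have := classInner_conjBy hN x (fun n : N => (χ : G → ℂ) n) (θ : N → ℂ)
      rw [restrict_conjBy hN x (H5.irr_classFun χ), h0] at this
      exact this
    have h2 : classInner (fun n : N => (χ : G → ℂ) n) (∑ x : G, conjBy hN x (θ : N → ℂ)) = 0 := by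
      rw [H5.classInner_sum_right]
      exact Finset.sum_eq_zero fun x _ => h1 x
    have h3 : (∑ x : G, conjBy hN x (θ : N → ℂ)) = ((Nat.card G : ℂ) * (θ : N → ℂ) 1 / (χ : G → ℂ) 1) • (fun n : N => (χ : G → ℂ) n) := by
      funext n
      rw [Finset.sum_apply, Pi.smul_apply, smul_eq_mul]
      have := (key n).1 (h n)
      field_simp
      linear_combination -this
    rw [h3, H5.classInner_smul_right, mul_eq_zero] at h2
    rcases h2 with h2 | h2
    · have h4 : (Nat.card G : ℂ) * (θ : N → ℂ) 1 / (χ : G → ℂ) 1 ≠ 0 := div_ne_zero (mul_ne_zero hG hθ1) hχ1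
      exact h4 ((map_eq_zero _).1 h2)
    · have h5 := H5.classInner_self_eq_zero h2
      exact hχ1 (congrFun h5 1)

end Cfsg.Agent.H4
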