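import Cfsg.Agent.H4.Misc1
import Cfsg.Agent.H4.Mult
import Cfsg.Agent.H4.NzCount
import Cfsg.Agent.H4.U4757

namespace Cfsg.Agent.H4
open scoped ComplexConjugate
universe u
variable {G : Type u} [Group G]

theorem card_le_sum_norm [Finite G] (n : ℕ) [NeZero n] {χ : G → ℂ} (hχ : IsCharacter G χ) (g : G) (hg : g ^ n = 1)
    (h0 : χ g ≠ 0) : (Fintype.card (GalIdx n) : ℝ) ≤ ∑ s : GalIdx n, ‖χ (g ^ galExp n s)‖ := by
  have h1 := one_le_prod_norm n hχ g hg h0
  have hc : (0 : ℝ) < Fintype.card (GalIdx n) := by exact_mod_cast Fintype.card_pos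
  have h3 := Real.geom_mean_le_arith_mean_weighted (Finset.univ : Finset (GalIdx n))
    (fun _ => (Fintype.card (GalIdx n) : ℝ)⁻¹) (fun s => ‖χ (g ^ galExp n s)‖)
    (fun _ _ => by positivity) (by rw [Finset.sum_const, Finset.card_univ, nsmul_eq_mul, mul_inv_cancel₀ hc.ne'])
    (fun _ _ => by positivity)
  rw [Real.finset_prod_rpow _ _ (fun _ _ => by positivity)] at h3
  have h4 : (1 : ℝ) ≤ (∏ s : GalIdx n, ‖χ (g ^ galExp n s)‖) ^ ((Fintype.card (GalIdx n) : ℝ)⁻¹) := by
    apply Real.one_le_rpow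
    · exact h1
    · positivity
  have h5 := h4.trans h3
  rw [← Finset.mul_sum] at h5
  rw [← mul_le_mul_iff_right₀ (inv_pos.2 hc), inv_mul_cancel₀ hc.ne']
  exact h5

open Classical in
/-- the average of a character over cosets of a normal subgroup is a character -/
theorem avg_char [Fintype G] (N : Subgroup G) (hN : N.Normal) {ω : G → ℂ} (hω : IsCharacter G ω) :
    IsCharacter G (fun g => (Nat.card N : ℂ)⁻¹ * ∑ n : N, ω ((n : G) * g)) := by
  obtain ⟨m, hm1, hm2⟩ := IsChar.exists_mult hω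
  have h1 : (fun g => (Nat.card N : ℂ)⁻¹ * ∑ n : N, ω ((n : G) * g)) =
      ∑ ψ : IrrCharacter G, (if ∀ n : N, (ψ : G → ℂ) n = (ψ : G → ℂ) 1 then m ψ else 0) • (ψ : G → ℂ) := by
    funext g
    rw [Finset.sum_apply]
    simp only [hm2]
    rw [Finset.sum_comm, Finset.mul_sum]
    refine Finset.sum_congr rfl fun ψ _ => ?_
    rw [← Finset.mul_sum]
    by_cases h : ∀ n : N, (ψ : G → ℂ) n = (ψ : G → ℂ) 1
    · rw [if_pos h, Pi.smul_apply, nsmul_eq_mul]
      have := (avg_irr hN _ ψ.2 g).1 h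
      rw [← this]; ring
    · rw [if_neg h, Pi.smul_apply, zero_smul]
      have := (avg_irr hN _ ψ.2 g).2 h
      linear_combination (m ψ : ℂ) * this
  rw [h1]
  exact H5.isCharacter_sum _ _ (fun ψ _ => H5.isCharacter_nsmul (IsIrr.isCharacter ψ.2) _)

open Classical in
theorem coset_zero_iff [Fintype G] (N : Subgroup G) (hN : N.Normal) (χ : IrrCharacter G) :
    ¬ IsIrrCharacter ↥N (fun n : ↥N => (χ : G → ℂ) n) ↔ ∃ x : G, ∀ n : ↥N, (χ : G → ℂ) ((n : G) * x) = 0 := by
  set ω : G → ℂ := fun g => (χ : G → ℂ) g * conj ((χ : G → ℂ) g) with hω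
  have hωc : IsCharacter G ω := H5.isCharacter_mul (IsIrr.isCharacter χ.2) (H5.isCharacter_conj (IsIrr.isCharacter χ.2))
  set A : G → ℂ := fun g => (Nat.card N : ℂ)⁻¹ * ∑ n : N, ω ((n : G) * g) with hA
  have hAc : IsCharacter G A := avg_char N hN hωc
  have hcN : (0 : ℝ) < Nat.card N := by exact_mod_cast Nat.card_pos
  have hcG : (0 : ℝ) < Nat.card G := by exact_mod_cast Nat.card_pos
  have hAr : ∀ g, A g = (((Nat.card N : ℝ)⁻¹ * ∑ n : N, ‖(χ : G → ℂ) ((n : G) * g)‖ ^ 2 : ℝ) : ℂ) := by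
    intro g
    simp only [hA, hω]
    push_cast
    congr 1
    refine Finset.sum_congr rfl fun n _ => ?_
    rw [Complex.mul_conj, Complex.normSq_eq_norm_sq]; push_cast; rfl
  have hA0 : ∀ g, A g = 0 ↔ ∀ n : N, (χ : G → ℂ) ((n : G) * g) = 0 := by
    intro g
    rw [hAr, Complex.ofReal_eq_zero, mul_eq_zero, or_iff_right (inv_ne_zero hcN.ne'),
      Finset.sum_eq_zero_iff_of_nonneg (fun _ _ => by positivity)]
    constructor
    · intro h n
      have := h n (Finset.mem_univ _)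
      exact norm_eq_zero.1 (pow_eq_zero_iff two_ne_zero |>.1 this)
    · intro h n _
      rw [h n]; simp
  have hAn : ∀ g, ‖A g‖ = (Nat.card N : ℝ)⁻¹ * ∑ n : N, ‖(χ : G → ℂ) ((n : G) * g)‖ ^ 2 := by
    intro g
    rw [hAr, Complex.norm_real, Real.norm_of_nonneg]
    positivity
  have hsum : ∑ g : G, ‖A g‖ = Nat.card G := by
    simp only [hAn]
    rw [← Finset.mul_sum, Finset.sum_comm]
    have : ∀ n : N, ∑ g : G, ‖(χ : G → ℂ) ((n : G) * g)‖ ^ 2 = Nat.card G := by
      intro n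
      rw [← norm_sum_sq' χ.2]
      exact Equiv.sum_comp (Equiv.mulLeft (n : G)) (fun g => ‖(χ : G → ℂ) g‖ ^ 2)
    rw [Finset.sum_congr rfl (fun n _ => this n), Finset.sum_const, Finset.card_univ, nsmul_eq_mul, ← Nat.card_eq_fintype_card,
      ← mul_assoc, inv_mul_cancel₀ hcN.ne', one_mul]
  have hA1 : A 1 = classInner (fun n : N => (χ : G → ℂ) n) (fun n : N => (χ : G → ℂ) n) := by
    rw [H5.classInner_def, hA]
    simp only [mul_one, hω]
  have hres : IsCharacter N (fun n : N => (χ : G → ℂ) n) := H5.isCharacter_restrict N (IsIrr.isCharacter χ.2)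
  obtain ⟨m, hm⟩ := H5.IsCharacter.inner_char_nat hres hres
  have hm0 : m ≠ 0 := by
    rintro rfl
    have h1 := H5.classInner_self_eq_zero (by simpa using hm)
    have h2 := congrFun h1 1
    exact H5.IsIrr.one_ne_zero χ.2 h2
  have hirr : IsIrrCharacter ↥N (fun n : ↥N => (χ : G → ℂ) n) ↔ m = 1 := by
    rw [H5.isIrrCharacter_iff_inner, hm]
    constructor
    · intro h; exact_mod_cast h.2
    · intro h; exact ⟨hres, by exact_mod_cast h⟩
  rw [hm] at hA1
  constructor
  · intro hnot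
    rw [hirr] at hnot
    by_contra hcon
    push Not at hcon
    have hne : ∀ g, A g ≠ 0 := by
      intro g h0
      obtain ⟨n, hn⟩ := hcon g
      exact hn ((hA0 g).1 h0 n)
    have hn : NeZero (Nat.card G) := ⟨Nat.card_pos.ne'⟩
    set k := Nat.card G with hk
    have hpow : ∀ g : G, g ^ k = 1 := fun g => pow_card_eq_one'
    have hper : ∀ s : GalIdx k, ∑ g : G, ‖A (g ^ galExp k s)‖ = k := by
      intro s
      rw [← hsum]
      exact (Equiv.ofBijective _ (pow_bijective (galExp_coprime k s))).sum_comp (fun x => ‖A x‖)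
    have htot : ∑ g : G, ∑ s : GalIdx k, ‖A (g ^ galExp k s)‖ = (Fintype.card (GalIdx k) : ℝ) * k := by
      rw [Finset.sum_comm, Finset.sum_congr rfl (fun s _ => hper s), Finset.sum_const, Finset.card_univ, nsmul_eq_mul]
    have hle : ∀ g : G, (Fintype.card (GalIdx k) : ℝ) ≤ ∑ s : GalIdx k, ‖A (g ^ galExp k s)‖ := fun g =>
      card_le_sum_norm k hAc g (hpow g) (hne g)
    have hone : (Fintype.card (GalIdx k) : ℝ) < ∑ s : GalIdx k, ‖A ((1 : G) ^ galExp k s)‖ := by
      simp only [one_pow, hA1, Finset.sum_const, Finset.card_univ, nsmul_eq_mul, Complex.norm_natCast]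
      have hc : (0 : ℝ) < Fintype.card (GalIdx k) := by exact_mod_cast Fintype.card_pos
      have hd3 : (1 : ℝ) < m := by
        have : 1 < m := by omega
        exact_mod_cast this
      nlinarith
    have hlt : ∑ g : G, (Fintype.card (GalIdx k) : ℝ) < ∑ g : G, ∑ s : GalIdx k, ‖A (g ^ galExp k s)‖ :=
      Finset.sum_lt_sum (fun g _ => hle g) ⟨1, Finset.mem_univ _, hone⟩
    rw [htot, Finset.sum_const, Finset.card_univ, nsmul_eq_mul, ← Nat.card_eq_fintype_card, ← hk, mul_comm] at hlt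
    exact lt_irrefl _ hlt
  · rintro ⟨x, hx⟩ hi
    rw [hirr] at hi
    rw [hi, Nat.cast_one] at hA1
    obtain ⟨lam, hlam⟩ := exists_hom_of_degree_one hAc hA1
    have h1 := (hA0 x).2 hx
    rw [hlam] at h1
    exact (lam x).ne_zero h1

end Cfsg.Agent.H4
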