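import Cfsg.Agent.H2.SylCount
import Cfsg.Agent.H1.Rank1
import Cfsg.Agent.L0.Coprime2
import Cfsg.Agent.S0081

set_option linter.all false
set_option autoImplicit false

namespace Cfsg.Agent.H4
open scoped commutatorElement Pointwise
universe u

/-- a `p'`-group acting on a cyclic `p`-group and fixing a nontrivial element acts trivially -/
theorem cyc_act_trivial {G : Type u} [Group G] [Finite G] {p : ℕ} [hp : Fact p.Prime] {R A : Subgroup G} (hR : IsPGroup p R) (hRc : IsCyclic R)
    (hA : A ≤ Subgroup.normalizer (R : Set G)) (hAp : (Nat.card A).Coprime p) {z : G} (hz : z ∈ R) (hz1 : z ≠ 1)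
    (hzA : ∀ a ∈ A, z * a = a * z) : ⁅R, A⁆ = ⊥ := by
  obtain ⟨k, hk⟩ := hR.exists_card_eq
  have hcomm : ∀ a ∈ R, ∀ b ∈ R, a * b = b * a := by
    intro a ha b hb
    letI : CommGroup R := IsCyclic.commGroup
    exact congrArg Subtype.val (mul_comm (⟨a, ha⟩ : R) ⟨b, hb⟩)
  have h1 := L0.centralizer_inf_commutator_of_abelian hA (by rw [hk]; exact Nat.Coprime.pow_right k hAp) hcomm
  have h2 : ⁅R, A⁆ ≤ R := L0.commutator_le_of_normalizes hA
  rcases H1.cyclic_pgroup_total hRc hR (B := R ⊓ Subgroup.centralizer (A : Set G)) (C := ⁅R, A⁆) inf_le_left h2 with h | h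
  · exfalso
    rw [inf_eq_left.mpr h] at h1
    have : z ∈ R ⊓ Subgroup.centralizer (A : Set G) := by
      refine ⟨hz, Subgroup.mem_centralizer_iff.mpr ?_⟩
      intro a ha
      exact (hzA a ha).symm
    rw [h1, Subgroup.mem_bot] at this
    exact hz1 this
  · rw [inf_eq_right.mpr h] at h1
    exact h1

theorem cyc_norm_cent {G : Type u} [Group G] [Finite G] {p : ℕ} [hp : Fact p.Prime] (R : Sylow p G) (hRc : IsCyclic (R : Subgroup G))
    {z : G} (hz : z ∈ (R : Subgroup G)) (hz1 : z ≠ 1) (hzc : z ∈ Subgroup.center G) :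
    Subgroup.normalizer ((R : Subgroup G) : Set G) ≤ Subgroup.centralizer ((R : Subgroup G) : Set G) := by
  classical
  have hcomm : ∀ a ∈ (R : Subgroup G), ∀ b ∈ (R : Subgroup G), a * b = b * a := by
    intro a ha b hb
    letI : CommGroup (R : Subgroup G) := IsCyclic.commGroup
    exact congrArg Subtype.val (mul_comm (⟨a, ha⟩ : (R : Subgroup G)) ⟨b, hb⟩)
  intro n hn
  obtain ⟨a, m, hm, ho⟩ := Nat.exists_eq_pow_mul_and_not_dvd (orderOf_pos n).ne' p hp.out.ne_one
  have hcop : Nat.Coprime (p ^ a) m := (Nat.Coprime.pow_left a ((Nat.Prime.coprime_iff_not_dvd hp.out).mpr hm))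
  -- p-part
  have h1 : n ^ m ∈ (R : Subgroup G) := by
    apply H2.mem_sylow_of_mem_normalizer
    · apply IsPGroup.of_card (n := a)
      rw [Nat.card_zpowers, orderOf_pow, ho, Nat.gcd_eq_right (Dvd.intro_left _ rfl), Nat.mul_div_cancel _ (Nat.pos_of_ne_zero (by rintro rfl; exact hm (dvd_zero _)))]
    · exact Subgroup.pow_mem _ hn m
  have h1' : n ^ m ∈ Subgroup.centralizer ((R : Subgroup G) : Set G) := by
    rw [Subgroup.mem_centralizer_iff]
    intro b hb
    exact hcomm b hb _ h1
  have h2 : n ^ (p ^ a) ∈ Subgroup.centralizer ((R : Subgroup G) : Set G) := by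
    have h3 := cyc_act_trivial (A := Subgroup.zpowers (n ^ (p ^ a))) R.isPGroup' hRc
      (Subgroup.zpowers_le.mpr (Subgroup.pow_mem _ hn _))
      (by
        rw [Nat.card_zpowers, orderOf_pow, ho, Nat.gcd_eq_right (Dvd.intro _ rfl), Nat.mul_div_cancel_left _ (pow_pos hp.out.pos a)]
        exact ((Nat.Prime.coprime_iff_not_dvd hp.out).mpr hm).symm) hz hz1
      (fun b _ => ((Subgroup.mem_center_iff.mp hzc) b).symm)
    rw [Subgroup.commutator_eq_bot_iff_le_centralizer] at h3
    rw [Subgroup.mem_centralizer_iff]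
    intro b hb
    exact ((Subgroup.mem_centralizer_iff.mp (h3 hb)) _ (Subgroup.mem_zpowers _)).symm
  have h3 := Nat.gcd_eq_gcd_ab (p ^ a) m
  rw [hcop] at h3
  have h4 : n = (n ^ (p ^ a)) ^ (Nat.gcdA (p ^ a) m) * (n ^ m) ^ (Nat.gcdB (p ^ a) m) := by
    rw [← zpow_natCast, ← zpow_natCast, ← zpow_mul, ← zpow_mul, ← zpow_add, ← h3]
    simp
  rw [h4]
  exact Subgroup.mul_mem _ (Subgroup.zpow_mem _ h2 _) (Subgroup.zpow_mem _ h1' _)

theorem cyc_sylow_normal {G : Type u} [Group G] [Finite G] (p : ℕ) [hp : Fact p.Prime] (P : Sylow p G) (hP : IsCyclic (P : Subgroup G)) (H : Subgroup G) [hH : H.Normal]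
    (h1 : p ∣ Nat.card H) (h2 : p ∣ H.index) : HasNormalPComplement p H ∧ IsPSolvable p G := by
  classical
  have hHP : ¬ (P : Subgroup G) ≤ H := by
    intro h
    have h3 := Subgroup.index_dvd_of_le h
    exact P.not_dvd_index (h2.trans h3)
  have hnpc : HasNormalPComplement p H := by
    apply S0081.result P H
    have key : (H ⊓ (P : Subgroup G)).subgroupOf (P : Subgroup G) ≤ frattini (P : Subgroup G) := by
      haveI : Group.IsNilpotent (P : Subgroup G) := P.isPGroup'.isNilpotent
      rw [frattini, Order.radical]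
      simp only [le_iInf_iff]
      intro M hM
      have hM' : M.map (P : Subgroup G).subtype ≤ P := Subgroup.map_subtype_le M
      rcases H1.cyclic_pgroup_total hP P.isPGroup' (B := H ⊓ (P : Subgroup G)) (C := M.map (P : Subgroup G).subtype) inf_le_right hM' with h | h
      · intro x hx
        obtain ⟨y, hy, hyx⟩ := h (Subgroup.mem_subgroupOf.mp hx)
        have : y = x := Subtype.ext hyx
        rwa [← this]
      · have h3 : M ≤ (H ⊓ (P : Subgroup G)).subgroupOf (P : Subgroup G) := by
          intro x hx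
          exact Subgroup.mem_subgroupOf.mpr (h ⟨x, hx, rfl⟩)
        rcases hM.le_iff.mp h3 with h4 | h4
        · exfalso
          apply hHP
          intro x hx
          have : (⟨x, hx⟩ : (P : Subgroup G)) ∈ (H ⊓ (P : Subgroup G)).subgroupOf (P : Subgroup G) := h4 ▸ Subgroup.mem_top _
          exact (Subgroup.mem_subgroupOf.mp this).1
        · exact h4.le
    intro x hx
    exact ⟨⟨x, hx.2⟩, key (Subgroup.mem_subgroupOf.mpr hx), rfl⟩
  refine ⟨hnpc, ?_⟩
  obtain ⟨S, N, hN, hNS⟩ := hnpc
  set O := pPrimeCore p G with hO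
  set π := QuotientGroup.mk' O with hπ
  have hOcop : (Nat.card O).Coprime p := L0.pPrimeCore_coprime p G
  have hNO : N.map H.subtype ≤ O := by
    have h3 : N ≤ pPrimeCore p H := by
      haveI := hN
      apply L0.le_pPrimeCore
      rw [← Subgroup.IsComplement'.index_eq_card hNS]
      exact ((Nat.Prime.coprime_iff_not_dvd hp.out).mpr S.not_dvd_index).symm
    refine (Subgroup.map_mono h3).trans ?_
    rw [L0.pPrimeCore_normal_subgroup]
    exact inf_le_left
  -- image of `H` is a `p`-group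
  have hHb : IsPGroup p (H.map π) := by
    rintro ⟨_, ⟨h, hh, rfl⟩⟩
    haveI := hN
    have h3 : N.index = Nat.card (S : Subgroup H) := hNS.symm.index_eq_card
    obtain ⟨k, hk⟩ := S.isPGroup'.exists_card_eq
    refine ⟨k, ?_⟩
    apply Subtype.ext
    show (π h) ^ p ^ k = 1
    rw [← map_pow]
    have h4 : (⟨h, hh⟩ : H) ^ p ^ k ∈ N := by
      rw [← hk, ← h3]
      exact N.pow_index_mem _
    have h5 : h ^ p ^ k ∈ O := hNO ⟨_, h4, rfl⟩
    exact (QuotientGroup.eq_one_iff _).mpr h5
  haveI hHbn : (H.map π).Normal := hH.map π (QuotientGroup.mk'_surjective O)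
  have hHb1 : H.map π ≠ ⊥ := by
    intro h
    rw [Subgroup.map_eq_bot_iff, hπ, QuotientGroup.ker_mk'] at h
    have h3 : p ∣ Nat.card O := h1.trans (Subgroup.card_dvd_of_le h)
    exact hp.out.one_lt.ne' (Nat.eq_one_of_dvd_coprimes hOcop h3 dvd_rfl)
  -- image of `P`
  let Pb : Sylow p (G ⧸ O) := P.mapSurjective (QuotientGroup.mk'_surjective O)
  have hPb : (Pb : Subgroup (G ⧸ O)) = (P : Subgroup G).map π := rfl
  have hPbc : IsCyclic (Pb : Subgroup (G ⧸ O)) := by
    let f : (P : Subgroup G) →* (Pb : Subgroup (G ⧸ O)) := (π.subgroupMap (P : Subgroup G))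
    haveI := hP
    exact isCyclic_of_surjective f (π.subgroupMap_surjective (P : Subgroup G))
  have hPbcomm : ∀ a ∈ (Pb : Subgroup (G ⧸ O)), ∀ b ∈ (Pb : Subgroup (G ⧸ O)), a * b = b * a := by
    intro a ha b hb
    letI : CommGroup (Pb : Subgroup (G ⧸ O)) := IsCyclic.commGroup
    exact congrArg Subtype.val (mul_comm (⟨a, ha⟩ : (Pb : Subgroup (G ⧸ O))) ⟨b, hb⟩)
  have hHPb : H.map π ≤ (Pb : Subgroup (G ⧸ O)) := L0.normal_le_sylow hHb Pb
  set C := Subgroup.centralizer ((H.map π : Subgroup (G ⧸ O)) : Set (G ⧸ O)) with hC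
  haveI hCn : C.Normal := inferInstance
  have hPC : (Pb : Subgroup (G ⧸ O)) ≤ C := by
    intro x hx
    rw [hC, Subgroup.mem_centralizer_iff]
    intro y hy
    exact hPbcomm y (hHPb hy) x hx
  let R : Sylow p C := Pb.subtype hPC
  have hRdef : (R : Subgroup C) = (Pb : Subgroup (G ⧸ O)).subgroupOf C := rfl
  have hRc : IsCyclic (R : Subgroup C) := by
    haveI := hPbc
    exact isCyclic_of_surjective (Subgroup.subgroupOfEquivOfLe hPC).symm (MulEquiv.surjective _)
  obtain ⟨z, hz⟩ := Subgroup.ne_bot_iff_exists_ne_one.mp hHb1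
  have hzC : (z : G ⧸ O) ∈ C := hPC (hHPb z.2)
  have hRnc := cyc_norm_cent R hRc (z := ⟨z, hzC⟩) (Subgroup.mem_subgroupOf.mpr (hHPb z.2))
    (by intro h; exact hz (Subtype.ext (congrArg (fun t : C => (t : G ⧸ O)) h)))
    (by
      rw [Subgroup.mem_center_iff]
      intro g
      apply Subtype.ext
      exact ((Subgroup.mem_centralizer_iff.mp g.2) z z.2).symm)
  have hcomp := MonoidHom.ker_transferSylow_isComplement' R hRnc
  have hkerbot : (MonoidHom.transferSylow R hRnc).ker = ⊥ := by
    have h3 : (MonoidHom.transferSylow R hRnc).ker ≤ pPrimeCore p C := by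
      apply L0.le_pPrimeCore
      rw [← Subgroup.IsComplement'.index_eq_card hcomp]
      exact ((Nat.Prime.coprime_iff_not_dvd hp.out).mpr R.not_dvd_index).symm
    have h4 : pPrimeCore p C = ⊥ := by
      have h5 := L0.pPrimeCore_normal_subgroup p C
      rw [L0.pPrimeCore_quotient_pPrimeCore, bot_inf_eq, Subgroup.map_eq_bot_iff, Subgroup.ker_subtype, le_bot_iff] at h5
      exact h5
    rw [h4, le_bot_iff] at h3
    exact h3
  have hCcard : ∃ m, Nat.card C = p ^ m := by
    have h3 := Subgroup.IsComplement'.card_mul_card hcomp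
    rw [hkerbot, Subgroup.card_bot, one_mul] at h3
    obtain ⟨k, hk⟩ := R.isPGroup'.exists_card_eq
    exact ⟨k, by rw [← h3, hk]⟩
  have hCidx : C.index.Coprime p := by
    have h3 := Subgroup.index_dvd_of_le hPC
    exact (((Nat.Prime.coprime_iff_not_dvd hp.out).mpr (fun h => Pb.not_dvd_index (h.trans h3))).symm)
  set C' := C.comap π with hC'
  have hOC' : O ≤ C' := by
    intro x hx
    have : π x = 1 := (QuotientGroup.eq_one_iff x).mpr hx
    show π x ∈ C
    rw [this]; exact C.one_mem
  have e1 : O.relIndex C' = Nat.card C := by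
    have h3 := Subgroup.relIndex_ker C' π
    rw [hπ, QuotientGroup.ker_mk', ← hπ, hC', Subgroup.map_comap_eq_self_of_surjective (QuotientGroup.mk'_surjective O)] at h3
    exact h3
  have e2 : C'.relIndex ⊤ = C.index := by
    rw [Subgroup.relIndex_top_right, hC', Subgroup.index_comap_of_surjective _ (QuotientGroup.mk'_surjective O)]
  refine ⟨3, ![⊥, O, C', ⊤], rfl, rfl, ?_, ?_, ?_⟩
  · rw [Fin.monotone_iff_le_succ]
    intro i
    fin_cases i
    · exact bot_le
    · exact hOC'
    · exact le_top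
  · intro i
    fin_cases i
    · exact (inferInstance : (⊥ : Subgroup G).Normal)
    · exact (inferInstance : O.Normal)
    · exact (inferInstance : C'.Normal)
    · exact (inferInstance : (⊤ : Subgroup G).Normal)
  · intro i
    fin_cases i
    · right
      show ((⊥ : Subgroup G).relIndex O).Coprime p
      rw [Subgroup.relIndex_bot_left]; exact hOcop
    · left
      show ∃ m, O.relIndex C' = p ^ m
      rw [e1]; exact hCcard
    · right
      show (C'.relIndex ⊤).Coprime p
      rw [e2]; exact hCidx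

end Cfsg.Agent.H4
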