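import Cfsg.Agent.H4.U4757
import Cfsg.Agent.H4.Mult
import Cfsg.Agent.H4.Misc1
import Cfsg.Agent.H4.OrthConj
import Cfsg.Agent.H4.CentCov

namespace Cfsg.Agent.H4
open scoped ComplexConjugate
universe u
variable {G : Type u} [Group G]

/-- `χ` is nonzero exactly on `1` and the class of `g₀` -/
def GagC (χ : IrrCharacter G) (g₀ : G) : Prop := g₀ ≠ 1 ∧ ∀ g, (χ : G → ℂ) g ≠ 0 ↔ (g = 1 ∨ IsConj g₀ g)

theorem exists_gagC [Finite G] (χ : IrrCharacter G)
    (hχ : Nat.card {C : ConjClasses G // ∃ g ∈ C.carrier, (χ : G → ℂ) g ≠ 0} = 2) : ∃ g₀, GagC χ g₀ := by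
  have h1 : ∃ g ∈ (ConjClasses.mk (1 : G)).carrier, (χ : G → ℂ) g ≠ 0 :=
    ⟨1, ConjClasses.mem_carrier_mk, H5.IsIrr.one_ne_zero χ.2⟩
  obtain ⟨a, b, hab, huniv⟩ := Nat.card_eq_two_iff.1 hχ
  have hval : ∀ g, (χ : G → ℂ) g ≠ 0 → ConjClasses.mk g = a.1 ∨ ConjClasses.mk g = b.1 := by
    intro g hg
    have : (⟨ConjClasses.mk g, g, ConjClasses.mem_carrier_mk, hg⟩ : {C : ConjClasses G // ∃ g ∈ C.carrier, (χ : G → ℂ) g ≠ 0}) ∈ ({a, b} : Set _) := by
      rw [huniv]; exact Set.mem_univ _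
    rcases this with h | h
    · left; rw [← h]
    · right; rw [← Set.mem_singleton_iff.1 h]
  have key : ∀ c d : {C : ConjClasses G // ∃ g ∈ C.carrier, (χ : G → ℂ) g ≠ 0}, c ≠ d → ConjClasses.mk (1 : G) = c.1 →
      (∀ g, (χ : G → ℂ) g ≠ 0 → ConjClasses.mk g = c.1 ∨ ConjClasses.mk g = d.1) → ∃ g₀, GagC χ g₀ := by
    intro c d hcd hc hv
    obtain ⟨g₀, hg₀, hg₀'⟩ := d.2
    have hd : ConjClasses.mk g₀ = d.1 := ConjClasses.mem_carrier_iff_mk_eq.1 hg₀
    refine ⟨g₀, ?_, fun g => ⟨fun hg => ?_, ?_⟩⟩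
    · rintro rfl
      exact hcd (Subtype.ext (hc.symm.trans hd))
    · rcases hv g hg with h | h
      · left
        have := h.trans hc.symm
        rw [ConjClasses.mk_eq_mk_iff_isConj] at this
        exact isConj_one_right.1 this.symm
      · right
        have := h.trans hd.symm
        rw [ConjClasses.mk_eq_mk_iff_isConj] at this
        exact this.symm
    · rintro (rfl | h)
      · exact H5.IsIrr.one_ne_zero χ.2
      · rw [← H5.IsClassFunction.eq_of_isConj (H5.irr_classFun χ) h]; exact hg₀'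
  rcases hval 1 (H5.IsIrr.one_ne_zero χ.2) with h | h
  · exact key a b hab h hval
  · exact key b a hab.symm h (fun g hg => (hval g hg).symm)

section
variable [Fintype G] {χ : IrrCharacter G} {g₀ : G}

open Classical in
/-- sum formula for a function supported on the two classes -/
theorem GagC.sum (h : GagC χ g₀) (f : G → ℂ) (hf : IsClassFunction G f) (h0 : ∀ g, (χ : G → ℂ) g = 0 → f g = 0) :
    ∑ g : G, f g = f 1 + ((Finset.univ.filter (fun x => IsConj g₀ x)).card : ℂ) * f g₀ := by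
  have h1 : ∑ g : G, f g = ∑ g ∈ insert 1 (Finset.univ.filter (fun x => IsConj g₀ x)), f g := by
    symm
    apply Finset.sum_subset (Finset.subset_univ _)
    intro x _ hx
    rw [Finset.mem_insert, Finset.mem_filter] at hx
    push Not at hx
    apply h0
    by_contra hc
    rcases (h.2 x).1 hc with h2 | h2
    · exact hx.1 h2
    · exact hx.2 (Finset.mem_univ _) h2
  rw [h1, Finset.sum_insert, Finset.sum_congr rfl (g := fun _ => f g₀), Finset.sum_const, nsmul_eq_mul]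
  · intro x hx
    exact (H5.IsClassFunction.eq_of_isConj hf (Finset.mem_filter.1 hx).2).symm
  · intro hc
    exact h.1 (isConj_one_right.1 ((Finset.mem_filter.1 hc).2).symm)

open Classical in
theorem GagC.ne_triv (h : GagC χ g₀) (hG : 2 < Nat.card G) : χ ≠ trivIrr G := by
  intro ht
  -- all nontrivial elements are conjugate
  have hall : ∀ g : G, g = 1 ∨ IsConj g₀ g := by
    intro g; apply (h.2 g).1; rw [ht, trivIrr_apply]; exact one_ne_zero
  have h1 : Nat.card {x : G // IsConj g₀ x} + 1 = Nat.card G := by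
    rw [Nat.card_eq_fintype_card, Fintype.card_subtype, Nat.card_eq_fintype_card, ← Finset.card_univ]
    have : (Finset.univ : Finset G) = insert 1 (Finset.univ.filter (fun x => IsConj g₀ x)) := by
      ext x; simp only [Finset.mem_univ, Finset.mem_insert, Finset.mem_filter, true_and, true_iff]; exact hall x
    conv_rhs => rw [this]
    rw [Finset.card_insert_of_notMem]
    intro hc
    exact h.1 (isConj_one_right.1 ((Finset.mem_filter.1 hc).2).symm)
  rw [H5.card_isConj] at h1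
  have h2 : (Subgroup.centralizer ({g₀} : Set G)).index ∣ Nat.card G := Subgroup.index_dvd_card _
  have h3 : (Subgroup.centralizer ({g₀} : Set G)).index ∣ 1 := by
    rw [← h1] at h2
    exact (Nat.dvd_add_right (dvd_refl _)).1 h2
  rw [Nat.dvd_one] at h3
  omega

open Classical in
/-- class size -/
noncomputable def GagC.k (_ : GagC χ g₀) : ℕ := (Finset.univ.filter (fun x => IsConj g₀ x)).card

theorem GagC.k_pos (h : GagC χ g₀) : 0 < h.k := by
  classical
  exact Finset.card_pos.2 ⟨g₀, Finset.mem_filter.2 ⟨Finset.mem_univ _, IsConj.refl _⟩⟩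

theorem GagC.k_eq (h : GagC χ g₀) : h.k = (Subgroup.centralizer ({g₀} : Set G)).index := by
  classical
  rw [← H5.card_isConj, Nat.card_eq_fintype_card, Fintype.card_subtype]
  unfold GagC.k
  congr!

theorem GagC.sum1 (h : GagC χ g₀) (hG : 2 < Nat.card G) : (χ : G → ℂ) 1 + h.k * (χ : G → ℂ) g₀ = 0 := by
  classical
  have h1 : classInner (χ : G → ℂ) (trivIrr G : G → ℂ) = 0 := H5.classInner_irr_ne (h.ne_triv hG)
  rw [H5.classInner_def] at h1
  have hG0 : (Nat.card G : ℂ) ≠ 0 := by exact_mod_cast Nat.card_pos.ne'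
  have h2 := (mul_eq_zero.1 h1).resolve_left (inv_ne_zero hG0)
  simp only [trivIrr_apply, map_one, mul_one] at h2
  rw [h.sum _ (H5.irr_classFun χ) (fun g hg => hg)] at h2
  unfold GagC.k
  convert h2

theorem GagC.other (h : GagC χ g₀) (hG : 2 < Nat.card G) (ψ : IrrCharacter G) (hψ : ψ ≠ χ) : (ψ : G → ℂ) g₀ = (ψ : G → ℂ) 1 := by
  classical
  have h1 : classInner (ψ : G → ℂ) (χ : G → ℂ) = 0 := H5.classInner_irr_ne hψ
  rw [H5.classInner_def] at h1
  have hG0 : (Nat.card G : ℂ) ≠ 0 := by exact_mod_cast Nat.card_pos.ne'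
  have h2 := (mul_eq_zero.1 h1).resolve_left (inv_ne_zero hG0)
  rw [h.sum (fun g => (ψ : G → ℂ) g * conj ((χ : G → ℂ) g)) (H5.IsClassFunction.mul' (H5.irr_classFun ψ)
    (H5.IsClassFunction.conj' (H5.irr_classFun χ))) (fun g hg => by rw [hg]; simp)] at h2
  have h3 := congrArg conj (h.sum1 hG)
  rw [map_add, map_mul, map_zero] at h3
  have h4 : conj ((h.k : ℂ)) = h.k := map_natCast _ _
  rw [h4] at h3
  have h5 : conj ((χ : G → ℂ) 1) ≠ 0 := (map_ne_zero _).2 (H5.IsIrr.one_ne_zero χ.2)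
  have h6 : ((Finset.univ.filter (fun x => IsConj g₀ x)).card : ℂ) = h.k := by unfold GagC.k; congr!
  rw [h6] at h2
  have h7 : conj ((χ : G → ℂ) 1) * ((ψ : G → ℂ) 1 - (ψ : G → ℂ) g₀) = 0 := by
    linear_combination h2 - (ψ : G → ℂ) g₀ * h3
  exact (sub_eq_zero.1 ((mul_eq_zero.1 h7).resolve_left h5)).symm

theorem GagC.iff_ker (h : GagC χ g₀) (hG : 2 < Nat.card G) (g : G) :
    (χ : G → ℂ) g ≠ 0 ↔ ∀ ψ : IrrCharacter G, ψ ≠ χ → (ψ : G → ℂ) g = (ψ : G → ℂ) 1 := by
  classical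
  constructor
  · intro hg ψ hψ
    rcases (h.2 g).1 hg with h1 | h1
    · rw [h1]
    · rw [← H5.IsClassFunction.eq_of_isConj (H5.irr_classFun ψ) h1, h.other hG ψ hψ]
  · intro hall
    by_cases hg1 : g = 1
    · rw [hg1]; exact H5.IsIrr.one_ne_zero χ.2
    · intro h0
      have h1 := H5.sum_irr_one_mul g
      rw [if_neg hg1, ← Finset.add_sum_erase _ _ (Finset.mem_univ χ), h0, mul_zero, zero_add,
        Finset.sum_congr rfl (g := fun ψ : IrrCharacter G => ((charDegree (ψ : G → ℂ) ^ 2 : ℕ) : ℂ))] at h1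
      · have h2 : ∑ ψ ∈ Finset.univ.erase χ, charDegree (ψ : G → ℂ) ^ 2 = 0 := by exact_mod_cast h1
        rw [Finset.sum_eq_zero_iff] at h2
        have h3 := h2 (trivIrr G) (Finset.mem_erase.2 ⟨(h.ne_triv hG).symm, Finset.mem_univ _⟩)
        exact (pow_pos (IsIrr.degree_pos (trivIrr G).2) 2).ne' h3
      · intro ψ hψ
        rw [hall ψ (Finset.mem_erase.1 hψ).1, H5.IsCharacter.one_eq_charDegree (IsIrr.isCharacter ψ.2)]
        push_cast; ring

theorem GagC.faithful (h : GagC χ g₀) (hG : 2 < Nat.card G) (g : G) (hg : (χ : G → ℂ) g = (χ : G → ℂ) 1) : g = 1 := by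
  have h1 := H5.IsIrr.one_ne_zero χ.2
  rcases (h.2 g).1 (by rw [hg]; exact h1) with h2 | h2
  · exact h2
  · exfalso
    have h3 := h.sum1 hG
    rw [H5.IsClassFunction.eq_of_isConj (H5.irr_classFun χ) h2, hg] at h3
    have h4 : (χ : G → ℂ) 1 * (1 + h.k) = 0 := by linear_combination h3
    rcases mul_eq_zero.1 h4 with h5 | h5
    · exact h1 h5
    · have : ((1 + h.k : ℕ) : ℂ) = 0 := by push_cast; exact h5
      exact absurd (Nat.cast_eq_zero.1 this) (by omega)

/-- the subgroup on which `χ` does not vanish -/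
def GagC.N (_ : GagC χ g₀) (_ : 2 < Nat.card G) : Subgroup G := ⨅ ψ : {ψ : IrrCharacter G // ψ ≠ χ}, charKer (IsIrr.isCharacter ψ.1.2)

theorem GagC.mem_N (h : GagC χ g₀) (hG : 2 < Nat.card G) (g : G) : g ∈ h.N hG ↔ (χ : G → ℂ) g ≠ 0 := by
  rw [h.iff_ker hG]
  unfold GagC.N
  rw [Subgroup.mem_iInf]
  constructor
  · intro hh ψ hψ; exact (mem_charKer _ g).1 (hh ⟨ψ, hψ⟩)
  · intro hh ψ; exact (mem_charKer _ g).2 (hh ψ.1 ψ.2)

theorem GagC.N_normal (h : GagC χ g₀) (hG : 2 < Nat.card G) : (h.N hG).Normal := by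
  constructor
  intro n hn g
  rw [h.mem_N hG] at hn ⊢
  rw [H5.irr_classFun χ n g]; exact hn

theorem GagC.N_le (h : GagC χ g₀) (hG : 2 < Nat.card G) (K : Subgroup G) [hK : K.Normal] (hK1 : K ≠ ⊥) {g : G}
    (hg : (χ : G → ℂ) g ≠ 0) : g ∈ K := by
  obtain ⟨⟨x, hx⟩, hx1⟩ := (Subgroup.ne_bot_iff_exists_ne_one).1 hK1
  have hx1' : x ≠ 1 := fun h => hx1 (Subtype.ext h)
  rw [← QuotientGroup.eq_one_iff]
  haveI : Fintype (G ⧸ K) := Fintype.ofFinite _
  apply eq_one_of_forall_irr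
  intro θ
  have h1 := H5.irr_inflate (N := K) θ
  have hne : (⟨_, h1⟩ : IrrCharacter G) ≠ χ := by
    intro he
    apply hx1'
    apply h.faithful hG
    rw [← he]
    show (θ : G ⧸ K → ℂ) (QuotientGroup.mk x) = (θ : G ⧸ K → ℂ) (QuotientGroup.mk 1)
    rw [(QuotientGroup.eq_one_iff x).2 hx]; rfl
  exact (h.iff_ker hG g).1 hg ⟨_, h1⟩ hne

end
end Cfsg.Agent.H4
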