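import Cfsg.Agent.H4.Gagola1
import Cfsg.Agent.H4.Codeg1
import Cfsg.Agent.H4.NzCount
import Cfsg.Agent.L0.Coprime
import Cfsg.Agent.L0.Core

namespace Cfsg.Agent.H4
open scoped ComplexConjugate
universe u
variable {G : Type u} [Group G] [Fintype G] {χ : IrrCharacter G} {g₀ : G}

theorem GagC.exists_m (h : GagC χ g₀) (hG : 2 < Nat.card G) :
    ∃ m : ℕ, 0 < m ∧ (χ : G → ℂ) 1 = m * h.k ∧ (χ : G → ℂ) g₀ = -m ∧ Nat.card G = m ^ 2 * h.k * (h.k + 1) := by
  classical
  have hk := h.k_pos
  have hk0 : (h.k : ℂ) ≠ 0 := by exact_mod_cast hk.ne'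
  have hd := IsIrr.degree_pos χ.2
  have h1 := h.sum1 hG
  have hdeg := H5.IsCharacter.one_eq_charDegree (IsIrr.isCharacter χ.2)
  have h2 : (χ : G → ℂ) g₀ = ((-(charDegree (χ : G → ℂ) : ℚ) / h.k : ℚ) : ℂ) := by
    push_cast
    rw [hdeg] at h1
    field_simp
    linear_combination h1
  have h3 : IsIntegral ℤ ((χ : G → ℂ) g₀) := H5.IsCharacter.isIntegral (IsIrr.isCharacter χ.2) g₀
  rw [h2] at h3
  obtain ⟨n, hn⟩ := H5.isIntegral_rat_int h3
  have h4 : (charDegree (χ : G → ℂ) : ℤ) = -n * h.k := by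
    have hk1 : (h.k : ℚ) ≠ 0 := by exact_mod_cast hk.ne'
    have : (charDegree (χ : G → ℂ) : ℚ) = -n * h.k := by
      field_simp at hn
      linear_combination -hn
    exact_mod_cast this
  have h5 : 0 < -n := by
    by_contra hc
    push Not at hc
    have : (charDegree (χ : G → ℂ) : ℤ) ≤ 0 := by
      rw [h4]; exact mul_nonpos_of_nonpos_of_nonneg hc (by positivity)
    have h6 : (0 : ℤ) < charDegree (χ : G → ℂ) := by exact_mod_cast hd
    omega
  obtain ⟨m, hm⟩ := Int.eq_ofNat_of_zero_le h5.le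
  have hm0 : 0 < m := by omega
  have h6 : (χ : G → ℂ) 1 = m * h.k := by
    rw [hdeg]
    rw [hm] at h4
    exact_mod_cast h4
  have h7 : (χ : G → ℂ) g₀ = -m := by
    apply mul_left_cancel₀ hk0
    rw [h6] at h1
    linear_combination h1
  refine ⟨m, hm0, h6, h7, ?_⟩
  have h8 : classInner (χ : G → ℂ) (χ : G → ℂ) = 1 := H5.classInner_irr_self χ
  rw [H5.classInner_def] at h8
  have hG0 : (Nat.card G : ℂ) ≠ 0 := by exact_mod_cast Nat.card_pos.ne'
  rw [h.sum (fun g => (χ : G → ℂ) g * conj ((χ : G → ℂ) g)) (H5.IsClassFunction.mul' (H5.irr_classFun χ)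
    (H5.IsClassFunction.conj' (H5.irr_classFun χ))) (fun g hg => by rw [hg]; simp)] at h8
  have h9 : ((Finset.univ.filter (fun x => IsConj g₀ x)).card : ℂ) = h.k := by unfold GagC.k; congr!
  rw [h9, h6, h7] at h8
  have h10 : (Nat.card G : ℂ) = m ^ 2 * h.k * (h.k + 1) := by
    field_simp at h8
    simp only [map_mul, map_neg, map_natCast] at h8
    linear_combination -h8
  exact_mod_cast h10

theorem GagC.card_N (h : GagC χ g₀) (hG : 2 < Nat.card G) : Nat.card (h.N hG) = h.k + 1 := by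
  classical
  have h1 : Nat.card (h.N hG) = (Finset.univ.filter (fun g => (χ : G → ℂ) g ≠ 0)).card := by
    rw [← Fintype.card_subtype, ← Nat.card_eq_fintype_card]
    exact Nat.card_congr (Equiv.subtypeEquivRight fun g => h.mem_N hG g)
  have h2 : Finset.univ.filter (fun g => (χ : G → ℂ) g ≠ 0) = insert 1 (Finset.univ.filter (fun x => IsConj g₀ x)) := by
    ext g
    rw [Finset.mem_filter, Finset.mem_insert, Finset.mem_filter, h.2]
    simp only [Finset.mem_univ, true_and]
  rw [h1, h2, Finset.card_insert_of_notMem]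
  · unfold GagC.k; congr!
  · intro hc
    exact h.1 (isConj_one_right.1 ((Finset.mem_filter.1 hc).2).symm)

theorem GagC.card_cent (h : GagC χ g₀) (hG : 2 < Nat.card G) {m : ℕ} (hm : Nat.card G = m ^ 2 * h.k * (h.k + 1))
    {x : G} (hx : (χ : G → ℂ) x ≠ 0) (hx1 : x ≠ 1) : Nat.card (Subgroup.centralizer ({x} : Set G)) = m ^ 2 * (h.k + 1) := by
  have hc : IsConj g₀ x := ((h.2 x).1 hx).resolve_left hx1
  have h1 := H5.card_centralizer_mul_index x
  have h2 : (Subgroup.centralizer ({x} : Set G)).index = h.k := by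
    rw [h.k_eq, ← H5.card_isConj, ← H5.card_isConj]
    exact Nat.card_congr (Equiv.subtypeEquivRight fun y => ⟨fun hy => hc.trans hy, fun hy => hc.symm.trans hy⟩)
  rw [h2, hm] at h1
  have h3 := h.k_pos
  have : Nat.card (Subgroup.centralizer ({x} : Set G)) * h.k = (m ^ 2 * (h.k + 1)) * h.k := by rw [h1]; ring
  exact Nat.eq_of_mul_eq_mul_right h3 this

/-- `m` is a power of `p` -/
theorem GagC.p_data (h : GagC χ g₀) (hG : 2 < Nat.card G) {p : ℕ} [hp : Fact p.Prime] (hNp : IsPGroup p (h.N hG)) {m : ℕ} (hm0 : 0 < m)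
    (hm1 : (χ : G → ℂ) 1 = m * h.k) (hm : Nat.card G = m ^ 2 * h.k * (h.k + 1)) : ∃ j n : ℕ, m = p ^ j ∧ h.k + 1 = p ^ n ∧ n ≠ 0 := by
  classical
  obtain ⟨n, hn⟩ := hNp.exists_card_eq
  rw [h.card_N hG] at hn
  have hkp := h.k_pos
  have hn0 : n ≠ 0 := by
    rintro rfl; rw [pow_zero] at hn; omega
  refine ⟨m.factorization p, n, ?_, hn, hn0⟩
  -- for each prime `q ≠ p`, `q ∤ m`
  have hq : ∀ q : ℕ, q.Prime → q ∣ m → q = p := by
    intro q hq hqm
    by_contra hqp
    haveI : Fact q.Prime := ⟨hq⟩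
    obtain ⟨Q⟩ : Nonempty (Sylow q G) := inferInstance
    -- χ vanishes on Q off 1
    have hvan : ∀ x ∈ (Q : Subgroup G), x ≠ 1 → (χ : G → ℂ) x = 0 := by
      intro x hx hx1
      by_contra hne
      have hxN : x ∈ h.N hG := (h.mem_N hG x).2 hne
      have h1 : IsPGroup.coprime_card_of_ne (G := G) (G₂ := G) q p hqp (Q : Subgroup G) (h.N hG) Q.isPGroup' hNp = 
        IsPGroup.coprime_card_of_ne (G := G) (G₂ := G) q p hqp (Q : Subgroup G) (h.N hG) Q.isPGroup' hNp := rfl
      have h2 := L0.inf_eq_bot_of_coprime' (IsPGroup.coprime_card_of_ne (G := G) (G₂ := G) q p hqp (Q : Subgroup G) (h.N hG) Q.isPGroup' hNp)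
      have h3 : x ∈ (Q : Subgroup G) ⊓ h.N hG := ⟨hx, hxN⟩
      rw [h2, Subgroup.mem_bot] at h3
      exact hx1 h3
    obtain ⟨t, ht⟩ := H5.IsCharacter.inner_char_nat (H5.isCharacter_restrict (Q : Subgroup G) (IsIrr.isCharacter χ.2))
      (H5.isCharacter_trivial (G := (Q : Subgroup G)))
    rw [H5.classInner_def, Finset.sum_eq_single (1 : (Q : Subgroup G))] at ht
    · have hQ0 : (Nat.card (Q : Subgroup G) : ℂ) ≠ 0 := by exact_mod_cast Nat.card_pos.ne'
      have h4 : (m * h.k : ℂ) = Nat.card (Q : Subgroup G) * t := by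
        rw [← ht, ← mul_assoc, mul_inv_cancel₀ hQ0, one_mul, map_one, mul_one, ← hm1]; rfl
      have h5 : m * h.k = Nat.card (Q : Subgroup G) * t := by exact_mod_cast h4
      have h6 : q ^ (Nat.card G).factorization q ∣ m * h.k := by
        rw [← Q.card_eq_multiplicity, h5]; exact dvd_mul_right _ _
      have h7 : (Nat.card G).factorization q = 2 * m.factorization q + h.k.factorization q := by
        rw [hm, Nat.factorization_mul (by positivity) (by omega), Nat.factorization_mul (by positivity) hkp.ne', Nat.factorization_pow]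
        rw [hn, Nat.factorization_pow]
        simp only [Finsupp.add_apply, Finsupp.smul_apply, smul_eq_mul]
        have : p.factorization q = 0 := by
          rw [hp.out.factorization]; exact Finsupp.single_eq_of_ne (Ne.symm (Ne.symm hqp))
        rw [this]; ring
      have h8 : (Nat.card G).factorization q ≤ (m * h.k).factorization q :=
        (hq.pow_dvd_iff_le_factorization (Nat.mul_pos hm0 hkp).ne').1 h6
      rw [h7, Nat.factorization_mul hm0.ne' hkp.ne', Finsupp.add_apply] at h8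
      have h9 : 0 < m.factorization q := hq.factorization_pos_of_dvd hm0.ne' hqm
      omega
    · intro x _ hx
      have : (χ : G → ℂ) (x : G) = 0 := hvan x x.2 (fun h => hx (Subtype.ext h))
      rw [this, zero_mul]
    · intro hc; exact absurd (Finset.mem_univ _) hc
  have h10 := Nat.eq_prime_pow_of_unique_prime_dvd hm0.ne' (fun {d} hd hdm => hq d hd hdm)
  conv_lhs => rw [h10]
  congr 1
  conv_rhs => rw [h10]
  rw [hp.out.factorization_pow, Finsupp.single_eq_same]

end Cfsg.Agent.H4
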