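import Cfsg.Agent.H4.Gagola2
import Cfsg.Agent.H4.Clifford2

namespace Cfsg.Agent.H4
open scoped ComplexConjugate
universe u
variable {G : Type u} [Group G] [Fintype G] {χ : IrrCharacter G} {g₀ : G}

theorem card_G_fact {p : ℕ} (hp : p.Prime) {m k n j : ℕ} (hk : 0 < k) (hn : k + 1 = p ^ n) (hn0 : n ≠ 0) (hm : m = p ^ j)
    {c : ℕ} (hc : c = m ^ 2 * k * (k + 1)) : c.factorization p = 2 * j + n := by
  have hpk : ¬ p ∣ k := by
    intro hd
    have h1 : p ∣ k + 1 := by rw [hn]; exact dvd_pow_self p hn0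
    exact hp.one_lt.ne' (Nat.dvd_one.1 ((Nat.dvd_add_right hd).1 h1))
  rw [hc, hn, hm, Nat.factorization_mul (Nat.mul_pos (pow_pos (pow_pos hp.pos j) 2) hk).ne' (pow_pos hp.pos n).ne',
    Nat.factorization_mul (pow_pos (pow_pos hp.pos j) 2).ne' hk.ne', ← pow_mul, hp.factorization_pow, hp.factorization_pow]
  simp only [Finsupp.add_apply, Finsupp.single_eq_same, Nat.factorization_eq_zero_of_not_dvd hpk]
  ring

theorem GagC.cent_sylow (h : GagC χ g₀) (hG : 2 < Nat.card G) {p : ℕ} [hp : Fact p.Prime] (hNp : IsPGroup p (h.N hG))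
    {x : G} (hx : (χ : G → ℂ) x ≠ 0) (hx1 : x ≠ 1) :
    Nat.card (Subgroup.centralizer ({x} : Set G)) = p ^ (Nat.card G).factorization p := by
  obtain ⟨m, hm0, h1, -, h3⟩ := h.exists_m hG
  obtain ⟨j, n, hj, hn, hn0⟩ := h.p_data hG hNp hm0 h1 h3
  rw [card_G_fact hp.out h.k_pos hn hn0 hj h3, h.card_cent hG h3 hx hx1, hn, hj]
  ring

theorem GagC.N_comm (h : GagC χ g₀) (hG : 2 < Nat.card G) {p : ℕ} [hp : Fact p.Prime] (hNp : IsPGroup p (h.N hG)) :
    ∀ a b : h.N hG, a * b = b * a := by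
  haveI := h.N_normal hG
  have hg₀ : g₀ ∈ h.N hG := by rw [h.mem_N hG, h.2]; exact Or.inr (IsConj.refl _)
  have hN1 : h.N hG ≠ ⊥ := by
    intro h0
    rw [h0, Subgroup.mem_bot] at hg₀
    exact h.1 hg₀
  haveI : Nontrivial (h.N hG) := (Subgroup.nontrivial_iff_ne_bot _).2 hN1
  have hc := hNp.center_nontrivial
  have hK1 : (Subgroup.center (h.N hG)).map (h.N hG).subtype ≠ ⊥ := by
    intro h0
    rw [Subgroup.map_eq_bot_iff_of_injective _ (h.N hG).subtype_injective] at h0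
    exact (Subgroup.nontrivial_iff_ne_bot _).1 hc h0
  intro a b
  obtain ⟨c, hc, hca⟩ := h.N_le hG ((Subgroup.center (h.N hG)).map (h.N hG).subtype) hK1 ((h.mem_N hG _).1 a.2)
  have : c = a := Subtype.ext hca
  rw [this] at hc
  exact ((Subgroup.mem_center_iff.1 hc) b).symm

open Classical in
theorem GagC.inertia_card (h : GagC χ g₀) (hG : 2 < Nat.card G) {p : ℕ} [hp : Fact p.Prime] (hNp : IsPGroup p (h.N hG))
    (μ : IrrCharacter (h.N hG)) (hμ : (μ : ↥(h.N hG) → ℂ) ≠ fun _ => 1) :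
    Nat.card (inertia (h.N_normal hG) (μ : ↥(h.N hG) → ℂ)) = p ^ (Nat.card G).factorization p := by
  obtain ⟨m, hm0, h1, h2, h3⟩ := h.exists_m hG
  obtain ⟨j, n, hj, hn, hn0⟩ := h.p_data hG hNp hm0 h1 h3
  have hcN := h.card_N hG
  have hk := h.k_pos
  -- μ is linear
  obtain ⟨lam, hlam⟩ := H5.irr_of_comm (h.N_comm hG hNp) μ.2
  have hμ1 : (μ : ↥(h.N hG) → ℂ) 1 = 1 := by rw [hlam]; simp
  -- sum of μ is zero
  have hsum : ∑ x : h.N hG, (μ : ↥(h.N hG) → ℂ) x = 0 := by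
    have hne : μ ≠ trivIrr _ := by
      intro he; apply hμ; rw [he]; rfl
    have h4 : classInner (μ : ↥(h.N hG) → ℂ) (trivIrr ↥(h.N hG) : ↥(h.N hG) → ℂ) = 0 := H5.classInner_irr_ne hne
    rw [H5.classInner_def] at h4
    have hG0 : (Nat.card (h.N hG) : ℂ) ≠ 0 := by exact_mod_cast Nat.card_pos.ne'
    have h5 := (mul_eq_zero.1 h4).resolve_left (inv_ne_zero hG0)
    simpa [trivIrr_apply] using h5
  have hinner : classInner (fun x : h.N hG => (χ : G → ℂ) x) (μ : ↥(h.N hG) → ℂ) = m := by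
    rw [H5.classInner_def, hcN]
    have h4 : ∀ x : h.N hG, (χ : G → ℂ) x * conj ((μ : ↥(h.N hG) → ℂ) x) =
        -m * conj ((μ : ↥(h.N hG) → ℂ) x) + (if x = 1 then (m * (h.k + 1) : ℂ) else 0) := by
      intro x
      by_cases hx : x = 1
      · rw [hx, if_pos rfl, Subgroup.coe_one, h1, hμ1, map_one]; ring
      · rw [if_neg hx, add_zero]
        have hx1 : (x : G) ≠ 1 := fun h0 => hx (Subtype.ext h0)
        have hc : IsConj g₀ (x : G) := ((h.2 x).1 ((h.mem_N hG _).1 x.2)).resolve_left hx1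
        rw [← H5.IsClassFunction.eq_of_isConj (H5.irr_classFun χ) hc, h2]
    rw [Finset.sum_congr rfl (fun x _ => h4 x), Finset.sum_add_distrib, ← Finset.mul_sum, ← map_sum, hsum, map_zero, mul_zero,
      zero_add, Finset.sum_ite_eq' Finset.univ (1 : h.N hG), if_pos (Finset.mem_univ _)]
    have : ((h.k : ℂ) + 1) ≠ 0 := by exact_mod_cast (Nat.succ_pos h.k).ne'
    push_cast
    field_simp
  have hm0' : (m : ℂ) ≠ 0 := by exact_mod_cast hm0.ne'
  have hcl := clifford_degree (h.N_normal hG) (χ : G → ℂ) χ.2 (μ : ↥(h.N hG) → ℂ) μ.2 (by rw [hinner]; exact hm0')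
  rw [hinner, hμ1, h1, mul_one] at hcl
  have h5 : h.k = (inertia (h.N_normal hG) (μ : ↥(h.N hG) → ℂ)).index := by
    have := mul_left_cancel₀ hm0' hcl
    exact_mod_cast this
  have h6 := Subgroup.card_mul_index (inertia (h.N_normal hG) (μ : ↥(h.N hG) → ℂ))
  rw [← h5, h3] at h6
  have h7 : Nat.card (inertia (h.N_normal hG) (μ : ↥(h.N hG) → ℂ)) * h.k = (m ^ 2 * (h.k + 1)) * h.k := by rw [h6]; ring
  rw [Nat.eq_of_mul_eq_mul_right hk h7, card_G_fact hp.out hk hn hn0 hj h3, hn, hj]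
  ring

end Cfsg.Agent.H4
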