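import Cfsg.Agent.H4.Gagola3

namespace Cfsg.Agent.H4
open scoped ComplexConjugate
universe u
variable {G : Type u} [Group G] [Fintype G] {χ : IrrCharacter G} {g₀ : G}

theorem GagC.N_ne_bot (h : GagC χ g₀) (hG : 2 < Nat.card G) : h.N hG ≠ ⊥ := by
  have hg₀ : g₀ ∈ h.N hG := by rw [h.mem_N hG, h.2]; exact Or.inr (IsConj.refl _)
  intro h0
  rw [h0, Subgroup.mem_bot] at hg₀
  exact h.1 hg₀

open Classical in
theorem GagC.cent_quot (h : GagC χ g₀) (hG : 2 < Nat.card G) [hNn : (h.N hG).Normal] (x : G) (hx : x ∉ h.N hG) :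
    Nat.card (Subgroup.centralizer ({x} : Set G)) = Nat.card (Subgroup.centralizer ({(x : G ⧸ h.N hG)} : Set (G ⧸ h.N hG))) := by
  haveI : Fintype (G ⧸ h.N hG) := Fintype.ofFinite _
  have hχx : (χ : G → ℂ) x = 0 := by
    by_contra hne; exact hx ((h.mem_N hG x).2 hne)
  have e1 := H5.second_orthogonality x x
  have e2 := H5.second_orthogonality (x : G ⧸ h.N hG) (x : G ⧸ h.N hG)
  rw [if_pos (IsConj.refl _)] at e1 e2
  rw [← Finset.add_sum_erase _ _ (Finset.mem_univ χ), hχx, zero_mul, zero_add] at e1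
  have e3 : ∑ θ : IrrCharacter (G ⧸ h.N hG), (θ : G ⧸ h.N hG → ℂ) (x : G ⧸ h.N hG) * conj ((θ : G ⧸ h.N hG → ℂ) (x : G ⧸ h.N hG)) =
      ∑ ψ ∈ Finset.univ.erase χ, (ψ : G → ℂ) x * conj ((ψ : G → ℂ) x) := by
    apply Finset.sum_bij (fun (θ : IrrCharacter (G ⧸ h.N hG)) _ => (⟨_, H5.irr_inflate (N := h.N hG) θ⟩ : IrrCharacter G))
    · intro θ _
      rw [Finset.mem_erase]
      refine ⟨?_, Finset.mem_univ _⟩
      intro he
      have hg₀ : g₀ ∈ h.N hG := by rw [h.mem_N hG, h.2]; exact Or.inr (IsConj.refl _)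
      apply h.1
      apply h.faithful hG
      rw [← he]
      show (θ : G ⧸ h.N hG → ℂ) (QuotientGroup.mk g₀) = (θ : G ⧸ h.N hG → ℂ) (QuotientGroup.mk 1)
      rw [(QuotientGroup.eq_one_iff g₀).2 hg₀]; rfl
    · intro θ _ θ' _ he
      apply Subtype.ext
      funext q
      obtain ⟨g, rfl⟩ := QuotientGroup.mk_surjective q
      exact congrFun (congrArg Subtype.val he) g
    · intro ψ hψ
      obtain ⟨θ, hθ⟩ := H5.irr_deflate (N := h.N hG) ψ.2 (fun n hn =>
        (h.iff_ker hG n).1 ((h.mem_N hG n).1 hn) ψ (Finset.mem_erase.1 hψ).1)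
      exact ⟨θ, Finset.mem_univ _, Subtype.ext hθ.symm⟩
    · intro θ _
      rfl
  rw [e3, e1] at e2
  exact_mod_cast e2

theorem GagC.cent_not (h : GagC χ g₀) (hG : 2 < Nat.card G) {p : ℕ} [hp : Fact p.Prime] (hNp : IsPGroup p (h.N hG)) (P : Sylow p G)
    {x : G} (hx : x ∉ h.N hG) (C : Subgroup G) (hC : C ≤ Subgroup.centralizer ({x} : Set G)) (hCP : C ≤ (P : Subgroup G)) :
    Nat.card C * Nat.card (h.N hG) ≤ Nat.card (P : Subgroup G) := by
  haveI hNn := h.N_normal hG
  have h1 := h.cent_quot hG x hx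
  have h2 : Nat.card C ∣ Nat.card (G ⧸ h.N hG) := by
    refine (Subgroup.card_dvd_of_le hC).trans ?_
    rw [h1]; exact Subgroup.card_subgroup_dvd_card _
  obtain ⟨a, ha⟩ := (P.isPGroup'.to_le hCP).exists_card_eq
  obtain ⟨b, hb⟩ := hNp.exists_card_eq
  have h3 := Subgroup.card_eq_card_quotient_mul_card_subgroup (h.N hG)
  have h4 : p ^ (a + b) ∣ Nat.card G := by
    rw [h3, pow_add, ← ha, ← hb]
    exact mul_dvd_mul_right h2 _
  rw [ha, hb, ← pow_add, P.card_eq_multiplicity]
  exact Nat.pow_le_pow_right hp.out.pos ((hp.out.pow_dvd_iff_le_factorization Nat.card_pos.ne').1 h4)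

theorem GagC.two_le_N (h : GagC χ g₀) (hG : 2 < Nat.card G) : 2 ≤ Nat.card (h.N hG) := by
  rw [h.card_N hG]; have := h.k_pos; omega

theorem GagC.center_le (h : GagC χ g₀) (hG : 2 < Nat.card G) {p : ℕ} [hp : Fact p.Prime] (hNp : IsPGroup p (h.N hG)) (P : Sylow p G) :
    (Subgroup.center ↥(P : Subgroup G)).map (P : Subgroup G).subtype ≤ h.N hG := by
  rintro _ ⟨z, hz, rfl⟩
  by_contra hn
  have h1 := h.cent_not hG hNp P hn (P : Subgroup G) (fun y hy => by
    rw [Subgroup.mem_centralizer_singleton_iff]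
    exact congrArg Subtype.val ((Subgroup.mem_center_iff.1 hz) ⟨y, hy⟩)) le_rfl
  have h2 := h.two_le_N hG
  have h3 : 0 < Nat.card (P : Subgroup G) := Nat.card_pos
  nlinarith

theorem GagC.N_le_P (h : GagC χ g₀) (hG : 2 < Nat.card G) {p : ℕ} [hp : Fact p.Prime] (hNp : IsPGroup p (h.N hG)) (P : Sylow p G) :
    h.N hG ≤ (P : Subgroup G) := by
  haveI := h.N_normal hG
  exact (L0.le_pCore hNp).trans (L0.pCore_le_sylow P)

theorem GagC.center_eq_iff (h : GagC χ g₀) (hG : 2 < Nat.card G) {p : ℕ} [hp : Fact p.Prime] (hNp : IsPGroup p (h.N hG)) (P : Sylow p G) :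
    (Subgroup.center ↥(P : Subgroup G)).map (P : Subgroup G).subtype = h.N hG ↔ (P : Subgroup G).Normal := by
  haveI hNn := h.N_normal hG
  have hg₀ : g₀ ∈ h.N hG := by rw [h.mem_N hG, h.2]; exact Or.inr (IsConj.refl _)
  constructor
  · intro he
    have h1 : (P : Subgroup G) ≤ Subgroup.centralizer (h.N hG : Set G) := by
      intro y hy
      rw [Subgroup.mem_centralizer_iff]
      intro n hn
      have hn' : n ∈ (Subgroup.center ↥(P : Subgroup G)).map (P : Subgroup G).subtype := by rw [he]; exact hn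
      obtain ⟨z, hz, rfl⟩ := hn'
      exact (congrArg Subtype.val ((Subgroup.mem_center_iff.1 hz) ⟨y, hy⟩)).symm
    have h2 : Subgroup.centralizer (h.N hG : Set G) ≤ Subgroup.centralizer ({g₀} : Set G) :=
      Subgroup.centralizer_le (Set.singleton_subset_iff.2 hg₀)
    have h3 : (P : Subgroup G) = Subgroup.centralizer (h.N hG : Set G) := by
      apply Subgroup.eq_of_le_of_card_ge h1
      rw [P.card_eq_multiplicity, ← h.cent_sylow hG hNp ((h.mem_N hG g₀).1 hg₀) h.1]
      exact Nat.card_le_card_of_injective _ (Subgroup.inclusion_injective h2)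
    rw [h3]; infer_instance
  · intro hPn
    apply le_antisymm (h.center_le hG hNp P)
    intro g hg
    apply h.N_le hG _ _ ((h.mem_N hG g).1 hg)
    · intro h0
      rw [Subgroup.map_eq_bot_iff_of_injective _ (P : Subgroup G).subtype_injective] at h0
      haveI : Nontrivial (P : Subgroup G) := by
        rw [Subgroup.nontrivial_iff_ne_bot]
        intro hb
        have := h.N_le_P hG hNp P
        rw [hb, le_bot_iff] at this
        exact h.N_ne_bot hG this
      exact (Subgroup.nontrivial_iff_ne_bot _).1 P.isPGroup'.center_nontrivial h0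

theorem GagC.ucs (h : GagC χ g₀) (hG : 2 < Nat.card G) {p : ℕ} [hp : Fact p.Prime] (hNp : IsPGroup p (h.N hG)) (P : Sylow p G) :
    ∃ i : ℕ, Subgroup.upperCentralSeries ↥(P : Subgroup G) i = (h.N hG).subgroupOf (P : Subgroup G) := by
  classical
  by_contra hcon
  push Not at hcon
  have hnil := P.isPGroup'.isNilpotent
  obtain ⟨c, hc⟩ := hnil.nilpotent'
  have hstep : ∀ i, Subgroup.upperCentralSeries ↥(P : Subgroup G) i ≤ (h.N hG).subgroupOf (P : Subgroup G) := by
    intro i
    induction i with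
    | zero => rw [Subgroup.upperCentralSeries_zero]; exact bot_le
    | succ i ih =>
      by_contra hn
      obtain ⟨z, hz, hzN⟩ := SetLike.not_le_iff_exists.1 hn
      have hzN' : (z : G) ∉ h.N hG := fun hh => hzN hh
      -- the map `y ↦ [y, z]` 
      let C : Subgroup (P : Subgroup G) := Subgroup.centralizer ({z} : Set (P : Subgroup G))
      have h1 := h.cent_not hG hNp P hzN' (C.map (P : Subgroup G).subtype) (by
        rintro _ ⟨y, hy, rfl⟩
        rw [Subgroup.mem_centralizer_singleton_iff]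
        exact congrArg Subtype.val (Subgroup.mem_centralizer_singleton_iff.1 hy)) (Subgroup.map_subtype_le _)
      rw [Subgroup.card_map_of_injective (P : Subgroup G).subtype_injective] at h1
      have h2 : C.index ≤ Nat.card (Subgroup.upperCentralSeries ↥(P : Subgroup G) i) := by
        rw [show C.index = Nat.card {x : (P : Subgroup G) // IsConj z x} from (H5.card_isConj z).symm]
        apply Nat.card_le_card_of_injective (fun x : {x : (P : Subgroup G) // IsConj z x} =>
          (⟨z⁻¹ * x.1, ?_⟩ : Subgroup.upperCentralSeries ↥(P : Subgroup G) i))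
        · intro x y hxy
          have := congrArg Subtype.val hxy
          exact Subtype.ext (mul_left_cancel this)
        · obtain ⟨y, hy⟩ := isConj_iff.1 x.2
          rw [← hy]
          have h3 := (Subgroup.mem_upperCentralSeries_succ_iff).1 hz
          have h4 := h3 y
          have h5 : z⁻¹ * (y * z * y⁻¹) ∈ Subgroup.upperCentralSeries ↥(P : Subgroup G) i := by
            have h6 : z⁻¹ * (z * y * z⁻¹ * y⁻¹)⁻¹ * z = z⁻¹ * (y * z * y⁻¹) := by group
            rw [← h6]
            have h7 := Subgroup.Normal.conj_mem (inferInstance : (Subgroup.upperCentralSeries ↥(P : Subgroup G) i).Normal) _ (inv_mem h4) z⁻¹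
            rw [inv_inv] at h7
            exact h7
          exact h5
      have h3 := Subgroup.card_mul_index C
      have h4 : Nat.card (h.N hG) ≤ Nat.card (Subgroup.upperCentralSeries ↥(P : Subgroup G) i) := by
        refine le_trans ?_ h2
        have h5 : 0 < Nat.card C := Nat.card_pos
        rw [← h3] at h1
        exact Nat.le_of_mul_le_mul_left h1 h5
      apply hcon i
      apply Subgroup.eq_of_le_of_card_ge ih
      refine le_trans ?_ h4
      rw [Nat.card_congr (Subgroup.subgroupOfEquivOfLe (h.N_le_P hG hNp P)).toEquiv]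
  apply hcon c
  apply le_antisymm (hstep c)
  rw [hc]; exact le_top

end Cfsg.Agent.H4
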