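import Mathlib
import Cfsg.Agent.H4.Cover
import Cfsg.Agent.H1.Prod
set_option autoImplicit false
set_option linter.unusedVariables false
/-! Isaacs: `p`-groups with two class sizes. -/
open Subgroup Pointwise
open scoped commutatorElement IsMulCommutative
namespace Cfsg.Agent.H4
universe u

section
variable {P : Type u} [Group P] [Finite P]

/-- the hypothesis: all noncentral classes have the same size -/
def EqCl (P : Type u) [Group P] (n : ℕ) : Prop :=
  ∀ x : P, x ∉ center P → (centralizer ({x} : Set P)).index = n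

theorem EqCl.eq {n : ℕ} (h : EqCl P n) {x y : P} (hx : x ∉ center P) (hy : y ∉ center P)
    (hle : centralizer ({x} : Set P) ≤ centralizer ({y} : Set P)) : centralizer ({x} : Set P) = centralizer ({y} : Set P) := by
  apply Subgroup.eq_of_le_of_card_ge hle
  have h1 := (centralizer ({x} : Set P)).card_mul_index
  have h2 := (centralizer ({y} : Set P)).card_mul_index
  rw [h x hx] at h1
  rw [h y hy] at h2
  have hn : 0 < n := by
    rw [← h x hx]; exact Nat.pos_of_ne_zero Subgroup.index_ne_zero_of_finite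
  exact (Nat.eq_of_mul_eq_mul_right hn (h1.trans h2.symm)).ge

theorem cent_pow_le (x : P) (k : ℕ) : centralizer ({x} : Set P) ≤ centralizer ({x ^ k} : Set P) := by
  intro g hg
  rw [mem_centralizer_singleton_iff] at hg ⊢
  exact ((show Commute g x from hg).pow_right k).eq

theorem cent_mul_center {x c : P} (hc : c ∈ center P) : centralizer ({x * c} : Set P) = centralizer ({x} : Set P) := by
  ext g
  rw [mem_centralizer_singleton_iff, mem_centralizer_singleton_iff]
  have h1 := mem_center_iff.mp hc g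
  constructor
  · intro h
    have h2 : g * x * c = x * g * c := by
      calc g * x * c = g * (x * c) := by group
        _ = x * c * g := h
        _ = x * (g * c) := by rw [h1]; group
        _ = x * g * c := by group
    exact mul_right_cancel h2
  · intro h
    calc g * (x * c) = (g * x) * c := by group
      _ = x * (g * c) := by rw [h]; group
      _ = x * c * g := by rw [h1]; group

theorem EqCl.pow_mem {n : ℕ} (h : EqCl P n) {u v : P} (hu : u ∉ center P) (hv : v ∉ center P)
    (huv : u * v * u⁻¹ * v⁻¹ ∈ center P) (hne : centralizer ({u} : Set P) ≠ centralizer ({v} : Set P)) (k : ℕ)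
    (huk : u ^ k ∈ center P) : v ^ k ∈ center P := by
  by_contra hvk
  have h1 : Commute ((u : P) : P ⧸ center P) ((v : P) : P ⧸ center P) := by
    have h2 : (((u * v * u⁻¹ * v⁻¹ : P)) : P ⧸ center P) = 1 := (QuotientGroup.eq_one_iff _).mpr huv
    rw [QuotientGroup.mk_mul, QuotientGroup.mk_mul, QuotientGroup.mk_mul, QuotientGroup.mk_inv, QuotientGroup.mk_inv, mul_inv_eq_one, mul_inv_eq_iff_eq_mul] at h2
    exact h2
  have h3 : (((u * v) ^ k : P) : P ⧸ center P) = ((v ^ k : P) : P ⧸ center P) := by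
    rw [QuotientGroup.mk_pow, QuotientGroup.mk_mul, h1.mul_pow, ← QuotientGroup.mk_pow, (QuotientGroup.eq_one_iff _).mpr huk, one_mul, QuotientGroup.mk_pow]
  rw [eq_comm, QuotientGroup.eq] at h3
  have h4 : (u * v) ^ k = v ^ k * ((v ^ k)⁻¹ * (u * v) ^ k) := by group
  have h5 : centralizer ({(u * v) ^ k} : Set P) = centralizer ({v ^ k} : Set P) := by
    rw [h4]; exact cent_mul_center h3
  have h6 : (u * v) ^ k ∉ center P := by
    intro h7
    apply hvk
    have h8 := mul_mem h7 (inv_mem h3)
    rwa [mul_inv_rev, inv_inv, mul_inv_cancel_left] at h8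
  have h7 : u * v ∉ center P := fun h8 => h6 (_root_.pow_mem h8 k)
  have h8 := h.eq h7 h6 (cent_pow_le _ k)
  have h9 := h.eq hv hvk (cent_pow_le _ k)
  have h10 : centralizer ({u * v} : Set P) = centralizer ({v} : Set P) := by rw [h8, h5, h9]
  apply hne
  symm
  apply h.eq hv hu
  intro g hg
  have h11 : g ∈ centralizer ({u * v} : Set P) := by rw [h10]; exact hg
  rw [mem_centralizer_singleton_iff] at h11 hg ⊢
  have h12 : g * u * v = u * g * v := by
    calc g * u * v = g * (u * v) := by group
      _ = u * v * g := h11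
      _ = u * (g * v) := by rw [hg]; group
      _ = u * g * v := by group
  exact mul_right_cancel h12

theorem EqCl.key {n : ℕ} (h : EqCl P n) {p : ℕ} [hp : Fact p.Prime] (hP : IsPGroup p P) {x y : P} (hx : x ^ p ∉ center P) (hy : y ∉ center P)
    (hxy : x * y * x⁻¹ * y⁻¹ ∈ center P) : centralizer ({x} : Set P) = centralizer ({y} : Set P) := by
  by_contra hne
  have hx1 : x ∉ center P := fun h1 => hx (_root_.pow_mem h1 p)
  have hcx := h.eq hx1 hx (cent_pow_le x p)
  have hxy' : y * x * y⁻¹ * x⁻¹ ∈ center P := by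
    have : y * x * y⁻¹ * x⁻¹ = (x * y * x⁻¹ * y⁻¹)⁻¹ := by group
    rw [this]; exact inv_mem hxy
  have hcom : Commute ((y : P) : P ⧸ center P) ((x : P) : P ⧸ center P) := by
    have h2 : (((y * x * y⁻¹ * x⁻¹ : P)) : P ⧸ center P) = 1 := (QuotientGroup.eq_one_iff _).mpr hxy'
    rw [QuotientGroup.mk_mul, QuotientGroup.mk_mul, QuotientGroup.mk_mul, QuotientGroup.mk_inv, QuotientGroup.mk_inv, mul_inv_eq_one, mul_inv_eq_iff_eq_mul] at h2
    exact h2
  have hxpy : y * x ^ p * y⁻¹ * (x ^ p)⁻¹ ∈ center P := by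
    rw [← QuotientGroup.eq_one_iff, QuotientGroup.mk_mul, QuotientGroup.mk_mul, QuotientGroup.mk_mul, QuotientGroup.mk_inv, QuotientGroup.mk_inv, QuotientGroup.mk_pow,
      mul_inv_eq_one, mul_inv_eq_iff_eq_mul]
    exact (hcom.pow_right p).eq
  have h1 : ∀ k : ℕ, (x ^ p) ^ k ∈ center P → x ^ k ∈ center P := by
    intro k hk
    have h2 : y ^ k ∈ center P := h.pow_mem hx hy (by
      have : x ^ p * y * (x ^ p)⁻¹ * y⁻¹ = (y * x ^ p * y⁻¹ * (x ^ p)⁻¹)⁻¹ := by group
      rw [this]; exact inv_mem hxpy) (by rw [← hcx]; exact hne) k hk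
    exact h.pow_mem hy hx1 hxy' (Ne.symm hne) k h2
  obtain ⟨j, hj⟩ := hP x
  have h2 : ∀ i : ℕ, x ^ p ^ i ∈ center P → x ∈ center P := by
    intro i
    induction i with
    | zero => intro h3; simpa using h3
    | succ i ih =>
      intro h3
      apply ih
      apply h1
      rwa [← pow_mul, mul_comm, ← pow_succ]
  exact hx1 (h2 j (by rw [hj]; exact one_mem _))

theorem pow_mem_center_of_eqCl {p : ℕ} [hp : Fact p.Prime] (hP : IsPGroup p P) {n : ℕ} (h : EqCl P n) (x : P) : x ^ p ∈ center P := by
  classical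
  by_contra hx
  have hx1 : x ∉ center P := fun h1 => hx (_root_.pow_mem h1 p)
  have hcentmul : ∀ y z : P, y * z = z * y → z * y * z⁻¹ * y⁻¹ ∈ center P := by
    intro y z hyz
    have : z * y * z⁻¹ * y⁻¹ = 1 := by rw [← hyz]; group
    rw [this]; exact one_mem _
  obtain ⟨A, hA⟩ : ∃ A : Subgroup P, A = centralizer ({x} : Set P) := ⟨_, rfl⟩
  have hxA : x ∈ A := by rw [hA, mem_centralizer_singleton_iff]
  have hZA : center P ≤ A := by
    rw [hA]; exact Subgroup.center_le_centralizer _
  have hAc : ∀ a ∈ A, a ∉ center P → A = centralizer ({a} : Set P) := by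
    intro a ha haz
    rw [hA] at ha ⊢
    rw [mem_centralizer_singleton_iff] at ha
    exact h.key hP hx haz (hcentmul _ _ ha)
  have hAab : ∀ a ∈ A, ∀ b ∈ A, a * b = b * a := by
    intro a ha b hb
    by_cases haz : a ∈ center P
    · exact (mem_center_iff.mp haz b).symm
    · have h1 := hAc a ha haz
      rw [h1, mem_centralizer_singleton_iff] at hb
      exact hb.symm
  -- a second-centre element
  obtain ⟨w, hw, hwc⟩ : ∃ w : P, w ∉ center P ∧ ∀ g : P, g * w * g⁻¹ * w⁻¹ ∈ center P := by
    have hPq : IsPGroup p (P ⧸ center P) := hP.to_quotient _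
    haveI : Nontrivial (P ⧸ center P) := ⟨⟨((x : P) : P ⧸ center P), 1, fun h1 => hx1 ((QuotientGroup.eq_one_iff _).mp h1)⟩⟩
    haveI := hPq.center_nontrivial
    obtain ⟨⟨q, hq⟩, hq1⟩ := exists_ne (1 : center (P ⧸ center P))
    obtain ⟨w, rfl⟩ := QuotientGroup.mk_surjective q
    refine ⟨w, ?_, ?_⟩
    · intro h1
      exact hq1 (Subtype.ext ((QuotientGroup.eq_one_iff _).mpr h1))
    · intro g
      rw [← QuotientGroup.eq_one_iff, QuotientGroup.mk_mul, QuotientGroup.mk_mul, QuotientGroup.mk_mul, QuotientGroup.mk_inv, QuotientGroup.mk_inv,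
        mul_inv_eq_one, mul_inv_eq_iff_eq_mul]
      exact mem_center_iff.mp hq _
  have hbig : ∀ y : P, y ^ p ∉ center P → A = centralizer ({y} : Set P) := by
    intro y hy
    rw [hA, h.key hP hx hw (hwc x), h.key hP hy hw (hwc y)]
  have hAn : A.Normal := by
    constructor
    intro a ha g
    have h1 : (g * x * g⁻¹) ^ p ∉ center P := by
      rw [conj_pow]
      intro h2
      apply hx
      have h3 := (inferInstance : (center P).Normal).conj_mem _ h2 g⁻¹
      have e : g⁻¹ * (g * x ^ p * g⁻¹) * g⁻¹⁻¹ = x ^ p := by group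
      rwa [e] at h3
    rw [hbig _ h1, mem_centralizer_singleton_iff]
    rw [hA, mem_centralizer_singleton_iff] at ha
    calc g * a * g⁻¹ * (g * x * g⁻¹) = g * (a * x) * g⁻¹ := by group
      _ = g * x * g⁻¹ * (g * a * g⁻¹) := by rw [ha]; group
  have hout : ∀ y : P, y ∉ A → y ^ p ∈ center P := by
    intro y hy
    by_contra h1
    apply hy
    rw [hbig y h1, mem_centralizer_singleton_iff]
  haveI := hAn
  haveI hAm : IsMulCommutative A := ⟨⟨fun a b => Subtype.ext (hAab a a.2 b b.2)⟩⟩
  -- line property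
  obtain ⟨f, hf⟩ : ∃ f : P → A, ∀ g, (f g : P) = g * x * g⁻¹ := ⟨fun g => ⟨g * x * g⁻¹, hAn.conj_mem x hxA g⟩, fun _ => rfl⟩
  have hfA : ∀ g g' : P, g⁻¹ * g' ∈ A → f g = f g' := by
    intro g g' hg
    apply Subtype.ext
    rw [hf, hf]
    have h1 := hAab _ hg x hxA
    have e : g' = g * (g⁻¹ * g') := by group
    have e2 : g' * x * g'⁻¹ = g * ((g⁻¹ * g') * x) * g'⁻¹ := by group
    rw [e2, h1]
    group
  have hline : ∀ w : P, w ∉ A → ∀ g : P, (∏ t ∈ Finset.range p, f (w ^ t * g)) ∈ (center P).subgroupOf A := by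
    intro w hw g
    have h1 : ∀ k : ℕ, ((∏ t ∈ Finset.range k, f (w ^ t * g) : A) : P) * w ^ k = (g * x * g⁻¹ * w) ^ k := by
      intro k
      induction k with
      | zero => simp
      | succ k ih =>
        rw [Finset.prod_range_succ, Subgroup.coe_mul, hf, pow_succ (g * x * g⁻¹ * w), ← ih]
        group
    have h2 := h1 p
    have h3 : g * x * g⁻¹ * w ∉ A := by
      intro h4
      exact hw ((Subgroup.mul_mem_cancel_left A (hAn.conj_mem x hxA g)).mp h4)
    have h4 := hout _ h3
    have h5 := hout _ hw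
    rw [Subgroup.mem_subgroupOf]
    have h6 : ((∏ t ∈ Finset.range p, f (w ^ t * g) : A) : P) = (g * x * g⁻¹ * w) ^ p * (w ^ p)⁻¹ := by
      rw [← h2]; group
    rw [h6]
    exact mul_mem h4 (inv_mem h5)
  -- index
  have hAidx : A.index = n := by rw [hA]; exact h x hx1
  obtain ⟨a, ha⟩ := hP.index A
  have hPA : IsPGroup p (P ⧸ A) := hP.to_quotient _
  have hPAexp : ∀ q : P ⧸ A, q ^ p = 1 := by
    intro q
    obtain ⟨g, rfl⟩ := QuotientGroup.mk_surjective q
    rw [← QuotientGroup.mk_pow, QuotientGroup.eq_one_iff]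
    by_cases hg : g ∈ A
    · exact pow_mem hg p
    · exact hZA (hout g hg)
  have hAtop : A ≠ ⊤ := by
    intro h1
    apply hx1
    rw [mem_center_iff]
    intro g
    exact hAab g (by rw [h1]; trivial) x hxA
  obtain ⟨y, hy⟩ : ∃ y, y ∉ A := by
    by_contra h1
    push Not at h1
    exact hAtop (by rw [eq_top_iff]; intro g _; exact h1 g)
  by_cases hcase : A.index ≤ p
  · -- small case
    have hyz : y ∉ center P := fun h1 => hy (hZA h1)
    have hint : centralizer ({y} : Set P) ⊓ A = center P := by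
      apply le_antisymm
      · intro b hb
        obtain ⟨hb1, hb2⟩ := Subgroup.mem_inf.mp hb
        by_contra hbz
        apply hy
        rw [hAc b hb2 hbz, mem_centralizer_singleton_iff]
        exact (mem_centralizer_singleton_iff.mp hb1).symm
      · exact le_inf (Subgroup.center_le_centralizer _) hZA
    have h1 := H1.card_set_mul (centralizer ({y} : Set P)) A
    rw [hint] at h1
    have h2 : Nat.card ((centralizer ({y} : Set P) : Set P) * (A : Set P) : Set P) ≤ Nat.card P := Nat.card_le_card_of_injective _ Subtype.val_injective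
    have h3 := (centralizer ({y} : Set P)).card_mul_index
    have h4 := A.card_mul_index
    rw [h y hyz] at h3
    rw [hAidx] at h4
    have hn : 0 < n := by rw [← hAidx]; exact Nat.pos_of_ne_zero Subgroup.index_ne_zero_of_finite
    have h5 : Nat.card (centralizer ({y} : Set P)) = Nat.card A := Nat.eq_of_mul_eq_mul_right hn (h3.trans h4.symm)
    have hApos : 0 < Nat.card A := Nat.card_pos
    -- |A| ≤ n |Z|
    have h6 : Nat.card A ≤ n * Nat.card (center P) := by
      have h7 : Nat.card A * Nat.card A ≤ Nat.card A * (n * Nat.card (center P)) := by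
        calc Nat.card A * Nat.card A = Nat.card (centralizer ({y} : Set P)) * Nat.card A := by rw [h5]
          _ = Nat.card ((centralizer ({y} : Set P) : Set P) * (A : Set P) : Set P) * Nat.card (center P) := h1.symm
          _ ≤ Nat.card P * Nat.card (center P) := Nat.mul_le_mul_right _ h2
          _ = Nat.card A * (n * Nat.card (center P)) := by rw [← h4]; ring
      exact Nat.le_of_mul_le_mul_left h7 hApos
    have h7 : (center P).relIndex A ≤ p := by
      have h8 := Subgroup.relIndex_mul_relIndex ⊥ (center P) A bot_le hZA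
      rw [Subgroup.relIndex_bot_left, Subgroup.relIndex_bot_left] at h8
      have hZpos : 0 < Nat.card (center P) := Nat.card_pos
      have h9 : Nat.card (center P) * (center P).relIndex A ≤ Nat.card (center P) * p := by
        rw [h8]
        calc Nat.card A ≤ n * Nat.card (center P) := h6
          _ ≤ p * Nat.card (center P) := Nat.mul_le_mul_right _ (hAidx ▸ hcase)
          _ = Nat.card (center P) * p := mul_comm _ _
      exact Nat.le_of_mul_le_mul_left h9 hZpos
    obtain ⟨e, he⟩ := (hP.to_subgroup A).index ((center P).subgroupOf A)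
    have he1 : e ≤ 1 := by
      by_contra hcon
      push Not at hcon
      have h8 : (center P).relIndex A = p ^ e := he
      have h9 : p ^ 2 ≤ p ^ e := Nat.pow_le_pow_right hp.out.pos hcon
      have h10 := hp.out.two_le
      nlinarith
    have h8 : (⟨x, hxA⟩ : A) ^ ((center P).subgroupOf A).index ∈ (center P).subgroupOf A := Subgroup.pow_index_mem _ _
    rw [he] at h8
    have h9 : x ^ p ^ e ∈ center P := h8
    interval_cases e
    · rw [pow_zero, pow_one] at h9; exact hx1 h9
    · rw [pow_one] at h9; exact hx h9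
  · -- big case
    push Not at hcase
    haveI : Nontrivial (P ⧸ A) := ⟨⟨((y : P) : P ⧸ A), 1, fun h1 => hy ((QuotientGroup.eq_one_iff _).mp h1)⟩⟩
    haveI := hPA.center_nontrivial
    obtain ⟨⟨q, hq⟩, hq1⟩ := exists_ne (1 : center (P ⧸ A))
    obtain ⟨v, rfl⟩ := QuotientGroup.mk_surjective q
    have hv1 : ((v : P) : P ⧸ A) ≠ 1 := fun h1 => hq1 (Subtype.ext h1)
    have hvo : orderOf ((v : P) : P ⧸ A) = p := orderOf_eq_prime (hPAexp _) hv1
    obtain ⟨u, hu⟩ : ∃ u : P, ((u : P) : P ⧸ A) ∉ zpowers ((v : P) : P ⧸ A) := by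
      by_contra hcon
      push Not at hcon
      have h1 : zpowers ((v : P) : P ⧸ A) = ⊤ := by
        rw [eq_top_iff]
        intro z _
        obtain ⟨g, rfl⟩ := QuotientGroup.mk_surjective z
        exact hcon g
      have h2 : Nat.card (P ⧸ A) = p := by
        rw [← hvo, ← Nat.card_zpowers, h1, Subgroup.card_top]
      rw [← Subgroup.index_eq_card] at h2
      omega
    have hcom : Commute ((u : P) : P ⧸ A) ((v : P) : P ⧸ A) := mem_center_iff.mp hq _
    have h1 : ∀ j, (∏ t ∈ Finset.range p, f ((u * v ^ j) ^ t * 1)) ∈ (center P).subgroupOf A := by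
      intro j
      apply hline
      intro h2
      apply hu
      rw [← QuotientGroup.eq_one_iff, QuotientGroup.mk_mul, QuotientGroup.mk_pow, mul_eq_one_iff_eq_inv] at h2
      rw [h2]
      exact inv_mem (pow_mem (mem_zpowers _) j)
    have h2 : (∏ j ∈ Finset.range p, ∏ t ∈ Finset.range p, f ((u * v ^ j) ^ t * 1)) ∈ (center P).subgroupOf A :=
      Subgroup.prod_mem _ (fun j _ => h1 j)
    rw [Finset.prod_comm] at h2
    have h3 : ∀ t j : ℕ, f ((u * v ^ j) ^ t * 1) = f ((v ^ t) ^ j * u ^ t) := by
      intro t j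
      apply hfA
      rw [← QuotientGroup.eq, mul_one]
      rw [QuotientGroup.mk_pow, QuotientGroup.mk_mul, QuotientGroup.mk_pow, QuotientGroup.mk_mul, QuotientGroup.mk_pow, QuotientGroup.mk_pow, QuotientGroup.mk_pow,
        (hcom.pow_right j).mul_pow, ← pow_mul, ← pow_mul, mul_comm j t]
      exact ((hcom.pow_right (t * j)).pow_left t).eq
    have h4 : ∀ t : ℕ, t + 1 < p → (∏ j ∈ Finset.range p, f ((u * v ^ j) ^ (t + 1) * 1)) ∈ (center P).subgroupOf A := by
      intro t ht
      rw [Finset.prod_congr rfl (fun j _ => h3 (t + 1) j)]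
      apply hline
      intro h5
      rw [← QuotientGroup.eq_one_iff, QuotientGroup.mk_pow, ← orderOf_dvd_iff_pow_eq_one, hvo] at h5
      exact absurd (Nat.le_of_dvd (Nat.succ_pos t) h5) (by omega)
    obtain ⟨r, hr⟩ : ∃ r, p = r + 1 := ⟨p - 1, by have := hp.out.pos; omega⟩
    have h5 : (∏ t ∈ Finset.range (r + 1), ∏ j ∈ Finset.range p, f ((u * v ^ j) ^ t * 1)) ∈ (center P).subgroupOf A := by
      rw [← hr]; exact h2
    rw [Finset.prod_range_succ'] at h5
    have h6 : (∏ t ∈ Finset.range r, ∏ j ∈ Finset.range p, f ((u * v ^ j) ^ (t + 1) * 1)) ∈ (center P).subgroupOf A := by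
      apply Subgroup.prod_mem
      intro t ht
      apply h4
      rw [Finset.mem_range] at ht
      omega
    have h7 := (Subgroup.mul_mem_cancel_left _ h6).mp h5
    have h8 : (∏ j ∈ Finset.range p, f ((u * v ^ j) ^ 0 * 1)) = (⟨x, hxA⟩ : A) ^ p := by
      rw [Finset.prod_congr rfl (fun j _ => show f ((u * v ^ j) ^ 0 * 1) = ⟨x, hxA⟩ by
        apply Subtype.ext; rw [hf]; simp), Finset.prod_const, Finset.card_range]
    rw [h8] at h7
    exact hx h7

end
end Cfsg.Agent.H4
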