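import Cfsg.Agent.H4.MaxCl

set_option linter.all false
set_option autoImplicit false

namespace Cfsg.Agent.H4
open scoped commutatorElement
universe u

theorem maxcl_p3 {X : Type u} [Group X] [Finite X] {p : ℕ} [hpf : Fact p.Prime] (n : ℕ) (hX : Nat.card X = p ^ n) (B : Subgroup X)
    (hB : Nat.card B = p ^ 3) (hBna : ¬ IsMulCommutative B) (hC : Subgroup.centralizer (B : Set X) ≤ B) : Group.nilpotencyClass X = n - 1 := by
  classical
  have hp : p.Prime := Fact.out
  have hP : IsPGroup p X := IsPGroup.of_card hX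
  haveI hnil : Group.IsNilpotent X := hP.isNilpotent
  haveI : Nontrivial X := by
    have h1 := Subgroup.card_le_card_group B
    rw [hB] at h1
    exact Finite.one_lt_card_iff_nontrivial.mp (lt_of_lt_of_le (Nat.one_lt_pow (by norm_num) hp.one_lt) h1)
  haveI := hP.center_nontrivial
  have hn3 : 3 ≤ n := by
    have h1 := Subgroup.card_le_card_group B
    rw [hB, hX] at h1
    exact (Nat.pow_le_pow_iff_right hp.one_lt).mp h1
  -- generators
  obtain ⟨b₁, hb₁, b₂, hb₂, hb⟩ : ∃ b₁ ∈ B, ∃ b₂ ∈ B, b₁ * b₂ ≠ b₂ * b₁ := by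
    by_contra hcon
    push Not at hcon
    exact hBna ⟨⟨fun a b => Subtype.ext (hcon a a.2 b b.2)⟩⟩
  have hgen : Subgroup.closure {b₁, b₂} = B := by
    have hle : Subgroup.closure {b₁, b₂} ≤ B := by
      rw [Subgroup.closure_le]
      rintro x (rfl | rfl)
      · exact hb₁
      · exact hb₂
    apply Subgroup.eq_of_le_of_card_ge hle
    obtain ⟨k, hk, hk'⟩ := (Nat.dvd_prime_pow hp).mp (hB ▸ Subgroup.card_dvd_of_le hle)
    have m1 : b₁ ∈ Subgroup.closure ({b₁, b₂} : Set X) := Subgroup.subset_closure (Or.inl rfl)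
    have m2 : b₂ ∈ Subgroup.closure ({b₁, b₂} : Set X) := Subgroup.subset_closure (Or.inr rfl)
    have hk3 : ¬ k ≤ 2 := by
      intro hk2
      have hcomm : IsMulCommutative (Subgroup.closure ({b₁, b₂} : Set X)) := by
        have : k = 0 ∨ k = 1 ∨ k = 2 := by omega
        rcases this with rfl | rfl | rfl
        · rw [pow_zero] at hk'
          have h1 := (Nat.card_eq_one_iff_unique.mp hk').1
          exact ⟨⟨fun a b => Subsingleton.elim _ _⟩⟩
        · rw [pow_one] at hk'
          haveI := isCyclic_of_prime_card hk'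
          letI : CommGroup (Subgroup.closure ({b₁, b₂} : Set X)) := IsCyclic.commGroup
          exact ⟨⟨fun a b => mul_comm a b⟩⟩
        · exact IsPGroup.isMulCommutative_of_card_eq_prime_sq hk'
      exact hb (congrArg Subtype.val (hcomm.is_comm.comm ⟨b₁, m1⟩ ⟨b₂, m2⟩))
    have : k = 3 := by omega
    rw [hk', this, hB]
  set Z := Subgroup.center X with hZ
  have hZC : Z ≤ Subgroup.centralizer (B : Set X) := Subgroup.center_le_centralizer _
  have hZB : Z ≤ B := hZC.trans hC
  -- centralizer of B has order p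
  have hCcard : Nat.card (Subgroup.centralizer (B : Set X)) ∣ p := by
    obtain ⟨k, hk, hk'⟩ := (Nat.dvd_prime_pow hp).mp (hB ▸ Subgroup.card_dvd_of_le hC)
    have hcB : (Subgroup.centralizer (B : Set X)).subgroupOf B ≤ Subgroup.center B := by
      intro x hx
      rw [Subgroup.mem_center_iff]
      intro y
      apply Subtype.ext
      exact (Subgroup.mem_centralizer_iff.mp (Subgroup.mem_subgroupOf.mp hx)) y y.2
    have hk2 : ¬ 2 ≤ k := by
      intro h2
      apply hBna
      have h3 : Nat.card ((Subgroup.centralizer (B : Set X)).subgroupOf B) = p ^ k := by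
        rw [← hk']; exact Nat.card_congr (Subgroup.subgroupOfEquivOfLe hC).toEquiv
      have h4 : p ^ 2 ∣ Nat.card (Subgroup.center B) := by
        refine dvd_trans ?_ (Subgroup.card_dvd_of_le hcB)
        rw [h3]; exact pow_dvd_pow p h2
      have h5 := Subgroup.card_eq_card_quotient_mul_card_subgroup (Subgroup.center B)
      obtain ⟨m, hm⟩ := h4
      rw [hm, hB] at h5
      have h6 : Nat.card (B ⧸ Subgroup.center B) ∣ p := by
        have h7 : p * p ^ 2 = (Nat.card (B ⧸ Subgroup.center B) * m) * p ^ 2 := by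
          rw [← pow_succ', h5]; ring
        have h8 := Nat.eq_of_mul_eq_mul_right (pow_pos hp.pos 2) h7
        exact ⟨m, h8⟩
      have h9 : IsCyclic (B ⧸ Subgroup.center B) := isCyclic_of_card_dvd_prime (p := p) h6
      exact isMulCommutative_of_isCyclic_quotient_center_self B
    rw [hk']
    have : k = 0 ∨ k = 1 := by omega
    rcases this with rfl | rfl
    · simp
    · simp
  have hZcard : Nat.card Z = p := by
    have h1 : Nat.card Z ∣ p := (Subgroup.card_dvd_of_le hZC).trans hCcard
    rcases (Nat.dvd_prime hp).mp h1 with h | h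
    · exact absurd h (Finite.one_lt_card (α := Z)).ne'
    · exact h
  have hCZ : Subgroup.centralizer (B : Set X) = Z := by
    symm
    apply Subgroup.eq_of_le_of_card_ge hZC
    rw [hZcard]
    exact Nat.le_of_dvd hp.pos hCcard
  have hXc : Nat.card (X ⧸ Z) = p ^ (n - 1) := by
    have h4 := Subgroup.card_eq_card_quotient_mul_card_subgroup Z
    have h3 : p ^ n = p ^ (n - 1) * p := by rw [← pow_succ]; congr 1; omega
    rw [hX, hZcard, h3] at h4
    exact (Nat.eq_of_mul_eq_mul_right hp.pos h4).symm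
  set π := QuotientGroup.mk' Z with hπ
  have hone : ∀ x, π x = 1 ↔ x ∈ Z := fun x => QuotientGroup.eq_one_iff x
  -- order of the image
  have hcomap : (B.map π).comap π = B := by
    rw [Subgroup.comap_map_eq, hπ, QuotientGroup.ker_mk', sup_eq_left]; exact hZB
  have hBb : Nat.card (B.map π) = p ^ 2 := by
    have h1 := Subgroup.index_comap_of_surjective (B.map π) (QuotientGroup.mk'_surjective Z)
    rw [hcomap] at h1
    have h2 := (B.map π).card_mul_index
    have h3 := B.card_mul_index
    have h4 := Subgroup.card_eq_card_quotient_mul_card_subgroup Z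
    rw [← h1] at h2
    rw [hB] at h3
    rw [hZcard, ← h2, ← h3] at h4
    have h5 : 0 < B.index := Nat.pos_of_ne_zero Subgroup.index_ne_zero_of_finite
    have h6 : 0 < B.index * p := Nat.mul_pos h5 hp.pos
    apply Nat.eq_of_mul_eq_mul_right h6
    linarith [h4]
  -- the subgroup D
  have hZc : ∀ z ∈ Z, ∀ x : X, x * z = z * x := fun z hz x => Subgroup.mem_center_iff.mp hz x
  let D : Subgroup X := (Subgroup.centralizer (B.map π : Set (X ⧸ Z))).comap π
  have hDmem : ∀ x, x ∈ D → ∀ b ∈ B, x * b * x⁻¹ * b⁻¹ ∈ Z := by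
    intro x hx b hb
    have h1 := (Subgroup.mem_centralizer_iff.mp hx) (π b) (Subgroup.mem_map_of_mem π hb)
    rw [← hone]
    rw [map_mul, map_mul, map_mul, map_inv, map_inv, ← h1]; group
  have hBD : B ≤ D := by
    intro x hx
    show π x ∈ Subgroup.centralizer _
    rw [Subgroup.mem_centralizer_iff]
    intro y hy
    have := (IsPGroup.isMulCommutative_of_card_eq_prime_sq hBb).is_comm.comm ⟨y, hy⟩ ⟨π x, Subgroup.mem_map_of_mem π hx⟩
    exact congrArg Subtype.val this
  have hhom : ∀ b ∈ B, ∀ x ∈ D, ∀ y ∈ D, (x * y) * b * (x * y)⁻¹ * b⁻¹ = (x * b * x⁻¹ * b⁻¹) * (y * b * y⁻¹ * b⁻¹) := by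
    intro b hb x hx y hy
    have h1 := hZc _ (hDmem y hy b hb) x
    calc (x * y) * b * (x * y)⁻¹ * b⁻¹ = (x * (y * b * y⁻¹ * b⁻¹)) * b * x⁻¹ * b⁻¹ := by group
      _ = (y * b * y⁻¹ * b⁻¹) * (x * b * x⁻¹ * b⁻¹) := by rw [h1]; group
      _ = _ := (hZc _ (hDmem y hy b hb) _).symm
  let f : D →* Z × Z :=
    { toFun := fun x => (⟨x * b₁ * (x : X)⁻¹ * b₁⁻¹, hDmem x x.2 b₁ hb₁⟩, ⟨x * b₂ * (x : X)⁻¹ * b₂⁻¹, hDmem x x.2 b₂ hb₂⟩)
      map_one' := by
        apply Prod.ext <;> apply Subtype.ext <;> simp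
      map_mul' := by
        intro x y
        apply Prod.ext
        · exact Subtype.ext (hhom b₁ hb₁ x x.2 y y.2)
        · exact Subtype.ext (hhom b₂ hb₂ x x.2 y y.2) }
  have hfker : Nat.card f.ker ≤ p := by
    rw [← hZcard]
    refine Nat.card_le_card_of_injective (fun x : f.ker => (⟨((x : D) : X), ?_⟩ : Z)) ?_
    · have h1 := MonoidHom.mem_ker.mp x.2
      have h2 : ((x : D) : X) * b₁ * ((x : D) : X)⁻¹ * b₁⁻¹ = 1 := congrArg (fun t : Z × Z => (t.1 : X)) h1
      have h3 : ((x : D) : X) * b₂ * ((x : D) : X)⁻¹ * b₂⁻¹ = 1 := congrArg (fun t : Z × Z => (t.2 : X)) h1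
      refine hCZ.le ?_
      have h4 : B ≤ Subgroup.centralizer {((x : D) : X)} := by
        rw [← hgen, Subgroup.closure_le]
        rintro y (rfl | rfl)
        · rw [mul_inv_eq_one, mul_inv_eq_iff_eq_mul] at h2
          exact Subgroup.mem_centralizer_singleton_iff.mpr h2.symm
        · rw [mul_inv_eq_one, mul_inv_eq_iff_eq_mul] at h3
          exact Subgroup.mem_centralizer_singleton_iff.mpr h3.symm
      rw [Subgroup.mem_centralizer_iff]
      intro y hy
      exact Subgroup.mem_centralizer_singleton_iff.mp (h4 hy)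
    · intro x y h
      have : ((x : D) : X) = ((y : D) : X) := congrArg (fun t : Z => (t : X)) h
      exact Subtype.ext (Subtype.ext this)
  have hDcard : Nat.card D ≤ p ^ 3 := by
    have h1 := f.ker.card_mul_index
    rw [Subgroup.index_ker] at h1
    have h2 : Nat.card f.range ≤ p * p := by
      refine le_trans (Subgroup.card_le_card_group _) ?_
      rw [Nat.card_prod, hZcard]
    calc Nat.card D = Nat.card f.ker * Nat.card f.range := h1.symm
      _ ≤ p * (p * p) := Nat.mul_le_mul hfker h2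
      _ = p ^ 3 := by ring
  have hDB : D = B := (Subgroup.eq_of_le_of_card_ge hBD (by rw [hB]; exact hDcard)).symm
  have hself : Subgroup.centralizer (B.map π : Set (X ⧸ Z)) = B.map π := by
    have h1 := Subgroup.map_comap_eq_self_of_surjective (QuotientGroup.mk'_surjective Z) (Subgroup.centralizer (B.map π : Set (X ⧸ Z)))
    rw [← h1]
    exact congrArg (Subgroup.map π) hDB
  have hcl := maxcl_aux (n - 1) (X ⧸ Z) hXc (B.map π) hBb hself
  rw [Group.nilpotencyClass_eq_quotient_center_plus_one, hcl]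
  omega

end Cfsg.Agent.H4
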