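import Mathlib
import Cfsg.Prelude.Def_LocalEven
set_option linter.all false
set_option autoImplicit false

namespace Cfsg.Agent.H4

theorem pmin_sym (n : ℕ) (hn : Odd n) (h : IsPMinimal 2 (Equiv.Perm (Fin n))) : ∃ m : ℕ, n = 2 ^ m + 1 := by
  classical
  haveI : Fact (Nat.Prime 2) := ⟨Nat.prime_two⟩
  obtain ⟨S⟩ : Nonempty (Sylow 2 (Equiv.Perm (Fin n))) := inferInstance
  obtain ⟨hnn, M, ⟨hM, hSM⟩, huniq⟩ := h S
  have hS2 : IsPGroup 2 (S : Subgroup (Equiv.Perm (Fin n))) := S.isPGroup'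
  have hnd : ¬ 2 ∣ Nat.card (Fin n) := by
    rw [Nat.card_fin]; exact fun h => (Nat.not_even_iff_odd.2 hn) (even_iff_two_dvd.2 h)
  obtain ⟨x, hx⟩ := hS2.nonempty_fixed_point_of_prime_not_dvd_card (Fin n) hnd
  have hxs : ∀ s ∈ (S : Subgroup (Equiv.Perm (Fin n))), s x = x := fun s hs => hx ⟨s, hs⟩
  obtain ⟨y, hy⟩ : ∃ y, y ≠ x := by
    by_contra hcon
    push Not at hcon
    apply hnn
    haveI : Subsingleton (Fin n) := ⟨fun a b => (hcon a).trans (hcon b).symm⟩
    constructor
    intro s hs g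
    have : g * s * g⁻¹ = s := Subsingleton.elim _ _
    rw [this]; exact hs
  obtain ⟨O, hO⟩ : ∃ O : Set (Fin n), O = MulAction.orbit (S : Subgroup (Equiv.Perm (Fin n))) y := ⟨_, rfl⟩
  obtain ⟨k, hk⟩ := hS2.card_orbit y
  have hxO : x ∉ O := by
    rw [hO]
    rintro ⟨s, hs⟩
    have hs' : (s : Equiv.Perm (Fin n)) y = x := hs
    have h1 := hxs s s.2
    exact hy ((s : Equiv.Perm (Fin n)).injective (hs'.trans h1.symm))
  have hyO : y ∈ O := by rw [hO]; exact MulAction.mem_orbit_self y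
  by_cases hz : ∀ z, z ≠ x → z ∈ O
  · refine ⟨k, ?_⟩
    have h1 : O = {x}ᶜ := by
      ext w
      constructor
      · intro hw e
        rw [Set.mem_singleton_iff] at e
        exact hxO (e ▸ hw)
      · intro hw; exact hz w hw
    rw [← hO, h1] at hk
    have h2 : Nat.card (({x}ᶜ : Set (Fin n))) = n - 1 := by
      rw [Nat.card_eq_fintype_card, Fintype.card_compl_set]; simp
    rw [h2] at hk
    have hpos : 0 < n := Fin.pos x
    omega
  exfalso
  push Not at hz
  obtain ⟨z, hzx, hzO⟩ := hz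
  let B : Subgroup (Equiv.Perm (Fin n)) :=
    { carrier := {g | ∀ w, w ∈ O ↔ g w ∈ O}
      one_mem' := fun w => Iff.rfl
      mul_mem' := by
        intro g k hg hk w
        exact (hk w).trans (hg (k w))
      inv_mem' := by
        intro g hg w
        have h1 := hg (g⁻¹ w)
        have h2 : g (g⁻¹ w) = w := g.apply_symm_apply w
        rw [h2] at h1
        exact h1.symm }
  have hle : ∀ C : Subgroup (Equiv.Perm (Fin n)), (S : Subgroup (Equiv.Perm (Fin n))) ≤ C → C ≠ ⊤ → C ≤ M := by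
    intro C hSC hC
    obtain ⟨M', hM', hCM'⟩ := (eq_top_or_exists_le_coatom C).resolve_left hC
    rw [← huniq M' ⟨hM', hSC.trans hCM'⟩]
    exact hCM'
  have hA : ∀ g : Equiv.Perm (Fin n), g x = x → g ∈ M := by
    intro g hg
    refine hle (MulAction.stabilizer (Equiv.Perm (Fin n)) x) (fun s hs => hxs s hs) ?_ hg
    intro e
    have h1 : Equiv.swap x y ∈ MulAction.stabilizer (Equiv.Perm (Fin n)) x := by rw [e]; trivial
    have h2 : (Equiv.swap x y) x = x := h1
    rw [Equiv.swap_apply_left] at h2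
    exact hy h2
  have hB : B ≤ M := by
    refine hle B (fun s hs => ?_) ?_
    · intro w
      have h1 : s w = (⟨s, hs⟩ : (S : Subgroup (Equiv.Perm (Fin n)))) • w := rfl
      rw [hO, ← MulAction.orbit_eq_iff, ← MulAction.orbit_eq_iff, h1, MulAction.orbit_smul]
    · intro e
      have h1 : Equiv.swap y z ∈ B := by rw [e]; trivial
      have h2 := (h1 y).1 hyO
      rw [Equiv.swap_apply_left] at h2
      exact hzO h2
  have hxz : Equiv.swap x z ∈ M := by
    apply hB
    intro w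
    by_cases h1 : w = x
    · rw [h1, Equiv.swap_apply_left]; exact ⟨fun h => absurd h hxO, fun h => absurd h hzO⟩
    · by_cases h2 : w = z
      · rw [h2, Equiv.swap_apply_right]; exact ⟨fun h => absurd h hzO, fun h => absurd h hxO⟩
      · rw [Equiv.swap_apply_of_ne_of_ne h1 h2]
  have hne : ∀ u v, u ≠ x → v ≠ x → Equiv.swap u v ∈ M := fun u v hu hv =>
    hA _ (Equiv.swap_apply_of_ne_of_ne (Ne.symm hu) (Ne.symm hv))
  have hxv : ∀ v, Equiv.swap v x ∈ M := by
    intro v
    by_cases hvx : v = x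
    · rw [hvx, Equiv.swap_self]; exact M.one_mem
    by_cases hvz : v = z
    · rw [hvz, Equiv.swap_comm]; exact hxz
    · have h1 := Equiv.swap_mul_swap_mul_swap (x := x) (y := z) (z := v) (Ne.symm hzx) (Ne.symm hvx)
      rw [← h1]
      exact M.mul_mem (M.mul_mem (hne z v hzx hvx) hxz) (hne z v hzx hvx)
  apply hM.1
  rw [eq_top_iff, ← Equiv.Perm.closure_isSwap, Subgroup.closure_le]
  rintro σ ⟨u, v, huv, rfl⟩
  by_cases hu : u = x
  · rw [hu, Equiv.swap_comm]; exact hxv v
  · by_cases hv : v = x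
    · rw [hv]; exact hxv u
    · exact hne u v hu hv

end Cfsg.Agent.H4
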