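import Cfsg.Agent.H5.V5
import Cfsg.Agent.H5.V4
import Cfsg.Agent.H5.Prin1
import Cfsg.Agent.H6.SolvCons
import Cfsg.Agent.H4.U4757

namespace Cfsg.Agent.H4
open scoped ComplexConjugate
universe u
variable {G : Type u} [Group G]

theorem principal_iff_ker [Finite G] [hs : Group.IsSolvable G] {p : ℕ} (hp : p.Prime) {M : Ideal AlgInt} (hM : IsPModular p M)
    (χ : IrrCharacter G) : χ ∈ principalBlock M G ↔ ∀ g ∈ pPrimeCore p G, (χ : G → ℂ) g = (χ : G → ℂ) 1 := by
  classical
  haveI : Fact p.Prime := ⟨hp⟩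
  haveI := Fintype.ofFinite G
  constructor
  · intro h g hg
    have := H5.principal_ker hM (N := pPrimeCore p G) (L0.not_dvd_card_pPrimeCore p G) h g hg 1
    simpa using this
  · intro h
    haveI := H5.isPrime_of_isPModular hM
    obtain ⟨θ, hθ⟩ := H5.irr_deflate (N := pPrimeCore p G) χ.2 h
    haveI : Fintype (G ⧸ pPrimeCore p G) := Fintype.ofFinite _
    have hsQ : Group.IsSolvable (G ⧸ pPrimeCore p G) :=
      Group.isSolvable_of_surjective (QuotientGroup.mk'_surjective (pPrimeCore p G))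
    have hc := H6.cons_of_solvable (p := p) (L0.pPrimeCore_quotient_pPrimeCore p G) hsQ
    have h1 := H5.one_block (p := p) hM (P := pCore p (G ⧸ pPrimeCore p G)) (L0.pCore_isPGroup p _) hc (trivIrr _) θ
    have h2 := H5.sameBlock_inflate h1
    rw [← hθ] at h2
    exact h2

theorem exists_irr_ne_triv (Q : Type u) [Group Q] [Finite Q] [Nontrivial Q] : ∃ χ : IrrCharacter Q, χ ≠ trivIrr Q := by
  classical
  by_contra hcon
  push Not at hcon
  have h1 := H5.sum_irr_sq (G := Q)
  rw [Finset.sum_eq_single (trivIrr Q)] at h1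
  · rw [trivIrr_apply, one_pow] at h1
    have h2 : Nat.card Q = 1 := by exact_mod_cast h1.symm
    exact absurd h2 (Finite.one_lt_card).ne'
  · intro b _ hb; exact absurd (hcon b) hb
  · intro h; exact absurd (Finset.mem_univ _) h

end Cfsg.Agent.H4
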