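import Mathlib
import Cfsg.Agent.H4.Cover
import Cfsg.Agent.H1.Prod
import Cfsg.Agent.L0.Coprime
set_option autoImplicit false
set_option linter.unusedVariables false
/-! Isaacs: subgroups generated by small classes. -/
open Subgroup Pointwise
open scoped commutatorElement
namespace Cfsg.Agent.H4
universe u

theorem small_central {G : Type u} [Group G] [Finite G] (A : Subgroup G) (hAn : A.Normal) (hA : ∀ a ∈ A, ∀ b ∈ A, a * b = b * a) (m : ℕ)
    (hmin : ∀ x : G, 1 < (centralizer ({x} : Set G)).index → m ≤ (centralizer ({x} : Set G)).index) (x : G)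
    (hx : (centralizer ({x} : Set G)).index = m) (a : G) (ha : a ∈ A) : x * a * x⁻¹ * a⁻¹ ∈ center G := by
  classical
  by_contra hu
  obtain ⟨u, hudef⟩ : ∃ u, u = x * a * x⁻¹ * a⁻¹ := ⟨_, rfl⟩
  rw [← hudef] at hu
  have hu1 : 1 < (centralizer ({u} : Set G)).index := by
    by_contra hcon
    have h0 : (centralizer ({u} : Set G)).index ≠ 0 := Subgroup.index_ne_zero_of_finite
    have h1 : (centralizer ({u} : Set G)).index = 1 := by omega
    rw [Subgroup.index_eq_one] at h1
    apply hu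
    rw [mem_center_iff]
    intro g
    have h2 : g ∈ centralizer ({u} : Set G) := by rw [h1]; trivial
    exact mem_centralizer_singleton_iff.mp h2
  have hmu := hmin u hu1
  -- the commutator homomorphism
  let τ : A →* G :=
    { toFun := fun b => x * b * x⁻¹ * (b : G)⁻¹
      map_one' := by simp
      map_mul' := by
        intro b c
        have h1 : x * (c : G) * x⁻¹ * (c : G)⁻¹ ∈ A := mul_mem (hAn.conj_mem _ c.2 x) (inv_mem c.2)
        have h2 := hA _ h1 _ (inv_mem b.2)
        have e : x * ((b * c : A) : G) * x⁻¹ * ((b * c : A) : G)⁻¹ = x * (b : G) * x⁻¹ * ((x * (c : G) * x⁻¹ * (c : G)⁻¹) * (b : G)⁻¹) := by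
          rw [Subgroup.coe_mul]; group
        rw [e, h2]
        group }
  have hτ : ∀ b : A, τ b = x * b * x⁻¹ * (b : G)⁻¹ := fun _ => rfl
  have hker : τ.ker = (centralizer ({x} : Set G)).subgroupOf A := by
    ext b
    rw [MonoidHom.mem_ker, Subgroup.mem_subgroupOf, mem_centralizer_singleton_iff, hτ, mul_inv_eq_one, mul_inv_eq_iff_eq_mul]
    exact eq_comm
  have hR : Nat.card τ.range = (centralizer ({x} : Set G)).relIndex A := by
    rw [Subgroup.relIndex, ← hker, Subgroup.index_ker]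
  have huR : u ∈ (τ.range : Set G) := ⟨⟨a, ha⟩, by rw [hτ, hudef]⟩
  have hRA : ∀ w ∈ τ.range, w ∈ A := by
    rintro w ⟨b, rfl⟩
    exact mul_mem (hAn.conj_mem _ b.2 x) (inv_mem b.2)
  -- D = A C(x)
  obtain ⟨D, hD⟩ : ∃ D : Subgroup G, D = A ⊔ centralizer ({x} : Set G) := ⟨_, rfl⟩
  have hDR : ∀ d ∈ D, ∀ w ∈ τ.range, d * w * d⁻¹ ∈ τ.range := by
    have h1 : D ≤ normalizer ((τ.range : Subgroup G) : Set G) := by
      rw [hD]
      apply sup_le
      · intro b hb
        apply Subgroup.mem_normalizer_fintype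
        intro w hw
        have := hA b hb w (hRA w hw)
        rw [this, mul_inv_cancel_right]; exact hw
      · intro c hc
        apply Subgroup.mem_normalizer_fintype
        rintro _ ⟨b, rfl⟩
        refine ⟨⟨c * b * c⁻¹, hAn.conj_mem _ b.2 c⟩, ?_⟩
        rw [hτ, hτ]
        rw [mem_centralizer_singleton_iff] at hc
        have e1 : x * c = c * x := hc.symm
        have e2 : c⁻¹ * x⁻¹ = x⁻¹ * c⁻¹ := by rw [← mul_inv_rev, ← mul_inv_rev, e1]
        show x * (c * (b : G) * c⁻¹) * x⁻¹ * (c * (b : G) * c⁻¹)⁻¹ = c * (x * b * x⁻¹ * (b : G)⁻¹) * c⁻¹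
        calc x * (c * (b : G) * c⁻¹) * x⁻¹ * (c * (b : G) * c⁻¹)⁻¹ = (x * c) * b * (c⁻¹ * x⁻¹) * c * (b : G)⁻¹ * c⁻¹ := by group
          _ = (c * x) * b * (x⁻¹ * c⁻¹) * c * (b : G)⁻¹ * c⁻¹ := by rw [e1, e2]
          _ = c * (x * b * x⁻¹ * (b : G)⁻¹) * c⁻¹ := by group
    intro d hd w hw
    exact (mem_normalizer_iff.mp (h1 hd) w).mp hw
  letI act : MulAction D G := MulAction.compHom G ((MulAut.conj : G →* MulAut G).comp D.subtype)
  have hact : ∀ (d : D) (w : G), d • w = (d : G) * w * (d : G)⁻¹ := fun _ _ => rfl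
  have hst : MulAction.stabilizer D u = (centralizer ({u} : Set G)).subgroupOf D := by
    ext d
    rw [MulAction.mem_stabilizer_iff, Subgroup.mem_subgroupOf, mem_centralizer_singleton_iff, hact, mul_inv_eq_iff_eq_mul]
  have horb := MulAction.index_stabilizer D u
  rw [hst] at horb
  have hsub : MulAction.orbit D u ⊆ (τ.range : Set G) \ {1} := by
    rintro _ ⟨d, rfl⟩
    refine ⟨?_, ?_⟩
    · show d • u ∈ _
      rw [hact]; exact hDR d d.2 u huR
    · intro h1
      have h2 : (d : G) * u * (d : G)⁻¹ = 1 := h1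
      rw [mul_inv_eq_iff_eq_mul, one_mul, mul_eq_left] at h2
      rw [h2] at hu
      exact hu (one_mem _)
  have hlt : (centralizer ({u} : Set G)).relIndex D < (centralizer ({x} : Set G)).relIndex A := by
    have h1 : (centralizer ({u} : Set G)).relIndex D = (MulAction.orbit D u).ncard := horb
    rw [h1, ← hR]
    calc (MulAction.orbit D u).ncard ≤ ((τ.range : Set G) \ {1}).ncard := Set.ncard_le_ncard hsub (Set.toFinite _)
      _ < (τ.range : Set G).ncard := Set.ncard_lt_ncard (by
          rw [Set.ssubset_iff_subset_ne]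
          refine ⟨Set.diff_subset, fun h2 => ?_⟩
          have h3 : (1 : G) ∈ (τ.range : Set G) \ {1} := by rw [h2]; exact one_mem _
          exact h3.2 rfl) (Set.toFinite _)
      _ = Nat.card τ.range := rfl
  -- cardinalities
  have hDcard : Nat.card D = (centralizer ({x} : Set G)).relIndex A * Nat.card (centralizer ({x} : Set G)) := by
    have h1 := L0.relIndex_sup_of_normalizes (M := A) (A := centralizer ({x} : Set G)) (by
      haveI := hAn
      rw [Subgroup.normalizer_eq_top]; exact le_top)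
    have h2 : Nat.card A * A.relIndex (A ⊔ centralizer ({x} : Set G)) = Nat.card ↥(A ⊔ centralizer ({x} : Set G)) := by
      have := Subgroup.relIndex_mul_relIndex ⊥ A (A ⊔ centralizer ({x} : Set G)) bot_le le_sup_left
      rwa [Subgroup.relIndex_bot_left, Subgroup.relIndex_bot_left] at this
    have h3 : Nat.card ↥(A ⊓ centralizer ({x} : Set G)) * A.relIndex (centralizer ({x} : Set G)) = Nat.card (centralizer ({x} : Set G)) := by
      have := Subgroup.relIndex_mul_relIndex ⊥ (A ⊓ centralizer ({x} : Set G)) (centralizer ({x} : Set G)) bot_le inf_le_right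
      rwa [Subgroup.relIndex_bot_left, Subgroup.relIndex_bot_left, Subgroup.inf_relIndex_right] at this
    have h4 : Nat.card ↥(A ⊓ centralizer ({x} : Set G)) * (centralizer ({x} : Set G)).relIndex A = Nat.card A := by
      have := Subgroup.relIndex_mul_relIndex ⊥ (A ⊓ centralizer ({x} : Set G)) A bot_le inf_le_left
      rwa [Subgroup.relIndex_bot_left, Subgroup.relIndex_bot_left, Subgroup.inf_relIndex_left] at this
    rw [hD, ← h2, h1, ← h4, ← h3]
    ring
  have hDcard2 : Nat.card ↥((centralizer ({u} : Set G)) ⊓ D) * (centralizer ({u} : Set G)).relIndex D = Nat.card D := by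
    have := Subgroup.relIndex_mul_relIndex ⊥ ((centralizer ({u} : Set G)) ⊓ D) D bot_le inf_le_right
    rwa [Subgroup.relIndex_bot_left, Subgroup.relIndex_bot_left, Subgroup.inf_relIndex_right] at this
  have hle : Nat.card ↥((centralizer ({u} : Set G)) ⊓ D) ≤ Nat.card (centralizer ({u} : Set G)) := Subgroup.card_le_of_le inf_le_left
  have hG1 := (centralizer ({u} : Set G)).card_mul_index
  have hG2 := (centralizer ({x} : Set G)).card_mul_index
  rw [hx] at hG2
  have hCx : 0 < Nat.card (centralizer ({x} : Set G)) := Nat.card_pos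
  have hCu : 0 < Nat.card (centralizer ({u} : Set G)) := Nat.card_pos
  have hm0 : 0 < m := by rw [← hx]; exact Nat.pos_of_ne_zero Subgroup.index_ne_zero_of_finite
  -- |C(x)| < |C(u)|
  have hlt2 : Nat.card (centralizer ({x} : Set G)) < Nat.card (centralizer ({u} : Set G)) := by
    by_contra hcon
    push Not at hcon
    have h1 : Nat.card D ≤ Nat.card (centralizer ({x} : Set G)) * (centralizer ({u} : Set G)).relIndex D := by
      rw [← hDcard2]; exact Nat.mul_le_mul_right _ (hle.trans hcon)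
    rw [hDcard, mul_comm] at h1
    have h2 := Nat.le_of_mul_le_mul_left h1 hCx
    omega
  have h5 : Nat.card (centralizer ({x} : Set G)) * m < Nat.card (centralizer ({u} : Set G)) * (centralizer ({u} : Set G)).index :=
    Nat.mul_lt_mul_of_lt_of_le hlt2 hmu (lt_of_lt_of_le hm0 hmu)
  rw [hG1, hG2] at h5
  exact lt_irrefl _ h5

theorem small_class {G : Type u} [Group G] [Finite G] (A : Subgroup G) [hAn : A.Normal] (hA : IsMulCommutative A)
    (hCA : centralizer (A : Set G) = A) (m : ℕ)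
    (hmin : ∀ x : G, 1 < (centralizer ({x} : Set G)).index → m ≤ (centralizer ({x} : Set G)).index) :
    Subgroup.upperCentralSeries ↥(Subgroup.closure {x : G | (centralizer ({x} : Set G)).index = 1 ∨ (centralizer ({x} : Set G)).index = m}) 3 = ⊤ := by
  classical
  have hAc : ∀ a ∈ A, ∀ b ∈ A, a * b = b * a := fun a ha b hb => congrArg (fun t : A => (t : G)) (hA.is_comm.comm ⟨a, ha⟩ ⟨b, hb⟩)
  have hgen : ∀ g ∈ Subgroup.closure {x : G | (centralizer ({x} : Set G)).index = 1 ∨ (centralizer ({x} : Set G)).index = m},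
      ∀ a ∈ A, g * a * g⁻¹ * a⁻¹ ∈ center G := by
    intro g hg
    induction hg using Subgroup.closure_induction with
    | mem x hx =>
      rcases hx with hx | hx
      · intro a ha
        rw [Subgroup.index_eq_one] at hx
        have h2 : a ∈ centralizer ({x} : Set G) := by rw [hx]; trivial
        rw [mem_centralizer_singleton_iff] at h2
        rw [← h2]; simp
      · intro a ha
        exact small_central A hAn hAc m hmin x hx a ha
    | one => intro a ha; simp
    | mul g h _ _ hg hh =>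
      intro a ha
      have h1 := hg a ha
      have h2 := hh a ha
      have e : g * h * a * (g * h)⁻¹ * a⁻¹ = (h * a * h⁻¹ * a⁻¹) * (g * a * g⁻¹ * a⁻¹) := by
        calc g * h * a * (g * h)⁻¹ * a⁻¹ = (g * (h * a * h⁻¹ * a⁻¹)) * a * g⁻¹ * a⁻¹ := by group
          _ = ((h * a * h⁻¹ * a⁻¹) * g) * a * g⁻¹ * a⁻¹ := by rw [mem_center_iff.mp h2 g]
          _ = _ := by group
      rw [e]; exact mul_mem h2 h1
    | inv g _ hg =>
      intro a ha
      have h1 := hg (g⁻¹ * a * g) (by simpa using hAn.conj_mem a ha g⁻¹)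
      have e : g * (g⁻¹ * a * g) * g⁻¹ * (g⁻¹ * a * g)⁻¹ = (g⁻¹ * a * (g⁻¹)⁻¹ * a⁻¹)⁻¹ := by group
      rw [e] at h1
      exact inv_mem_iff.mp h1
  have hMA : ∀ g ∈ Subgroup.closure {x : G | (centralizer ({x} : Set G)).index = 1 ∨ (centralizer ({x} : Set G)).index = m},
      ∀ h ∈ Subgroup.closure {x : G | (centralizer ({x} : Set G)).index = 1 ∨ (centralizer ({x} : Set G)).index = m}, g * h * g⁻¹ * h⁻¹ ∈ A := by
    intro g hg h hh
    rw [← hCA, mem_centralizer_iff]
    intro a ha
    have h1 := hgen g hg a ha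
    have h2 := hgen h hh a ha
    obtain ⟨zg, hzg⟩ : ∃ z, z = g * a * g⁻¹ * a⁻¹ := ⟨_, rfl⟩
    obtain ⟨zh, hzh⟩ : ∃ z, z = h * a * h⁻¹ * a⁻¹ := ⟨_, rfl⟩
    rw [← hzg] at h1
    rw [← hzh] at h2
    have e1 : g * a = zg * a * g := by rw [hzg]; group
    have e2 : h * a = zh * a * h := by rw [hzh]; group
    have c1 := fun w => mem_center_iff.mp h1 w
    have c2 := fun w => mem_center_iff.mp h2 w
    have e3 : g * h * a = zh * zg * a * (g * h) := by
      calc g * h * a = g * (h * a) := by group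
        _ = g * zh * a * h := by rw [e2]; group
        _ = zh * (g * a) * h := by rw [c2]; group
        _ = zh * zg * a * (g * h) := by rw [e1]; group
    have e4 : h * g * a = zh * zg * a * (h * g) := by
      calc h * g * a = h * (g * a) := by group
        _ = h * zg * a * g := by rw [e1]; group
        _ = zg * (h * a) * g := by rw [c1]; group
        _ = (zg * zh) * a * (h * g) := by rw [e2]; group
        _ = zh * zg * a * (h * g) := by rw [c2]
    have e5 : a⁻¹ * (g * h) * a = (g * h) * ((h * g)⁻¹ * (a⁻¹ * (h * g) * a)) := by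
      have s1 : (g * h) = zh * zg * a * (g * h) * a⁻¹ := by rw [← e3]; group
      have s2 : (h * g) = zh * zg * a * (h * g) * a⁻¹ := by rw [← e4]; group
      have s3 : a⁻¹ * (g * h) * a = (zh * zg)⁻¹ * (a⁻¹ * (g * h * a)) * 1 * (zh * zg) := by
        rw [mul_one]
        have := mem_center_iff.mp (mul_mem h2 h1) (a⁻¹ * (g * h) * a)
        calc a⁻¹ * (g * h) * a = (zh * zg)⁻¹ * ((zh * zg) * (a⁻¹ * (g * h) * a)) := by group
          _ = (zh * zg)⁻¹ * ((a⁻¹ * (g * h) * a) * (zh * zg)) := by rw [this]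
          _ = _ := by group
      have t1 : a⁻¹ * (g * h) * a = (zh * zg) * (g * h) := by
        have := mem_center_iff.mp (mul_mem h2 h1) a⁻¹
        calc a⁻¹ * (g * h) * a = a⁻¹ * (g * h * a) := by group
          _ = a⁻¹ * (zh * zg) * a * (g * h) := by rw [e3]; group
          _ = (zh * zg) * (g * h) := by rw [this]; group
      have t2 : a⁻¹ * (h * g) * a = (zh * zg) * (h * g) := by
        have := mem_center_iff.mp (mul_mem h2 h1) a⁻¹
        calc a⁻¹ * (h * g) * a = a⁻¹ * (h * g * a) := by group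
          _ = a⁻¹ * (zh * zg) * a * (h * g) := by rw [e4]; group
          _ = (zh * zg) * (h * g) := by rw [this]; group
      rw [t1, t2]
      have := mem_center_iff.mp (mul_mem h2 h1) (h * g)
      rw [← this]
      have := mem_center_iff.mp (mul_mem h2 h1) (g * h)
      rw [← this]
      group
    have t1 : a⁻¹ * (g * h) * a = (zh * zg) * (g * h) := by
      have := mem_center_iff.mp (mul_mem h2 h1) a⁻¹
      calc a⁻¹ * (g * h) * a = a⁻¹ * (g * h * a) := by group
        _ = a⁻¹ * (zh * zg) * a * (g * h) := by rw [e3]; group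
        _ = (zh * zg) * (g * h) := by rw [this]; group
    have t2 : a⁻¹ * (h * g) * a = (zh * zg) * (h * g) := by
      have := mem_center_iff.mp (mul_mem h2 h1) a⁻¹
      calc a⁻¹ * (h * g) * a = a⁻¹ * (h * g * a) := by group
        _ = a⁻¹ * (zh * zg) * a * (h * g) := by rw [e4]; group
        _ = (zh * zg) * (h * g) := by rw [this]; group
    have t3 : a⁻¹ * (g * h * g⁻¹ * h⁻¹) * a = g * h * g⁻¹ * h⁻¹ := by
      calc a⁻¹ * (g * h * g⁻¹ * h⁻¹) * a = (a⁻¹ * (g * h) * a) * (a⁻¹ * (h * g) * a)⁻¹ := by group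
        _ = (zh * zg) * (g * h) * ((zh * zg) * (h * g))⁻¹ := by rw [t1, t2]
        _ = (zh * zg) * ((g * h) * (h * g)⁻¹) * (zh * zg)⁻¹ := by group
        _ = ((g * h) * (h * g)⁻¹) * (zh * zg) * (zh * zg)⁻¹ := by rw [mem_center_iff.mp (mul_mem h2 h1)]
        _ = g * h * g⁻¹ * h⁻¹ := by group
    calc a * (g * h * g⁻¹ * h⁻¹) = a * (a⁻¹ * (g * h * g⁻¹ * h⁻¹) * a) := by rw [t3]
      _ = g * h * g⁻¹ * h⁻¹ * a := by group
  rw [eq_top_iff]
  intro x _
  rw [_root_.mem_upperCentralSeries_succ_iff]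
  intro y
  rw [_root_.mem_upperCentralSeries_succ_iff]
  intro z
  rw [_root_.mem_upperCentralSeries_succ_iff]
  intro w
  rw [Subgroup.upperCentralSeries_zero, Subgroup.mem_bot]
  apply Subtype.ext
  have h1 := hMA x x.2 y y.2
  have h2 := hgen z z.2 _ h1
  have h3 : (z : G) * (x * y * (x : G)⁻¹ * (y : G)⁻¹) * (z : G)⁻¹ * (x * y * (x : G)⁻¹ * (y : G)⁻¹)⁻¹ =
      ((x * y * (x : G)⁻¹ * (y : G)⁻¹) * z * (x * y * (x : G)⁻¹ * (y : G)⁻¹)⁻¹ * (z : G)⁻¹)⁻¹ := by group
  rw [h3, inv_mem_iff] at h2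
  have h4 := mem_center_iff.mp h2 (w : G)
  have h5 : ((⁅⁅⁅x, y⁆, z⁆, w⁆ : ↥(Subgroup.closure {x : G | (centralizer ({x} : Set G)).index = 1 ∨ (centralizer ({x} : Set G)).index = m})) : G) =
    ((x * y * (x : G)⁻¹ * (y : G)⁻¹) * z * (x * y * (x : G)⁻¹ * (y : G)⁻¹)⁻¹ * (z : G)⁻¹) * w *
      ((x * y * (x : G)⁻¹ * (y : G)⁻¹) * z * (x * y * (x : G)⁻¹ * (y : G)⁻¹)⁻¹ * (z : G)⁻¹)⁻¹ * (w : G)⁻¹ := by
    simp only [commutatorElement_def, Subgroup.coe_mul, Subgroup.coe_inv]
  rw [h5, ← h4, mul_inv_cancel_right, mul_inv_cancel]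
  rfl

end Cfsg.Agent.H4
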