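import Cfsg.Agent.L0.Core
import Cfsg.Agent.L0.Coprime
import Cfsg.Agent.H1.Basic
import Cfsg.Agent.H1.PQuot
import Cfsg.Agent.H1.Hall
import Cfsg.Agent.H1.Subn

namespace Cfsg.Agent.H4
universe u
open Subgroup
open scoped Pointwise
variable {H : Type u} [Group H] [Finite H]

def TIS {p : ℕ} (P : Sylow p H) : Prop :=
  ∀ g : H, g ∉ Subgroup.normalizer ((P : Subgroup H) : Set H) → (P : Subgroup H) ⊓ (MulAut.conj g • (P : Subgroup H)) = ⊥

omit [Finite H] in
theorem TIS.comm {p : ℕ} {P : Sylow p H} (h : TIS P) {x a : H} (hx : x ∈ (P : Subgroup H)) (hx1 : x ≠ 1) (hc : a * x = x * a) :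
    a ∈ normalizer ((P : Subgroup H) : Set H) := by
  by_contra hn
  have h1 := h a hn
  have h2 : x ∈ (P : Subgroup H) ⊓ (MulAut.conj a • (P : Subgroup H)) := by
    refine ⟨hx, ?_⟩
    show x ∈ MulAut.conj a • (P : Subgroup H)
    rw [Subgroup.mem_pointwise_smul_iff_inv_smul_mem]
    have : (MulAut.conj a)⁻¹ • x = x := by
      rw [MulAut.smul_def, ← map_inv, MulAut.conj_apply]
      rw [inv_inv, mul_assoc, ← hc]; group
    rw [this]; exact hx
  rw [h1, mem_bot] at h2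
  exact hx1 h2

theorem exists_mem_inf {p : ℕ} [hp : Fact p.Prime] (P : Sylow p H) (N : Subgroup H) [hN : N.Normal] (A : Subgroup N) [hA : A.Normal]
    (hpA : p ∣ Nat.card A) : ∃ a ∈ A, (a : H) ∈ (P : Subgroup H) ∧ (a : H) ≠ 1 := by
  obtain ⟨m, hm⟩ := exists_prime_orderOf_dvd_card' p hpA
  have hm' : orderOf ((m : N) : H) = p := by rw [orderOf_coe, orderOf_coe, hm]
  obtain ⟨S, hS⟩ := H1.isSylowIn_inf_normal P N
  obtain ⟨R, hR⟩ := (IsPGroup.of_card (p := p) (n := 1) (by rw [Nat.card_zpowers, orderOf_coe, hm, pow_one]) :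
    IsPGroup p (zpowers (m : N))).exists_le_sylow
  obtain ⟨n, hn⟩ := MulAction.exists_smul_eq N R S
  have h5 : n * m * n⁻¹ ∈ (S : Subgroup N) := by
    rw [← hn]
    exact ⟨m, hR (mem_zpowers _), by simp [MulAut.conj_apply]⟩
  have h5' : ((n * m * n⁻¹ : N) : H) ∈ (P : Subgroup H) ⊓ N := by
    rw [← hS]; exact ⟨_, h5, rfl⟩
  refine ⟨n * m * n⁻¹, hA.conj_mem _ m.2 n, h5'.1, ?_⟩
  intro h6
  have h7 : n * (m : N) * n⁻¹ = 1 := Subtype.ext h6
  have h8 : (m : N) = 1 := by simpa using h7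
  rw [h8, coe_one, orderOf_one] at hm'
  exact hp.out.one_lt.ne hm'

theorem core_ne_bot {p : ℕ} [hp : Fact p.Prime] (P : Sylow p H) (N : Subgroup H) [hN : N.Normal] (A : Subgroup N) [hA : A.Normal]
    (hpA : p ∣ Nat.card A) (hAP : ∀ a ∈ A, (a : H) ∈ normalizer ((P : Subgroup H) : Set H)) : pCore p H ≠ ⊥ := by
  obtain ⟨a, haA, haP, ha1⟩ := exists_mem_inf P N A hpA
  let T : Subgroup A := (P : Subgroup H).comap (N.subtype.comp A.subtype)
  haveI hTn : T.Normal := by
    constructor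
    intro t ht b
    exact (mem_normalizer_iff.1 (hAP b b.2) ((t : N) : H)).1 ht
  have hTp : IsPGroup p T := P.isPGroup'.comap_of_injective (N.subtype.comp A.subtype)
    (N.subtype_injective.comp A.subtype_injective)
  have h1 : T ≤ pCore p A := L0.le_pCore hTp
  have h2 := L0.pCore_subgroup_le p A
  have h3 := L0.pCore_subgroup_le p N
  intro h4
  have h5 : (⟨a, haA⟩ : A) ∈ T := haP
  have h6 : a ∈ pCore p N := h2 ⟨_, h1 h5, rfl⟩
  have h7 : (a : H) ∈ pCore p H := h3 ⟨_, h6, rfl⟩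
  rw [h4, mem_bot] at h7
  exact ha1 h7

theorem dvd_card_of {p : ℕ} [hp : Fact p.Prime] (hO : pPrimeCore p H = ⊥) (N : Subgroup H) [hN : N.Normal] (A : Subgroup N) [hA : A.Normal]
    (hA1 : A ≠ ⊥) : p ∣ Nat.card A := by
  by_contra h
  have h1 : A ≤ pPrimeCore p N := L0.le_pPrimeCore (((Nat.Prime.coprime_iff_not_dvd hp.out).2 h).symm)
  have h2 := L0.pPrimeCore_subgroup_le p N
  rw [hO] at h2
  apply hA1
  rw [eq_bot_iff]
  intro a ha
  have h3 : (a : H) ∈ (⊥ : Subgroup H) := h2 ⟨a, h1 ha, rfl⟩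
  rw [mem_bot] at h3 ⊢
  exact Subtype.ext h3

theorem subgroupOf_top_conv {p : ℕ} [hp : Fact p.Prime] (P : Sylow p H) (A : Subgroup H) [hA : A.Normal] (hpA : p ∣ Nat.card A)
    (hAP : A ≤ normalizer ((P : Subgroup H) : Set H)) : pCore p H ≠ ⊥ := by
  refine core_ne_bot P A ⊤ (by rwa [card_top]) (fun a _ => hAP a.2)


theorem ti_simple {p : ℕ} [hp : Fact p.Prime] (hOp : pCore p H = ⊥) (hOp' : pPrimeCore p H = ⊥) (P : Sylow p H)
    (hTI : TIS P) (N : Subgroup H) [hN : N.Normal] (hN1 : N ≠ ⊥)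
    (hmin : ∀ L : Subgroup H, L.Normal → L ≤ N → L = ⊥ ∨ L = N) : IsSimpleGroup N := by
  haveI : Nontrivial N := (nontrivial_iff_ne_bot N).2 hN1
  obtain ⟨M, hMn, hM1, hMmin⟩ := H1.exists_minimal_normal (G := N)
  have hMtop : M = ⊤ := by
    by_contra hMt
    -- some conjugate differs
    obtain ⟨g, hg⟩ : ∃ g : H, M.map (MulAut.conjNormal g : MulAut N).toMonoidHom ≠ M := by
      by_contra hcon
      push Not at hcon
      have hn : (M.map N.subtype).Normal := by
        constructor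
        rintro _ ⟨m, hm, rfl⟩ g
        have h1 : (MulAut.conjNormal g : MulAut N) m ∈ M.map (MulAut.conjNormal g : MulAut N).toMonoidHom := ⟨m, hm, rfl⟩
        rw [hcon g] at h1
        exact ⟨_, h1, MulAut.conjNormal_apply g m⟩
      rcases hmin _ hn (map_subtype_le _) with h | h
      · exact hM1 ((map_eq_bot_iff_of_injective _ N.subtype_injective).1 h)
      · apply hMt
        rw [eq_top_iff]
        intro n _
        have : (n : H) ∈ M.map N.subtype := by rw [h]; exact n.2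
        obtain ⟨m, hm, hmn⟩ := this
        rwa [← Subtype.ext hmn]
    set M1 := M.map (MulAut.conjNormal g : MulAut N).toMonoidHom with hM1def
    haveI hM1n : M1.Normal := hMn.map _ (MulAut.conjNormal g : MulAut N).surjective
    have hM1b : M1 ≠ ⊥ := by
      intro h
      exact hM1 ((map_eq_bot_iff_of_injective _ (MulAut.conjNormal g : MulAut N).injective).1 h)
    have hinf : M ⊓ M1 = ⊥ := by
      rcases hMmin (M ⊓ M1) inferInstance inf_le_left with h | h
      · exact h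
      · exfalso
        have h1 : M ≤ M1 := inf_eq_left.1 h
        rcases H1.minimal_map_equiv (MulAut.conjNormal g : MulAut N) hMmin M hMn h1 with h2 | h2
        · exact hM1 h2
        · exact hg h2.symm
    have hcomm : ∀ a ∈ M, ∀ b ∈ M1, a * b = b * a := fun a ha b hb =>
      (Subgroup.commute_of_normal_of_disjoint M M1 hMn hM1n (disjoint_iff.2 hinf) a b ha hb).eq
    obtain ⟨x, hxM, hxP, hx1⟩ := exists_mem_inf P N M1 (dvd_card_of hOp' N M1 hM1b)
    refine core_ne_bot P N M (dvd_card_of hOp' N M hM1) (fun a ha => ?_) hOp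
    exact hTI.comm hxP hx1 (congrArg Subtype.val (hcomm a ha x hxM))
  refine { eq_bot_or_eq_top_of_normal := fun L hL => ?_ }
  rcases hMmin L hL (by rw [hMtop]; exact le_top) with h | h
  · exact Or.inl h
  · exact Or.inr (h.trans hMtop)

theorem TIS.cent {p : ℕ} [hp : Fact p.Prime] (hOp : pCore p H = ⊥) (hOp' : pPrimeCore p H = ⊥) {P : Sylow p H}
    (hTI : TIS P) (N : Subgroup H) [hN : N.Normal] (hN1 : N ≠ ⊥) : centralizer (N : Set H) = ⊥ := by
  by_contra hC
  have hNt : (⊤ : Subgroup N) ≠ ⊥ := by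
    haveI : Nontrivial N := (nontrivial_iff_ne_bot N).2 hN1
    exact top_ne_bot
  have hCt : (⊤ : Subgroup (centralizer (N : Set H))) ≠ ⊥ := by
    haveI : Nontrivial (centralizer (N : Set H)) := (nontrivial_iff_ne_bot _).2 hC
    exact top_ne_bot
  obtain ⟨x, -, hxP, hx1⟩ := exists_mem_inf P N ⊤ (dvd_card_of hOp' N ⊤ hNt)
  refine core_ne_bot P (centralizer (N : Set H)) ⊤ (dvd_card_of hOp' _ ⊤ hCt) (fun a _ => ?_) hOp
  exact hTI.comm hxP hx1 ((mem_centralizer_iff.1 a.2 x x.2).symm)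

theorem TIS.conj {p : ℕ} [hp : Fact p.Prime] {P : Sylow p H} (hTI : TIS P) (R : Sylow p H) : TIS R := by
  obtain ⟨g, hg⟩ := MulAction.exists_smul_eq H P R
  intro y hy
  by_contra hne
  obtain ⟨⟨x, hxR, hxy⟩, hx1⟩ := (Subgroup.ne_bot_iff_exists_ne_one).1 hne
  have hx1' : x ≠ 1 := fun h => hx1 (Subtype.ext h)
  have hmem : ∀ z : H, z ∈ (R : Subgroup H) ↔ g⁻¹ * z * g ∈ (P : Subgroup H) := by
    intro z
    rw [← hg]
    show z ∈ MulAut.conj g • (P : Subgroup H) ↔ _
    rw [Subgroup.mem_pointwise_smul_iff_inv_smul_mem, MulAut.smul_def, ← map_inv, MulAut.conj_apply, inv_inv]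
  have hxy' : y⁻¹ * x * y ∈ (R : Subgroup H) := by
    have : x ∈ MulAut.conj y • (R : Subgroup H) := hxy
    rw [Subgroup.mem_pointwise_smul_iff_inv_smul_mem, MulAut.smul_def, ← map_inv, MulAut.conj_apply, inv_inv] at this
    exact this
  -- transport to `P` with `u = g⁻¹ y g`
  have hu : g⁻¹ * y * g ∈ normalizer ((P : Subgroup H) : Set H) := by
    by_contra hn
    have h1 := hTI _ hn
    have h2 : g⁻¹ * x * g ∈ (P : Subgroup H) ⊓ (MulAut.conj (g⁻¹ * y * g) • (P : Subgroup H)) := by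
      refine ⟨(hmem x).1 hxR, ?_⟩
      show _ ∈ MulAut.conj (g⁻¹ * y * g) • (P : Subgroup H)
      rw [Subgroup.mem_pointwise_smul_iff_inv_smul_mem, MulAut.smul_def, ← map_inv, MulAut.conj_apply, inv_inv]
      have h3 := (hmem _).1 hxy'
      have : (g⁻¹ * y * g)⁻¹ * (g⁻¹ * x * g) * (g⁻¹ * y * g) = g⁻¹ * (y⁻¹ * x * y) * g := by group
      rw [this]; exact h3
    rw [h1, mem_bot] at h2
    apply hx1'
    have := congrArg (fun t => g * t * g⁻¹) h2
    simpa [mul_assoc] using this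
  apply hy
  rw [mem_normalizer_iff]
  intro z
  show z ∈ (R : Subgroup H) ↔ y * z * y⁻¹ ∈ (R : Subgroup H)
  rw [hmem, hmem, (mem_normalizer_iff.1 hu (g⁻¹ * z * g))]
  have : g⁻¹ * y * g * (g⁻¹ * z * g) * (g⁻¹ * y * g)⁻¹ = g⁻¹ * (y * z * y⁻¹) * g := by group
  rw [this]

theorem TIS.sub {p : ℕ} [hp : Fact p.Prime] {P : Sylow p H} (hTI : TIS P) (N : Subgroup H) (Q : Sylow p N) : TIS Q := by
  obtain ⟨R, hR⟩ := (Q.isPGroup'.map N.subtype).exists_le_sylow
  have hRT := hTI.conj R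
  -- `Q` is the preimage of `R`
  have hQR : ∀ z : N, z ∈ (Q : Subgroup N) ↔ (z : H) ∈ (R : Subgroup H) := by
    intro z
    constructor
    · intro hz; exact hR ⟨z, hz, rfl⟩
    · intro hz
      have h1 : (Q : Subgroup N) ≤ (R : Subgroup H).comap N.subtype := fun w hw => hR ⟨w, hw, rfl⟩
      have h2 := Q.is_maximal' (R.isPGroup'.comap_of_injective N.subtype N.subtype_injective) h1
      rw [← h2]; exact hz
  intro n hn
  by_contra hne
  obtain ⟨⟨x, hxQ, hxn⟩, hx1⟩ := (Subgroup.ne_bot_iff_exists_ne_one).1 hne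
  have hxn' : n⁻¹ * x * n ∈ (Q : Subgroup N) := by
    have : x ∈ MulAut.conj n • (Q : Subgroup N) := hxn
    rw [Subgroup.mem_pointwise_smul_iff_inv_smul_mem, MulAut.smul_def, ← map_inv, MulAut.conj_apply, inv_inv] at this
    exact this
  have hnR : (n : H) ∈ normalizer ((R : Subgroup H) : Set H) := by
    by_contra hc
    have h1 := hRT _ hc
    have h2 : (x : H) ∈ (R : Subgroup H) ⊓ (MulAut.conj (n : H) • (R : Subgroup H)) := by
      refine ⟨(hQR x).1 hxQ, ?_⟩
      show _ ∈ MulAut.conj (n : H) • (R : Subgroup H)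
      rw [Subgroup.mem_pointwise_smul_iff_inv_smul_mem, MulAut.smul_def, ← map_inv, MulAut.conj_apply, inv_inv]
      exact (hQR _).1 hxn'
    rw [h1, mem_bot] at h2
    exact hx1 (Subtype.ext (Subtype.ext h2))
  apply hn
  rw [mem_normalizer_iff]
  intro z
  show z ∈ (Q : Subgroup N) ↔ n * z * n⁻¹ ∈ (Q : Subgroup N)
  rw [hQR, hQR]
  exact mem_normalizer_iff.1 hnR z

end Cfsg.Agent.H4
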