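import Cfsg.Agent.H5.Char3

namespace Cfsg.Agent.H4
universe u
variable {G : Type u} [Group G]

theorem inv_conj_of_odd {u v : G} (hu : u * u = 1) (hv : v * v = 1) {m : ℕ} (hm : (u * v) ^ (2 * m + 1) = 1) : IsConj u v := by
  have hui : u⁻¹ = u := inv_eq_of_mul_eq_one_left hu
  have hvi : v⁻¹ = v := inv_eq_of_mul_eq_one_left hv
  have hinv : u * (u * v) * u⁻¹ = (u * v)⁻¹ := by
    rw [mul_inv_rev, hvi, hui, ← mul_assoc, hu, one_mul]
  have h1 : ∀ k : ℕ, u * (u * v) ^ k * u⁻¹ = ((u * v) ^ k)⁻¹ := by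
    intro k
    rw [← conj_pow, hinv, inv_pow]
  have h2 : (u * v) ^ m * u * ((u * v) ^ m)⁻¹ = u * ((u * v)⁻¹) ^ (2 * m) := by
    have h3 := h1 m
    have h4 : ((u * v) ^ m) * u = u * ((u * v) ^ m)⁻¹ := by
      rw [← h3, hui, ← mul_assoc, ← mul_assoc, hu, one_mul]
    rw [h4, mul_assoc, ← inv_pow, ← pow_add]
    congr 2; ring
  have h5 : ((u * v)⁻¹) ^ (2 * m) = u * v := by
    rw [inv_pow, inv_eq_iff_mul_eq_one, ← pow_succ]; exact hm
  rw [h5] at h2
  rw [isConj_iff]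
  refine ⟨(u * v) ^ m, ?_⟩
  rw [h2, ← mul_assoc, hu, one_mul]

theorem unique_inv_zpowers [Finite G] (w : G) (he : Even (orderOf w)) (t : G) (ht : orderOf t = 2) :
    t ∈ Subgroup.zpowers w ↔ t = w ^ (orderOf w / 2) := by
  have hpos : 0 < orderOf w := orderOf_pos w
  obtain ⟨m, hm⟩ := he
  have hm2 : orderOf w / 2 = m := by omega
  constructor
  · intro h
    obtain ⟨k, hk⟩ := (mem_powers_iff_mem_zpowers.mpr h)
    simp only at hk
    have h1 : w ^ (k * 2) = 1 := by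
      rw [pow_mul, hk, ← ht, pow_orderOf_eq_one]
    have h2 := orderOf_dvd_of_pow_eq_one h1
    rw [hm] at h2
    obtain ⟨j, hj⟩ := h2
    have h3 : k = m * j := by
      have : k * 2 = (m * j) * 2 := by rw [hj]; ring
      omega
    have h4 : w ^ (m * 2) = 1 := by
      rw [show m * 2 = orderOf w by omega]; exact pow_orderOf_eq_one w
    rcases Nat.even_or_odd j with hj' | hj'
    · exfalso
      obtain ⟨i, hi⟩ := hj'
      have h5 : t = 1 := by
        rw [← hk, h3, hi, show m * (i + i) = (m * 2) * i by ring, pow_mul, h4, one_pow]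
      rw [h5, orderOf_one] at ht
      omega
    · obtain ⟨i, hi⟩ := hj'
      rw [hm2, ← hk, h3, hi, show m * (2 * i + 1) = (m * 2) * i + m by ring, pow_add, pow_mul, h4, one_pow, one_mul]
  · rintro rfl
    exact Subgroup.npow_mem_zpowers w _

theorem orderOf_half [Finite G] (w : G) (he : Even (orderOf w)) : orderOf (w ^ (orderOf w / 2)) = 2 := by
  have hpos : 0 < orderOf w := orderOf_pos w
  obtain ⟨m, hm⟩ := he
  have hm2 : orderOf w / 2 = m := by omega
  rw [orderOf_pow, hm2, hm]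
  have : (m + m).gcd m = m := by simp
  rw [this]
  have : 0 < m := by omega
  rw [← two_mul, Nat.mul_div_cancel _ this]

theorem isConj_of_conj (g x : G) : IsConj x (g * x * g⁻¹) := isConj_iff.mpr ⟨g, rfl⟩

noncomputable def TF (x₁ x₂ t : G) : ℕ := Nat.card {p : G × G // IsConj x₁ p.1 ∧ IsConj x₂ p.2 ∧ t ∈ Subgroup.zpowers (p.1 * p.2)}

theorem TF_conj (x₁ x₂ : G) {s t : G} (h : IsConj s t) : TF x₁ x₂ s = TF x₁ x₂ t := by
  obtain ⟨g, rfl⟩ := isConj_iff.mp h
  have key : ∀ (g s : G) (p : G × G), (IsConj x₁ p.1 ∧ IsConj x₂ p.2 ∧ s ∈ Subgroup.zpowers (p.1 * p.2)) →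
      (IsConj x₁ (g * p.1 * g⁻¹) ∧ IsConj x₂ (g * p.2 * g⁻¹) ∧ g * s * g⁻¹ ∈ Subgroup.zpowers ((g * p.1 * g⁻¹) * (g * p.2 * g⁻¹))) := by
    rintro g s ⟨a, b⟩ ⟨h1, h2, h3⟩
    refine ⟨h1.trans (isConj_of_conj g a), h2.trans (isConj_of_conj g b), ?_⟩
    obtain ⟨k, hk⟩ := Subgroup.mem_zpowers_iff.mp h3
    rw [Subgroup.mem_zpowers_iff]
    refine ⟨k, ?_⟩
    simp only at hk ⊢
    rw [show g * a * g⁻¹ * (g * b * g⁻¹) = g * (a * b) * g⁻¹ by group, conj_zpow, hk]
  unfold TF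
  refine Nat.card_congr ⟨fun p => ⟨(g * p.1.1 * g⁻¹, g * p.1.2 * g⁻¹), key g s p.1 p.2⟩,
    fun p => ⟨(g⁻¹ * p.1.1 * g, g⁻¹ * p.1.2 * g), ?_⟩, ?_, ?_⟩
  · have := key g⁻¹ (g * s * g⁻¹) p.1 p.2
    simp only [inv_inv] at this
    rwa [show g⁻¹ * (g * s * g⁻¹) * g = s by group] at this
  · rintro ⟨⟨a, b⟩, _⟩
    apply Subtype.ext
    apply Prod.ext
    · simp only; group
    · simp only; group
  · rintro ⟨⟨a, b⟩, _⟩
    apply Subtype.ext
    apply Prod.ext
    · simp only; group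
    · simp only; group

theorem thompson_order [Finite G] (x₁ x₂ : G) (h₁ : orderOf x₁ = 2) (h₂ : orderOf x₂ = 2) (hnc : ¬ IsConj x₁ x₂)
    (hall : ∀ t : G, orderOf t = 2 → IsConj x₁ t ∨ IsConj x₂ t) :
    Nat.card G = Nat.card (Subgroup.centralizer ({x₂} : Set G)) * TF x₁ x₂ x₁ + Nat.card (Subgroup.centralizer ({x₁} : Set G)) * TF x₁ x₂ x₂ := by
  classical
  haveI := Fintype.ofFinite G
  set S : Finset (G × G) := Finset.univ.filter (fun p : G × G => IsConj x₁ p.1 ∧ IsConj x₂ p.2) with hS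
  set C1 : Finset G := Finset.univ.filter (fun t => IsConj x₁ t) with hC1
  set C2 : Finset G := Finset.univ.filter (fun t => IsConj x₂ t) with hC2
  have hord : ∀ {x y : G}, IsConj x y → orderOf x = orderOf y := by
    intro x y h
    obtain ⟨g, rfl⟩ := isConj_iff.mp h
    rw [show g * x * g⁻¹ = MulAut.conj g x from rfl, MulEquiv.orderOf_eq]
  have heven : ∀ p ∈ S, Even (orderOf (p.1 * p.2)) := by
    intro p hp
    rw [hS, Finset.mem_filter] at hp
    rw [← Nat.not_odd_iff_even]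
    rintro ⟨m, hm⟩
    apply hnc
    have hu := (hord hp.2.1).symm.trans h₁
    have hv := (hord hp.2.2).symm.trans h₂
    have hu' : p.1 * p.1 = 1 := by rw [← pow_two, ← hu, pow_orderOf_eq_one]
    have hv' : p.2 * p.2 = 1 := by rw [← pow_two, ← hv, pow_orderOf_eq_one]
    exact (hp.2.1.trans (inv_conj_of_odd hu' hv' (m := m) (by rw [← hm]; exact pow_orderOf_eq_one _))).trans hp.2.2.symm
  have hSeq : S = C1 ×ˢ C2 := by
    ext p
    simp [hS, hC1, hC2]
  have hScard : S.card = C1.card * C2.card := by rw [hSeq, Finset.card_product]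
  have hmap : ∀ p ∈ S, (p.1 * p.2) ^ (orderOf (p.1 * p.2) / 2) ∈ C1 ∪ C2 := by
    intro p hp
    rw [Finset.mem_union, hC1, hC2, Finset.mem_filter, Finset.mem_filter]
    rcases hall _ (orderOf_half _ (heven p hp)) with h | h
    · exact Or.inl ⟨Finset.mem_univ _, h⟩
    · exact Or.inr ⟨Finset.mem_univ _, h⟩
  have hfib := Finset.card_eq_sum_card_fiberwise hmap
  have hdisj : Disjoint C1 C2 := by
    rw [Finset.disjoint_left]
    intro t ht1 ht2
    rw [hC1, Finset.mem_filter] at ht1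
    rw [hC2, Finset.mem_filter] at ht2
    exact hnc (ht1.2.trans ht2.2.symm)
  have hTF : ∀ t, orderOf t = 2 → (S.filter (fun p => (p.1 * p.2) ^ (orderOf (p.1 * p.2) / 2) = t)).card = TF x₁ x₂ t := by
    intro t ht
    unfold TF
    rw [Nat.card_eq_fintype_card, Fintype.card_subtype]
    congr 1
    ext p
    simp only [Finset.mem_filter, Finset.mem_univ, true_and]
    constructor
    · rintro ⟨hp, h⟩
      have := hp
      rw [hS, Finset.mem_filter] at this
      exact ⟨this.2.1, this.2.2, (unique_inv_zpowers _ (heven p hp) t ht).mpr h.symm⟩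
    · rintro ⟨h1, h2, h3⟩
      have hp : p ∈ S := by rw [hS, Finset.mem_filter]; exact ⟨Finset.mem_univ _, h1, h2⟩
      exact ⟨hp, ((unique_inv_zpowers _ (heven p hp) t ht).mp h3).symm⟩
  rw [Finset.sum_union hdisj] at hfib
  have e1 : ∑ t ∈ C1, (S.filter (fun p => (p.1 * p.2) ^ (orderOf (p.1 * p.2) / 2) = t)).card = C1.card * TF x₁ x₂ x₁ := by
    rw [Finset.sum_congr rfl (g := fun _ => TF x₁ x₂ x₁), Finset.sum_const, smul_eq_mul]
    intro t ht
    rw [hC1, Finset.mem_filter] at ht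
    rw [hTF t ((hord ht.2).symm.trans h₁), TF_conj x₁ x₂ ht.2]
  have e2 : ∑ t ∈ C2, (S.filter (fun p => (p.1 * p.2) ^ (orderOf (p.1 * p.2) / 2) = t)).card = C2.card * TF x₁ x₂ x₂ := by
    rw [Finset.sum_congr rfl (g := fun _ => TF x₁ x₂ x₂), Finset.sum_const, smul_eq_mul]
    intro t ht
    rw [hC2, Finset.mem_filter] at ht
    rw [hTF t ((hord ht.2).symm.trans h₂), TF_conj x₁ x₂ ht.2]
  rw [e1, e2, hScard] at hfib
  have i1 := H5.card_centralizer_mul_index x₁
  have i2 := H5.card_centralizer_mul_index x₂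
  rw [← H5.card_isConj, Nat.card_eq_fintype_card (α := {x : G // IsConj x₁ x}), Fintype.card_subtype] at i1
  rw [← H5.card_isConj, Nat.card_eq_fintype_card (α := {x : G // IsConj x₂ x}), Fintype.card_subtype] at i2
  have hC1' : (Finset.univ.filter (fun x => IsConj x₁ x)).card = C1.card := rfl
  have hC2' : (Finset.univ.filter (fun x => IsConj x₂ x)).card = C2.card := rfl
  rw [hC1'] at i1
  rw [hC2'] at i2
  have hpos : 0 < C1.card * C2.card := by
    apply Nat.mul_pos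
    · exact Finset.card_pos.mpr ⟨x₁, by rw [hC1, Finset.mem_filter]; exact ⟨Finset.mem_univ _, IsConj.refl _⟩⟩
    · exact Finset.card_pos.mpr ⟨x₂, by rw [hC2, Finset.mem_filter]; exact ⟨Finset.mem_univ _, IsConj.refl _⟩⟩
  set c1 := Nat.card (Subgroup.centralizer ({x₁} : Set G))
  set c2 := Nat.card (Subgroup.centralizer ({x₂} : Set G))
  set n := Nat.card G
  have hn : 0 < n := Nat.card_pos
  apply Nat.eq_of_mul_eq_mul_right hn
  calc n * n = (c1 * C1.card) * (c2 * C2.card) := by rw [i1, i2]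
    _ = c1 * c2 * (C1.card * C2.card) := by ring
    _ = c1 * c2 * (C1.card * TF x₁ x₂ x₁ + C2.card * TF x₁ x₂ x₂) := by rw [hfib]
    _ = (c2 * TF x₁ x₂ x₁) * (c1 * C1.card) + (c1 * TF x₁ x₂ x₂) * (c2 * C2.card) := by ring
    _ = (c2 * TF x₁ x₂ x₁) * n + (c1 * TF x₁ x₂ x₂) * n := by rw [i1, i2]
    _ = _ := by ring

end Cfsg.Agent.H4
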