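import Mathlib
import Cfsg.Agent.H1.ZS3
import Cfsg.Agent.H1.Prod
import Cfsg.Agent.L0.Coprime
import Cfsg.Agent.L0.Core
set_option autoImplicit false
set_option linter.unusedVariables false
/-! Involutions whose products with their conjugates have 3-power order. -/
open Subgroup Pointwise
namespace Cfsg.Agent.H4
universe u

theorem three_core {G : Type u} [Group G] [Finite G] (a : G) (ha : orderOf a = 2)
    (hprod : ∀ g : G, ∃ k : ℕ, orderOf (a * (g * a * g⁻¹)) = 3 ^ k) (g : G) : a * (g * a * g⁻¹) ∈ pCore 3 G := by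
  classical
  haveI : Fact (Nat.Prime 3) := ⟨Nat.prime_three⟩
  have haa : a * a = 1 := by rw [← pow_two, ← ha, pow_orderOf_eq_one]
  have hai : a⁻¹ = a := inv_eq_of_mul_eq_one_left haa
  have hiso : IsIsolatedInvolution a := by
    refine ⟨ha, fun g hg => ?_⟩
    obtain ⟨k, hk⟩ := hprod g
    have h1 : (a * (g * a * g⁻¹)) ^ 2 = 1 := by
      rw [hg.mul_pow]
      have h2 : (g * a * g⁻¹) ^ 2 = 1 := by rw [conj_pow, pow_two, haa]; group
      rw [h2, pow_two, haa, one_mul]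
    have h3 : orderOf (a * (g * a * g⁻¹)) ∣ 2 := orderOf_dvd_of_pow_eq_one h1
    rw [hk] at h3
    have h4 : (3 ^ k : ℕ) = 1 := Nat.eq_one_of_dvd_coprimes (Nat.Coprime.pow_left k (by norm_num : Nat.Coprime 3 2)) dvd_rfl h3
    rw [h4, orderOf_eq_one_iff] at hk
    have h5 := eq_inv_of_mul_eq_one_right hk
    rw [h5, hai]
  obtain ⟨K, hK⟩ : ∃ K : Subgroup G, K = oddCore G := ⟨_, rfl⟩
  haveI hKn : K.Normal := by rw [hK]; infer_instance
  have hKodd : Odd (Nat.card K) := by rw [hK]; exact L0.odd_card_oddCore G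
  have hz : ∀ g : G, a * (g * a * g⁻¹) ∈ K := by
    intro g
    have h1 := H1.zstar hiso g
    rw [← hK, hai] at h1
    rwa [show a * (g * a * g⁻¹) = a * g * a * g⁻¹ by group]
  have hcop : (Nat.card (zpowers a)).Coprime (Nat.card K) := by
    rw [Nat.card_zpowers, ha]
    exact (Nat.coprime_two_left).mpr hKodd
  have hsz : Group.IsSolvable (zpowers a) ∨ Group.IsSolvable K := Or.inl (Group.isSolvable_of_comm (fun x y => Subtype.ext (by
    obtain ⟨i, hi⟩ := x.2
    obtain ⟨j, hj⟩ := y.2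
    show (x : G) * (y : G) = (y : G) * (x : G)
    rw [← hi, ← hj]
    exact (zpow_mul_comm a i j))))
  have hnK : zpowers a ≤ normalizer (K : Set G) := by rw [Subgroup.normalizer_eq_top]; exact le_top
  have hcomm : ∀ y : G, a * (y * a * y⁻¹) = (a * y * a⁻¹) * y⁻¹ := by intro y; rw [hai]; group
  -- index
  have hidx : ∃ k, (centralizer ({a} : Set G)).relIndex K = 3 ^ k := by
    refine ⟨_, Nat.eq_prime_pow_of_unique_prime_dvd (Subgroup.index_ne_zero_of_finite) ?_⟩
    intro r hr hrd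
    by_contra hr3
    haveI : Fact r.Prime := ⟨hr⟩
    obtain ⟨R, hR, haR⟩ := L0.exists_invariant_sylow (p := r) hnK hcop hsz
    have hRle : R ≤ centralizer ({a} : Set G) := by
      intro y hy
      have h1 : (a * y * a⁻¹) * y⁻¹ ∈ R := mul_mem ((mem_normalizer_iff.mp (haR (mem_zpowers a)) y).mp hy) (inv_mem hy)
      rw [← hcomm] at h1
      obtain ⟨k, hk⟩ := hprod y
      obtain ⟨j, hj⟩ := (IsPGroup.iff_orderOf.mp hR.isPGroup) ⟨_, h1⟩
      rw [Subgroup.orderOf_mk, hk] at hj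
      have h2 : (3 ^ k : ℕ) = 1 := Nat.eq_one_of_dvd_coprimes
        (Nat.Coprime.pow k j ((Nat.coprime_primes Nat.prime_three hr).mpr (Ne.symm hr3))) dvd_rfl (hj ▸ dvd_rfl)
      rw [h2, orderOf_eq_one_iff, hcomm, mul_inv_eq_one, mul_inv_eq_iff_eq_mul] at hk
      rw [mem_centralizer_singleton_iff]
      exact hk.symm
    have h3 := (L0.isSylowIn_iff.mp hR).2.2
    exact h3 (dvd_trans hrd (Subgroup.relIndex_dvd_of_le_left K hRle))
  obtain ⟨k, hk⟩ := hidx
  obtain ⟨T, hT, haT⟩ := L0.exists_invariant_sylow (p := 3) hnK hcop hsz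
  have hT' := L0.isSylowIn_iff.mp hT
  have hgen : ∀ y ∈ K, a * (y * a * y⁻¹) ∈ T := by
    intro y hy
    have h1 : ((T.subgroupOf K).index).Coprime (((centralizer ({a} : Set G)).subgroupOf K).index) := by
      have h2 : ((centralizer ({a} : Set G)).subgroupOf K).index = 3 ^ k := hk
      rw [h2]
      exact Nat.Coprime.pow_right _ ((Nat.Prime.coprime_iff_not_dvd Nat.prime_three).mpr hT'.2.2).symm
    obtain ⟨t, ht, c, hc, htc⟩ := H1.factor_of_coprime h1 ⟨y, hy⟩
    have h3 : y = (t : G) * (c : G) := congrArg (fun z : K => (z : G)) htc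
    rw [Subgroup.mem_subgroupOf] at ht hc
    rw [mem_centralizer_singleton_iff] at hc
    have h4 : a * (y * a * y⁻¹) = a * ((t : G) * a * (t : G)⁻¹) := by
      rw [h3]
      have : (c : G) * a * (c : G)⁻¹ = a := by rw [hc]; group
      calc a * ((t : G) * c * a * ((t : G) * c)⁻¹) = a * ((t : G) * ((c : G) * a * (c : G)⁻¹) * (t : G)⁻¹) := by group
        _ = _ := by rw [this]
    rw [h4, hcomm]
    exact mul_mem ((mem_normalizer_iff.mp (haT (mem_zpowers a)) _).mp ht) (inv_mem ht)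
  obtain ⟨M, hM⟩ : ∃ M : Subgroup G, M = closure {z | ∃ y ∈ K, z = a * (y * a * y⁻¹)} := ⟨_, rfl⟩
  have hMT : M ≤ T := by
    rw [hM, closure_le]
    rintro _ ⟨y, hy, rfl⟩
    exact hgen y hy
  have hMK : M ≤ K := hMT.trans hT'.1
  have hM3 : IsPGroup 3 M := hT'.2.1.to_le hMT
  have hMn : K ≤ normalizer (M : Set G) := by
    intro z hz'
    apply Subgroup.mem_normalizer_fintype
    intro w hw
    rw [SetLike.mem_coe, hM] at hw
    show z * w * z⁻¹ ∈ M
    induction hw using Subgroup.closure_induction with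
    | mem w hw =>
      obtain ⟨y, hy, rfl⟩ := hw
      have e : z * (a * (y * a * y⁻¹)) * z⁻¹ = (a * (z * a * z⁻¹))⁻¹ * (a * ((z * y) * a * (z * y)⁻¹)) := by
        rw [mul_inv_rev, mul_inv_rev, mul_inv_rev, inv_inv, hai]
        calc z * (a * (y * a * y⁻¹)) * z⁻¹ = z * a * z⁻¹ * (1 * (z * y * a * (z * y)⁻¹)) := by group
          _ = z * a * z⁻¹ * ((a * a) * (z * y * a * (z * y)⁻¹)) := by rw [haa]
          _ = z * (a * z⁻¹) * a * (a * (z * y * a * (z * y)⁻¹)) := by group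
      rw [e, hM]
      exact mul_mem (inv_mem (subset_closure ⟨z, hz', rfl⟩)) (subset_closure ⟨z * y, mul_mem hz' hy, rfl⟩)
    | one => simp
    | mul x y _ _ hx hy =>
      have e : z * (x * y) * z⁻¹ = (z * x * z⁻¹) * (z * y * z⁻¹) := by group
      rw [e]; exact mul_mem hx hy
    | inv x _ hx =>
      have e : z * x⁻¹ * z⁻¹ = (z * x * z⁻¹)⁻¹ := by group
      rw [e]; exact inv_mem hx
  have hMcore : M ≤ pCore 3 G := by
    haveI : (M.subgroupOf K).Normal := Subgroup.normal_subgroupOf_of_le_normalizer hMn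
    have h1 : M.subgroupOf K ≤ pCore 3 K := L0.le_pCore hM3.comap_subtype
    intro w hw
    exact L0.pCore_subgroup_le 3 K ⟨⟨w, hMK hw⟩, h1 hw, rfl⟩
  -- general element
  obtain ⟨c, hc⟩ : ∃ c, c = a * (g * a * g⁻¹) := ⟨_, rfl⟩
  have hcK : c ∈ K := by rw [hc]; exact hz g
  have hco : Odd (orderOf c) := by
    rw [← Subgroup.orderOf_mk c hcK]
    exact hKodd.of_dvd_nat (orderOf_dvd_natCard _)
  obtain ⟨j, hj⟩ := hco
  have hbb : (g * a * g⁻¹) * (g * a * g⁻¹) = 1 := by
    calc (g * a * g⁻¹) * (g * a * g⁻¹) = g * (a * a) * g⁻¹ := by group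
      _ = 1 := by rw [haa]; group
  have hac : a * c * a⁻¹ = c⁻¹ := by
    rw [hc, hai]
    have hbi : (g * a * g⁻¹)⁻¹ = g * a * g⁻¹ := inv_eq_of_mul_eq_one_left hbb
    rw [mul_inv_rev, hbi, hai]
    calc a * (a * (g * a * g⁻¹)) * a = (a * a) * (g * a * g⁻¹) * a := by group
      _ = g * a * g⁻¹ * a := by rw [haa]; group
  have hacj : ∀ i : ℕ, a * c ^ i = (c ^ i)⁻¹ * a := by
    intro i
    have h1 : (a * c * a⁻¹) ^ i = (c⁻¹) ^ i := by rw [hac]
    rw [conj_pow, inv_pow, mul_inv_eq_iff_eq_mul] at h1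
    exact h1
  have h2 : c ^ j * a * (c ^ j)⁻¹ = a * c := by
    have h3 : c ^ j * a = a * (c ^ j)⁻¹ := by
      have h4 := hacj j
      calc c ^ j * a = a * a * (c ^ j * a) := by rw [haa, one_mul]
        _ = a * (a * c ^ j) * a := by group
        _ = a * (c ^ j)⁻¹ * (a * a) := by rw [h4]; group
        _ = a * (c ^ j)⁻¹ := by rw [haa, mul_one]
    rw [h3]
    have h5 : c ^ (2 * j + 1) = 1 := by rw [← hj, pow_orderOf_eq_one]
    have h6 : (c ^ j)⁻¹ * (c ^ j)⁻¹ = c := by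
      rw [← mul_inv_rev, ← pow_add, ← two_mul]
      rw [inv_eq_iff_mul_eq_one, ← pow_succ]
      exact h5
    rw [mul_assoc, h6]
  have h3 : c = a * (c ^ j * a * (c ^ j)⁻¹) := by
    rw [h2, ← mul_assoc, haa, one_mul]
  rw [← hc, h3]
  apply hMcore
  rw [hM]
  exact subset_closure ⟨c ^ j, pow_mem hcK j, rfl⟩

end Cfsg.Agent.H4
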