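import Mathlib
import Cfsg.Prelude.Def_Perm

set_option linter.all false
set_option autoImplicit false

/-! Carlitz–McConnel / Burnside: permutations of `ZMod p` whose difference quotients lie in a
proper subgroup of the units are affine. -/

namespace Cfsg.Agent.H4

open Polynomial

theorem two_closed_key {p : ℕ} [hp : Fact p.Prime] (H : Subgroup (ZMod p)ˣ) (hH : H ≠ ⊤) (σ : Equiv.Perm (ZMod p))
    (hσ : ∀ x : ZMod p, ∀ u : H, ∃ v : H, σ (x + ((u : (ZMod p)ˣ) : ZMod p)) = σ x + ((v : (ZMod p)ˣ) : ZMod p)) :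
    ∃ a b : ZMod p, ∀ x, σ x = a * x + b := by
  classical
  haveI : Fintype H := Fintype.ofFinite H
  obtain ⟨h, hh⟩ : ∃ h, h = Fintype.card H := ⟨_, rfl⟩
  have hpp : p.Prime := hp.out
  have hp2 := hpp.two_le
  have hhpos : 0 < h := by rw [hh]; exact Fintype.card_pos
  have hcardH : 2 * h ≤ p - 1 := by
    have h1 := H.card_mul_index
    rw [Nat.card_eq_fintype_card, Nat.card_eq_fintype_card, ZMod.card_units_eq_totient, Nat.totient_prime hpp, ← hh] at h1
    have h2 : H.index ≠ 1 := fun e => hH (Subgroup.index_eq_one.1 e)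
    have h3 : H.index ≠ 0 := Subgroup.index_ne_zero_of_finite
    have h4 : 2 ≤ H.index := by omega
    calc 2 * h ≤ H.index * h := Nat.mul_le_mul_right _ h4
      _ = p - 1 := by rw [mul_comm]; exact h1
  -- power sums
  have hS0 : ∑ u : H, (((u : (ZMod p)ˣ) : ZMod p)) ^ 0 = (h : ZMod p) := by simp [hh]
  have hSh : ∑ u : H, (((u : (ZMod p)ˣ) : ZMod p)) ^ h = (h : ZMod p) := by
    have : ∀ u : H, (((u : (ZMod p)ˣ) : ZMod p)) ^ h = 1 := by
      intro u
      have h1 : u ^ h = 1 := by rw [hh]; exact pow_card_eq_one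
      have h2 := congrArg (fun w : H => ((w : (ZMod p)ˣ) : ZMod p)) h1
      simpa using h2
    rw [Finset.sum_congr rfl (fun u _ => this u)]
    simp [hh]
  have hSj : ∀ j, j ≠ 0 → j < h → ∑ u : H, (((u : (ZMod p)ˣ) : ZMod p)) ^ j = 0 := by
    intro j hj0 hj
    rw [hh] at hj
    exact FiniteField.sum_subgroup_pow_eq_zero hj0 hj
  -- moments
  have hmom : ∀ (m : ℕ) (x : ZMod p), ∑ u : H, (σ (x + ((u : (ZMod p)ˣ) : ZMod p))) ^ m
      = ∑ u : H, (σ x + ((u : (ZMod p)ˣ) : ZMod p)) ^ m := by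
    intro m x
    choose φ hφ using hσ x
    have hinj : Function.Injective φ := by
      intro u v huv
      have h1 : σ (x + ((u : (ZMod p)ˣ) : ZMod p)) = σ (x + ((v : (ZMod p)ˣ) : ZMod p)) := by rw [hφ, hφ, huv]
      have h2 := add_left_cancel (σ.injective h1)
      exact Subtype.ext (Units.ext h2)
    have hbij : Function.Bijective φ := Finite.injective_iff_bijective.1 hinj
    rw [← hbij.sum_comp (fun u : H => (σ x + ((u : (ZMod p)ˣ) : ZMod p)) ^ m)]
    apply Finset.sum_congr rfl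
    intro u _
    rw [hφ]
  -- the polynomial
  obtain ⟨f, hfeval, hfdeg⟩ : ∃ f : (ZMod p)[X], (∀ x, f.eval x = σ x) ∧ f.degree < p := by
    refine ⟨Lagrange.interpolate Finset.univ id σ, fun x => ?_, ?_⟩
    · exact Lagrange.eval_interpolate_at_node (r := σ) (v := id) (Set.injOn_id _) (Finset.mem_univ x)
    · have := Lagrange.degree_interpolate_lt (s := Finset.univ) (v := id) (r := σ) (Set.injOn_id _)
      rwa [Finset.card_univ, ZMod.card] at this
  have hf0 : f ≠ 0 := by
    intro e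
    have h1 : σ 0 = σ 1 := by rw [← hfeval, ← hfeval, e]; simp
    exact zero_ne_one (σ.injective h1)
  obtain ⟨n, hn⟩ : ∃ n, n = f.natDegree := ⟨_, rfl⟩
  have hnp : n < p := by
    rw [hn]
    exact (natDegree_lt_iff_degree_lt hf0).2 hfdeg
  by_cases hn1 : n ≤ 1
  · refine ⟨f.coeff 1, f.coeff 0, fun x => ?_⟩
    rw [← hfeval]
    have e := eq_X_add_C_of_natDegree_le_one (p := f) (by rw [← hn]; exact hn1)
    have e2 : f.eval x = (C (f.coeff 1) * X + C (f.coeff 0)).eval x := congrArg (fun q => q.eval x) e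
    rw [e2]
    simp
  exfalso
  push Not at hn1
  obtain ⟨m, hm⟩ : ∃ m, m = (p - 1) / n := ⟨_, rfl⟩
  obtain ⟨N, hN⟩ : ∃ N, N = m * n := ⟨_, rfl⟩
  have hm1 : 1 ≤ m := by rw [hm]; exact (Nat.one_le_div_iff (by omega)).2 (by omega)
  have hNp : N ≤ p - 1 := by rw [hN, hm]; exact Nat.div_mul_le_self _ _
  have hnN : n ≤ N := by rw [hN]; exact Nat.le_mul_of_pos_left n hm1
  have hhN : h < N := by
    have h1 : p - 1 < N + n := by
      have := Nat.lt_div_mul_add (a := p - 1) (b := n) (by omega)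
      rw [← hm, ← hN] at this
      exact this
    omega
  obtain ⟨g, hg⟩ : ∃ g, g = f ^ m := ⟨_, rfl⟩
  have hgdeg : g.natDegree = N := by rw [hg, natDegree_pow, ← hn, hN]
  have hgN : g.coeff N ≠ 0 := by
    rw [← hgdeg]
    change g.leadingCoeff ≠ 0
    rw [leadingCoeff_ne_zero, hg]
    exact pow_ne_zero _ hf0
  have hLR : (∑ u : H, taylor (((u : (ZMod p)ˣ) : ZMod p)) g) = ∑ u : H, (f + C (((u : (ZMod p)ˣ) : ZMod p))) ^ m := by
    apply eq_of_natDegree_lt_card_of_eval_eq _ _ (Function.injective_id (α := ZMod p))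
    · intro x
      rw [eval_finsetSum, eval_finsetSum]
      simp only [id, taylor_eval, hg, eval_pow, eval_add, eval_C, hfeval]
      exact hmom m x
    · rw [ZMod.card]
      have hNp' : N < p := by omega
      refine lt_of_le_of_lt (show max _ _ ≤ N from max_le ?_ ?_) hNp'
      · apply natDegree_sum_le_of_forall_le
        intro u _
        rw [natDegree_taylor, hgdeg]
      · apply natDegree_sum_le_of_forall_le
        intro u _
        rw [natDegree_pow, natDegree_add_C, ← hn, hN]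
  have hL : (∑ u : H, taylor (((u : (ZMod p)ˣ) : ZMod p)) g).coeff (N - h)
      = (h : ZMod p) * g.coeff (N - h) + (h : ZMod p) * ((N.choose (N - h) : ZMod p) * g.coeff N) := by
    rw [finset_sum_coeff]
    have h1 : ∀ u : H, (taylor (((u : (ZMod p)ˣ) : ZMod p)) g).coeff (N - h)
        = ∑ j ∈ Finset.range (h + 1), (hasseDeriv (N - h) g).coeff j * (((u : (ZMod p)ˣ) : ZMod p)) ^ j := by
      intro u
      rw [taylor_coeff]
      apply eval_eq_sum_range'
      have := natDegree_hasseDeriv_le g (N - h)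
      rw [hgdeg] at this
      omega
    rw [Finset.sum_congr rfl (fun u _ => h1 u), Finset.sum_comm]
    have h2 : ∀ j, ∑ u : H, (hasseDeriv (N - h) g).coeff j * (((u : (ZMod p)ˣ) : ZMod p)) ^ j
        = (hasseDeriv (N - h) g).coeff j * ∑ u : H, (((u : (ZMod p)ˣ) : ZMod p)) ^ j := by
      intro j; rw [Finset.mul_sum]
    rw [Finset.sum_congr rfl (fun j _ => h2 j), Finset.sum_range_succ, Finset.sum_eq_single 0, hS0, hSh,
      hasseDeriv_coeff, hasseDeriv_coeff]
    · have e1 : h + (N - h) = N := by omega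
      rw [e1, zero_add, Nat.choose_self]
      push_cast
      ring
    · intro j hj hj0
      rw [hSj j hj0 (Finset.mem_range.1 hj), mul_zero]
    · intro h0
      exact absurd (Finset.mem_range.2 hhpos) h0
  have hR : (∑ u : H, (f + C (((u : (ZMod p)ˣ) : ZMod p))) ^ m).coeff (N - h) = (h : ZMod p) * g.coeff (N - h) := by
    rw [finset_sum_coeff]
    have h1 : ∀ u : H, ((f + C (((u : (ZMod p)ˣ) : ZMod p))) ^ m).coeff (N - h)
        = ∑ i ∈ Finset.range (m + 1), ((m.choose i : ZMod p) * (f ^ i).coeff (N - h)) * (((u : (ZMod p)ˣ) : ZMod p)) ^ (m - i) := by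
      intro u
      rw [add_pow, finset_sum_coeff]
      apply Finset.sum_congr rfl
      intro i _
      rw [← C_pow, ← C_eq_natCast, mul_assoc, ← C_mul, coeff_mul_C]
      ring
    rw [Finset.sum_congr rfl (fun u _ => h1 u), Finset.sum_comm]
    have h2 : ∀ i, ∑ u : H, ((m.choose i : ZMod p) * (f ^ i).coeff (N - h)) * (((u : (ZMod p)ˣ) : ZMod p)) ^ (m - i)
        = ((m.choose i : ZMod p) * (f ^ i).coeff (N - h)) * ∑ u : H, (((u : (ZMod p)ˣ) : ZMod p)) ^ (m - i) := by
      intro i; rw [Finset.mul_sum]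
    rw [Finset.sum_congr rfl (fun j _ => h2 j), Finset.sum_range_succ, Finset.sum_eq_zero, Nat.sub_self, hS0,
      Nat.choose_self, hg]
    · push_cast; ring
    · intro i hi
      have him := Finset.mem_range.1 hi
      by_cases hj : m - i < h
      · rw [hSj (m - i) (by omega) hj, mul_zero]
      · have h3 : (f ^ i).coeff (N - h) = 0 := by
          apply coeff_eq_zero_of_natDegree_lt
          rw [natDegree_pow, ← hn]
          have h4 : i + h ≤ m := by omega
          have h5 : (i + h) * n ≤ N := by rw [hN]; exact Nat.mul_le_mul_right n h4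
          have h6 : h * 2 ≤ h * n := Nat.mul_le_mul_left h hn1
          rw [add_mul] at h5
          omega
        rw [h3, mul_zero, zero_mul]
  rw [hLR, hR] at hL
  have hz : (h : ZMod p) * ((N.choose (N - h) : ZMod p) * g.coeff N) = 0 := by
    have := hL
    linear_combination -this
  have hhp : (h : ZMod p) ≠ 0 := by
    rw [Ne, ZMod.natCast_eq_zero_iff]
    intro hd
    have := Nat.le_of_dvd hhpos hd
    omega
  have hcp : (N.choose (N - h) : ZMod p) ≠ 0 := by
    rw [Ne, ZMod.natCast_eq_zero_iff]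
    intro hd
    have h1 := Nat.choose_mul_factorial_mul_factorial (show N - h ≤ N by omega)
    have h2 : p ∣ N.factorial := by
      rw [← h1, mul_assoc]; exact hd.mul_right _
    have := (hpp.dvd_factorial).1 h2
    omega
  rcases mul_eq_zero.1 hz with h1 | h1
  · exact hhp h1
  · rcases mul_eq_zero.1 h1 with h2 | h2
    · exact hcp h2
    · exact hgN h2


theorem closure_affine (p : ℕ) [hp : Fact p.Prime] (G : Subgroup (Equiv.Perm (ZMod p)))
    (hG : G ≤ affineGroup (ZMod p)) (htrans : ∀ b : ZMod p, ∃ g ∈ G, ∀ x, g x = x + b) :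
    (G ≠ affineGroup (ZMod p) → ∀ σ : Equiv.Perm (ZMod p),
      (∀ t : Fin 2 → ZMod p, ∃ g ∈ G, ∀ i, σ (t i) = g (t i)) → σ ∈ G) ∧
    (∀ σ : Equiv.Perm (ZMod p), (∀ t : Fin 2 → ZMod p, ∃ g ∈ affineGroup (ZMod p), ∀ i, σ (t i) = g (t i))) ∧
    (∀ σ : Equiv.Perm (ZMod p), (∀ t : Fin 3 → ZMod p, ∃ g ∈ affineGroup (ZMod p), ∀ i, σ (t i) = g (t i)) →
      σ ∈ affineGroup (ZMod p)) := by
  classical
  have hpp := hp.out
  refine ⟨fun hne σ hσ => ?_, fun σ t => ?_, fun σ hσ => ?_⟩
  · -- the multiplier group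
    let H : Subgroup (ZMod p)ˣ :=
      { carrier := {a | ∃ g ∈ G, ∀ x, g x = (a : ZMod p) * x}
        one_mem' := ⟨1, G.one_mem, fun x => by simp⟩
        mul_mem' := by
          rintro a b ⟨g, hg, hg'⟩ ⟨k, hk, hk'⟩
          exact ⟨g * k, G.mul_mem hg hk, fun x => by rw [Equiv.Perm.mul_apply, hk', hg', Units.val_mul, mul_assoc]⟩
        inv_mem' := by
          rintro a ⟨g, hg, hg'⟩
          refine ⟨g⁻¹, G.inv_mem hg, fun x => ?_⟩
          rw [Equiv.Perm.inv_eq_iff_eq, hg', ← mul_assoc, Units.mul_inv, one_mul] }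
    have hmem : ∀ g ∈ G, ∃ a : H, ∃ b : ZMod p, ∀ x, g x = ((a : (ZMod p)ˣ) : ZMod p) * x + b := by
      intro g hg
      obtain ⟨a, b, hab⟩ := hG hg
      obtain ⟨k, hk, hk'⟩ := htrans (-b)
      refine ⟨⟨a, k * g, G.mul_mem hk hg, fun x => ?_⟩, b, hab⟩
      rw [Equiv.Perm.mul_apply, hk', hab]; ring
    have haff : ∀ (σ : Equiv.Perm (ZMod p)) (a : H) (b : ZMod p), (∀ x, σ x = ((a : (ZMod p)ˣ) : ZMod p) * x + b) → σ ∈ G := by
      intro σ a b hab
      obtain ⟨g, hg, hg'⟩ := a.2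
      obtain ⟨k, hk, hk'⟩ := htrans b
      have : σ = k * g := by
        ext1 x
        rw [hab, Equiv.Perm.mul_apply, hk', hg']
      rw [this]; exact G.mul_mem hk hg
    have hH : H ≠ ⊤ := by
      intro e
      apply hne
      apply le_antisymm hG
      rintro τ ⟨a, b, hab⟩
      exact haff τ ⟨a, e ▸ Subgroup.mem_top a⟩ b hab
    obtain ⟨a, b, hab⟩ := two_closed_key H hH σ (by
      intro x u
      obtain ⟨g, hg, hg'⟩ := hσ ![x, x + ((u : (ZMod p)ˣ) : ZMod p)]
      obtain ⟨v, c, hv⟩ := hmem g hg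
      refine ⟨v * u, ?_⟩
      have h0 := hg' 0
      have h1 := hg' 1
      simp only [Matrix.cons_val_zero, Matrix.cons_val_one] at h0 h1
      rw [h1, h0, hv, hv]
      push_cast
      ring)
    obtain ⟨g, hg, hg'⟩ := hσ ![0, 1]
    obtain ⟨v, c, hv⟩ := hmem g hg
    have h0 := hg' 0
    have h1 := hg' 1
    simp only [Matrix.cons_val_zero, Matrix.cons_val_one] at h0 h1
    rw [hab, hv] at h0 h1
    apply haff σ v b
    intro x
    rw [hab]
    have : a = ((v : (ZMod p)ˣ) : ZMod p) := by linear_combination h1 - h0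
    rw [this]
  · by_cases h01 : t 0 = t 1
    · refine ⟨Equiv.addRight (σ (t 0) - t 0), ⟨1, σ (t 0) - t 0, fun x => by simp⟩, ?_⟩
      intro i
      fin_cases i
      · show σ (t 0) = t 0 + (σ (t 0) - t 0); ring
      · show σ (t 1) = t 1 + (σ (t 0) - t 0); rw [← h01]; ring
    · have hd : t 1 - t 0 ≠ 0 := fun e => h01 (sub_eq_zero.1 e).symm
      have hσd : σ (t 1) - σ (t 0) ≠ 0 := fun e => h01 (σ.injective (sub_eq_zero.1 e)).symm
      let a : (ZMod p)ˣ := Units.mk0 ((σ (t 1) - σ (t 0)) / (t 1 - t 0)) (div_ne_zero hσd hd)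
      refine ⟨(Units.mulLeft a).trans (Equiv.addRight (σ (t 0) - (a : ZMod p) * t 0)), ⟨a, σ (t 0) - (a : ZMod p) * t 0, fun x => rfl⟩, ?_⟩
      intro i
      fin_cases i
      · show σ (t 0) = (a : ZMod p) * t 0 + (σ (t 0) - (a : ZMod p) * t 0); ring
      · show σ (t 1) = (a : ZMod p) * t 1 + (σ (t 0) - (a : ZMod p) * t 0)
        have ha : (a : ZMod p) * (t 1 - t 0) = σ (t 1) - σ (t 0) := div_mul_cancel₀ _ hd
        linear_combination -ha
  · obtain ⟨g, ⟨a, b, hg⟩, hg'⟩ := hσ ![0, 1, 0]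
    refine ⟨a, b, fun x => ?_⟩
    obtain ⟨k, ⟨c, d, hk⟩, hk'⟩ := hσ ![0, 1, x]
    have e0 := hg' 0
    have e1 := hg' 1
    have f0 := hk' 0
    have f1 := hk' 1
    have f2 := hk' 2
    simp only [Matrix.cons_val_zero, Matrix.cons_val_one, Matrix.cons_val] at e0 e1 f0 f1 f2
    rw [hg] at e0 e1
    rw [hk] at f0 f1 f2
    have hb : b = d := by linear_combination f0 - e0
    have hc : (a : ZMod p) = c := by linear_combination f1 - e1 - f0 + e0
    rw [f2, hb, hc]

end Cfsg.Agent.H4
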